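import Cfsg.Agent.R2.T1.Inf.TorL
import Cfsg.Agent.StandardComponent.AltAut

/-!
# S5771, S5929: elements of `H` as permutations, `n ≥ 7` (helper11)

* `exists_perm` : the elements of `H` act on `A_n` as permutations;
* `comm_three` : an element of `H` which centralizes `C_{A_n}(c)`, `c` a 3-cycle, is a power of `c`;
* `no_tor` : a torus of order `3 m` of a lift of a 3-cycle in `H`: `m = 1`, that is `q = 2` or `q = 4`;
* `no32` : if `H` stabilizes a proper subspace of `V F` then the 3-cycles do not have 32 fixed weights (`q ≠ 2, 4`);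
* `no_inv3`, `no_inv3'` : if `A_n` has fixed vectors on the adjoint module then the 3-cycles are not of type `(20, 49)`,
  `(32, 67)` (`q` odd), and not of type `(2, 79)`, `(14, 49)` if `q ≠ 5, 7`.
-/

set_option autoImplicit false
set_option maxRecDepth 100000

namespace Cfsg.Agent.R2.T1

open Cfsg Cfsg.Lie Module Equiv Equiv.Perm
open Cfsg.Agent.H943.E7V.Block (D1 rho)
open Cfsg.Agent.H952.F4 (ev es MaxAlt)

universe u

/-! ### permutations -/

section perm
variable {n : ℕ}

theorem card_support_compl {c : Perm (Fin n)} (hc : c.IsThreeCycle) : (Finset.univ \ c.support).card = n - 3 := by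
  rw [Finset.card_sdiff_of_subset (Finset.subset_univ _), Finset.card_univ, Fintype.card_fin, hc.card_support]

theorem exists_three {c : Perm (Fin n)} (hn : 7 ≤ n) (hc : c.IsThreeCycle) {u : Fin n} (hu : u ∉ c.support) :
    ∃ v w t : Fin n, v ∉ c.support ∧ w ∉ c.support ∧ t ∉ c.support ∧ u ≠ v ∧ u ≠ w ∧ u ≠ t ∧ v ≠ w ∧ v ≠ t ∧ w ≠ t := by
  have h1 : 3 ≤ ((Finset.univ \ c.support).erase u).card := by
    rw [Finset.card_erase_of_mem (by simp [hu]), card_support_compl hc]
    omega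
  obtain ⟨s, hs, hs3⟩ := Finset.exists_subset_card_eq h1
  obtain ⟨v, w, t, hvw, hvt, hwt, rfl⟩ := Finset.card_eq_three.1 hs3
  have hv := hs (Finset.mem_insert_self _ _)
  have hw := hs (Finset.mem_insert_of_mem (Finset.mem_insert_self _ _))
  have ht := hs (Finset.mem_insert_of_mem (Finset.mem_insert_of_mem (Finset.mem_singleton_self _)))
  rw [Finset.mem_erase, Finset.mem_sdiff] at hv hw ht
  exact ⟨v, w, t, hv.2.2, hw.2.2, ht.2.2, Ne.symm hv.1, Ne.symm hw.1, Ne.symm ht.1, hvw, hvt, hwt⟩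

/-- the 3-cycle `u → v → w → u` -/
def cyc3 (u v w : Fin n) : Perm (Fin n) := swap u v * swap v w

theorem cyc3_mem {u v w : Fin n} (huv : u ≠ v) (hvw : v ≠ w) : cyc3 u v w ∈ alternatingGroup (Fin n) := by
  rw [mem_alternatingGroup, cyc3, Perm.sign_mul, sign_swap huv, sign_swap hvw]
  decide

theorem cyc3_fix {u v w z : Fin n} (h1 : z ≠ u) (h2 : z ≠ v) (h3 : z ≠ w) : cyc3 u v w z = z := by
  rw [cyc3, Perm.mul_apply, swap_apply_of_ne_of_ne h2 h3, swap_apply_of_ne_of_ne h1 h2]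

theorem cyc3_ne {u v w z : Fin n} (huv : u ≠ v) (huw : u ≠ w) (hvw : v ≠ w) (h : z = u ∨ z = v ∨ z = w) :
    cyc3 u v w z ≠ z := by
  rcases h with rfl | rfl | rfl
  · rw [cyc3, Perm.mul_apply, swap_apply_of_ne_of_ne huv huw, swap_apply_left]
    exact Ne.symm huv
  · rw [cyc3, Perm.mul_apply, swap_apply_left, swap_apply_of_ne_of_ne (Ne.symm huw) (Ne.symm hvw)]
    exact Ne.symm hvw
  · rw [cyc3, Perm.mul_apply, swap_apply_right, swap_apply_right]
    exact huw

theorem cyc3_comm {c : Perm (Fin n)} {u v w : Fin n} (hu : u ∉ c.support) (hv : v ∉ c.support) (hw : w ∉ c.support) :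
    cyc3 u v w * c = c * cyc3 u v w := by
  rw [notMem_support] at hu hv hw
  have hcs : ∀ {a b : Fin n}, c a = a → c b = b → swap a b * c = c * swap a b := by
    intro a b ha hb
    have h1 := mul_swap_eq_swap_mul c a b
    rw [ha, hb] at h1
    exact h1.symm
  rw [cyc3, mul_assoc, hcs hv hw, ← mul_assoc, hcs hu hv, mul_assoc]

/-- a permutation which centralizes the centralizer of the 3-cycle `c` is a power of `c` -/
theorem perm_pow {c : Perm (Fin n)} (hn : 7 ≤ n) (hc : c.IsThreeCycle) {σ : Perm (Fin n)}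
    (h : ∀ a ∈ alternatingGroup (Fin n), a * c = c * a → σ * a * σ⁻¹ = a) : ∃ k : ℤ, σ = c ^ k := by
  have hfix : ∀ u, u ∉ c.support → σ u = u := by
    intro u hu
    obtain ⟨v, w, t, hv, hw, ht, huv, huw, hut, hvw, hvt, hwt⟩ := exists_three hn hc hu
    have key : ∀ {a b : Fin n}, a ∉ c.support → b ∉ c.support → u ≠ a → u ≠ b → a ≠ b → σ u = u ∨ σ u = a ∨ σ u = b := by
      intro a b ha hb hua hub hab
      by_contra hcon
      push Not at hcon
      have h1 := h _ (cyc3_mem hua hab) (cyc3_comm hu ha hb)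
      have h2 : cyc3 u a b (σ u) = σ u := cyc3_fix hcon.1 hcon.2.1 hcon.2.2
      rw [← h1, Perm.mul_apply, Perm.mul_apply, show σ⁻¹ (σ u) = u from σ.symm_apply_apply u] at h2
      exact cyc3_ne hua hub hab (Or.inl rfl) (σ.injective h2)
    rcases key hv hw huv huw hvw with h1 | h1 | h1
    · exact h1
    · rcases key hw ht huw hut hwt with h2 | h2 | h2
      · exact h2
      · exact absurd (h1.symm.trans h2) hvw
      · exact absurd (h1.symm.trans h2) hvt
    · rcases key hv ht huv hut hvt with h2 | h2 | h2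
      · exact h2
      · exact absurd (h2.symm.trans h1) hvw
      · exact absurd (h1.symm.trans h2) hwt
  have hcomm : ∀ y, σ (c y) = c (σ y) := by
    intro y
    have h1 := h c (by rw [mem_alternatingGroup]; exact hc.sign) rfl
    rw [mul_inv_eq_iff_eq_mul] at h1
    exact congrArg (fun g : Perm (Fin n) => g y) h1
  have hcommz : ∀ (k : ℤ) (y : Fin n), σ ((c ^ k) y) = (c ^ k) (σ y) := by
    intro k y
    have h1 : Commute σ c := Perm.ext hcomm
    have h2 : σ * c ^ k = c ^ k * σ := (h1.zpow_right k).eq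
    exact congrArg (fun g : Perm (Fin n) => g y) h2
  obtain ⟨x, hx⟩ : ∃ x, x ∈ c.support := by
    have h1 : c.support.card = 3 := hc.card_support
    exact Finset.card_pos.1 (by omega)
  have hσx : σ x ∈ c.support := by
    by_contra h1
    have h2 := hfix _ h1
    exact h1 (by rw [σ.injective h2]; exact hx)
  have hcyc : c.IsCycle := hc.isCycle
  obtain ⟨k, hk⟩ := hcyc.exists_zpow_eq (mem_support.1 hx) (mem_support.1 hσx)
  refine ⟨k, Perm.ext fun y => ?_⟩
  by_cases hy : y ∈ c.support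
  · obtain ⟨j, rfl⟩ := hcyc.exists_zpow_eq (mem_support.1 hx) (mem_support.1 hy)
    rw [hcommz, ← hk, ← Perm.mul_apply, ← Perm.mul_apply, ← zpow_add, ← zpow_add, add_comm]
  · rw [hfix y hy]
    symm
    have h1 : c y = y := notMem_support.1 hy
    exact zpow_apply_eq_self_of_apply_eq_self h1 k

end perm

section
variable {F : Type u} [Field F] [Finite F] {H : Subgroup ↥(chevE7.group F)} {n : ℕ}
  {φ : ↥(alternatingGroup (Fin n)) →* ↥(chevE7.group F)}

omit [Finite F] in
/-- **the elements of `H` act on `A_n` as permutations** -/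
theorem exists_perm (hn : 7 ≤ n) (hM : MaxAlt H n φ) {h : ↥(chevE7.group F)} (hh : h ∈ H) :
    ∃ σ : Perm (Fin n), ∀ a b : ↥(alternatingGroup (Fin n)), (b : Perm (Fin n)) = σ * a * σ⁻¹ → h * φ a * h⁻¹ = φ b := by
  have hex : ∀ a, ∃ b, φ b = h * φ a * h⁻¹ := fun a => hM.norm h hh _ ⟨a, rfl⟩
  choose f hf using hex
  let e0 : ↥(alternatingGroup (Fin n)) →* ↥(alternatingGroup (Fin n)) := MonoidHom.mk' f fun a b => hM.inj (by
    rw [hf, map_mul, map_mul, hf, hf]; group)
  have he0 : ∀ a, φ (e0 a) = h * φ a * h⁻¹ := hf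
  have hinj : Function.Injective e0 := by
    intro a b hab
    apply hM.inj
    have h1 : h * φ a * h⁻¹ = h * φ b * h⁻¹ := by rw [← he0, ← he0, hab]
    exact mul_left_cancel (mul_right_cancel h1)
  let e : MulAut ↥(alternatingGroup (Fin n)) := MulEquiv.ofBijective e0 (Finite.injective_iff_bijective.1 hinj)
  obtain ⟨ψ, hψ⟩ := Cfsg.Agent.StandardComponent.AltAut.exists_autHom n hn
  refine ⟨ψ e, fun a b hb => ?_⟩
  have h1 : e a = b := by
    apply Subtype.ext
    rw [hψ e a, hb]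
  rw [← h1, ← he0]
  rfl

omit [Finite F] in
/-- **an element of `H` which centralizes `C_{A_n}(c)` is a power of `c`** -/
theorem comm_three (hn : 7 ≤ n) (hM : MaxAlt H n φ) {h : ↥(chevE7.group F)} (hh : h ∈ H)
    {c : ↥(alternatingGroup (Fin n))} (hc : (c : Perm (Fin n)).IsThreeCycle)
    (hcomm : ∀ a, a * c = c * a → h * φ a = φ a * h) : ∃ k : ℤ, h = φ c ^ k := by
  obtain ⟨σ, hσ⟩ := exists_perm hn hM hh
  have h1 : ∀ a ∈ alternatingGroup (Fin n), a * (c : Perm (Fin n)) = c * a → σ * a * σ⁻¹ = a := by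
    intro a ha hac
    have hmem : σ * a * σ⁻¹ ∈ alternatingGroup (Fin n) := by
      rw [mem_alternatingGroup] at ha ⊢
      rw [Perm.sign_mul, Perm.sign_mul, ha, mul_one, Perm.sign_inv, Int.units_mul_self]
    have h2 := hσ ⟨a, ha⟩ ⟨σ * a * σ⁻¹, hmem⟩ rfl
    have h3 := hcomm ⟨a, ha⟩ (Subtype.ext hac)
    rw [h3, mul_inv_cancel_right] at h2
    exact (congrArg Subtype.val (hM.inj h2)).symm
  obtain ⟨k, hk⟩ := perm_pow hn hc h1
  refine ⟨k, ?_⟩
  have h2 : ∀ a, φ a * ((φ c ^ k)⁻¹ * h) = ((φ c ^ k)⁻¹ * h) * φ a := by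
    intro a
    have h3 := hσ a (c ^ k * a * (c ^ k)⁻¹) (by rw [hk]; rfl)
    rw [map_mul, map_mul, map_inv, map_zpow] at h3
    have h4 : h * φ a = φ c ^ k * φ a * (φ c ^ k)⁻¹ * h := by rw [← h3]; group
    rw [mul_assoc (φ c ^ k)⁻¹, h4]
    group
  have h3 := centralizer_eq hM (by omega) h2
  rw [inv_mul_eq_one] at h3
  exact h3.symm

omit [Finite F] in
/-- elements commuting in the adjoint group with an element of odd order -/
theorem comm_lift {x g : Gh F} {k : ℕ} (hk : Odd k) (hx : x ^ k = 1) (h : ad F g * ad F x = ad F x * ad F g) :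
    g * x = x * g := by
  have h1 : g * x * g⁻¹ = x := by
    apply odd_unique hk
    · rw [map_mul, map_mul, h, map_inv, mul_inv_cancel_right]
    · rw [← MulAut.conj_apply, ← map_pow, hx, map_one]
    · exact hx
  rwa [mul_inv_eq_iff_eq_mul] at h1

/-- the torus of a lift of a 3-cycle is not in `H` -/
theorem no_tor (hn : 7 ≤ n) (hM : MaxAlt H n φ) {c : ↥(alternatingGroup (Fin n))} (hc : (c : Perm (Fin n)).IsThreeCycle)
    {x y : Gh F} (hx : x ^ 3 = 1) (hxc : ad F x = φ c) (hcomm : ∀ g, g * x = x * g → g * y = y * g)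
    (hy : ad F y ∈ H) : orderOf (ad F y) ∣ 3 := by
  obtain ⟨k, hk⟩ := comm_three hn hM hy hc (fun a ha => by
    obtain ⟨g, hg⟩ := ad_surjective (φ a)
    have h1 : g * x = x * g := comm_lift (by decide) hx (by rw [hg, hxc, ← map_mul, ← map_mul, ha])
    rw [← hg, ← map_mul, ← map_mul, hcomm g h1])
  apply orderOf_dvd_of_pow_eq_one
  rw [hk, ← zpow_natCast, ← zpow_mul, mul_comm, zpow_mul, zpow_natCast, ← hxc, ← map_pow, hx, map_one, one_zpow]

/-- **3-cycles with 32 fixed weights**: `H` is irreducible on `V F` unless `q = 2` or `q = 4` -/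
theorem no32 (h3 : (3 : F) ≠ 0) (hq2 : Nat.card F ≠ 2) (hq4 : Nat.card F ≠ 4) (hn : 7 ≤ n) (hM : MaxAlt H n φ)
    {c : ↥(alternatingGroup (Fin n))} (hc : (c : Perm (Fin n)).IsThreeCycle) {x : Gh F} (hx : x ^ 3 = 1)
    (hxc : ad F x = φ c) {W : Submodule F (D1 → F)} (hW : Stab (V F) H W) (h0 : W ≠ ⊥) (h1 : W ≠ ⊤) :
    ev (V F x) 1 ≠ 32 := by
  intro h32
  obtain ⟨y, a, b, c', m, ⟨e1, e2⟩, e3, e4, e5, -⟩ := tor32 h3 hx h32
  have hxH : ad F x ∈ H := by rw [hxc]; exact hM.le ⟨c, rfl⟩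
  have hyH : ad F y ∈ H := blue hM.coatom hW h0 h1 (stable_of_poly e1 fun w hw => hW x hxH w hw)
  have h4 := no_tor hn hM hc hx hxc (fun g hg => commute_of_poly e1 hg) hyH
  obtain ⟨v, hv0, hv⟩ : ∃ v : D1 → F, v ≠ 0 ∧ V F x v = v := by
    have h5 : Module.End.eigenspace (V F x) 1 ≠ ⊥ := by
      intro h6
      rw [ev, h6, finrank_bot] at h32
      exact absurd h32 (by norm_num)
    obtain ⟨v, hv, hv0⟩ := Submodule.exists_mem_ne_zero_of_ne_bot h5
    rw [Module.End.mem_eigenspace_iff, one_smul] at hv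
    exact ⟨v, hv0, hv⟩
  rw [orderOf_ad hv0 (fixed_of_poly e1 e2 hv), e4] at h4
  have h5 := Nat.le_of_dvd (by norm_num) h4
  have hq1 : 1 < Nat.card F := Finite.one_lt_card
  omega

omit [Finite F] in
/-- the fixed points of `A_n` on the adjoint module form a stable subspace -/
theorem stab_inv (hM : MaxAlt H n φ) : Stab (L F) H (Representation.invariants (MonoidHom.comp (LK F) φ)) := by
  intro g hg w hw
  rw [Representation.mem_invariants] at hw ⊢
  intro a
  obtain ⟨b, hb⟩ := hM.norm (ad F g)⁻¹ (inv_mem hg) _ ⟨a, rfl⟩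
  rw [inv_inv] at hb
  have h1 : φ a * ad F g = ad F g * φ b := by rw [hb]; group
  show LK F (φ a) (LK F (ad F g) w) = LK F (ad F g) w
  rw [← Module.End.mul_apply, ← map_mul, h1, map_mul, Module.End.mul_apply]
  congr 1
  exact hw b

/-- a torus which fixes the fixed points of `A_n` on the adjoint module -/
theorem tor_inv (h2 : (2 : F) ≠ 0) (hn : 7 ≤ n) (hM : MaxAlt H n φ) {c : ↥(alternatingGroup (Fin n))}
    (hc : (c : Perm (Fin n)).IsThreeCycle) {x y : Gh F} {m : ℕ} (hx : x ^ 3 = 1) (hxc : ad F x = φ c)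
    (hT : IsTor x y m) (hL : ev (L F x) 1 ≠ 133)
    (hW : Representation.invariants (MonoidHom.comp (LK F) φ) ≠ ⊥) : orderOf (ad F y) ∣ 3 := by
  have hfix : ∀ w ∈ Representation.invariants (MonoidHom.comp (LK F) φ), L F x w = w := by
    intro w hw
    rw [Representation.mem_invariants] at hw
    rw [L_eq, hxc]
    exact hw c
  have htop : Representation.invariants (MonoidHom.comp (LK F) φ) ≠ ⊤ := by
    intro h
    apply hL
    have h4 : Module.End.eigenspace (L F x) 1 = ⊤ := by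
      rw [eq_top_iff]
      intro w _
      rw [Module.End.mem_eigenspace_iff, one_smul]
      exact hfix w (by rw [h]; trivial)
    rw [ev, h4, finrank_top, finrank_L]
  have hy : ad F y ∈ H := blueL h2 hM.coatom (stab_inv hM) hW htop fun w hw => by
    rw [hT.fixL w (hfix w hw)]
    exact hw
  exact no_tor hn hM hc hx hxc hT.comm hy

/-- **no fixed vector on the adjoint module** if the 3-cycles are of type `(20, 49)` or `(32, 67)` -/
theorem no_inv3 (h2 : (2 : F) ≠ 0) (h3 : (3 : F) ≠ 0) (hn : 7 ≤ n) (hM : MaxAlt H n φ)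
    {c : ↥(alternatingGroup (Fin n))} (hc : (c : Perm (Fin n)).IsThreeCycle) {x : Gh F} (hx : x ^ 3 = 1)
    (hxc : ad F x = φ c) (h : (ev (V F x) 1 = 20 ∧ ev (L F x) 1 = 49) ∨ ev (V F x) 1 = 32) :
    Representation.invariants (MonoidHom.comp (LK F) φ) = ⊥ := by
  by_contra hW
  obtain ⟨y, m, hT, hv, hL, h0⟩ : ∃ (y : Gh F) (m : ℕ), IsTor x y m ∧ (∀ v, V F x v = v → V F y v = v) ∧
      ev (L F x) 1 ≠ 133 ∧ ev (V F x) 1 ≠ 0 := by
    rcases h with ⟨h4, h5⟩ | h4
    · obtain ⟨y, m, h6, h7⟩ := tor49 h2 h3 hx h4 h5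
      exact ⟨y, m, h6, h7, by rw [h5]; norm_num, by rw [h4]; norm_num⟩
    · have h5 : ev (L F x) 1 = 67 := by
        rcases three h3 hx (by
          rintro rfl
          rw [map_one] at h4
          have h6 : ev (1 : Module.End F (D1 → F)) 1 = 56 := by
            have h7 : Module.End.eigenspace (1 : Module.End F (D1 → F)) 1 = ⊤ := by
              rw [eq_top_iff]
              intro w _
              rw [Module.End.mem_eigenspace_iff, one_smul]
              rfl
            rw [ev, h7, finrank_top, finrank_V]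
          rw [h6] at h4
          exact absurd h4 (by norm_num)) with h6 | h6 | h6 | h6 | h6 <;> omega
      obtain ⟨y, m, h6, h7⟩ := tor67 h2 h3 hx h4 h5
      exact ⟨y, m, h6, h7, by rw [h5]; norm_num, by rw [h4]; norm_num⟩
  have h4 := tor_inv h2 hn hM hc hx hxc hT hL hW
  obtain ⟨v, hv0, hv1⟩ : ∃ v : D1 → F, v ≠ 0 ∧ V F x v = v := by
    have h5 : Module.End.eigenspace (V F x) 1 ≠ ⊥ := by
      intro h6
      apply h0
      rw [ev, h6, finrank_bot]
    obtain ⟨v, hv, hv0⟩ := Submodule.exists_mem_ne_zero_of_ne_bot h5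
    rw [Module.End.mem_eigenspace_iff, one_smul] at hv
    exact ⟨v, hv0, hv⟩
  rw [orderOf_ad hv0 (hv v hv1), hT.order] at h4
  have h5 := Nat.le_of_dvd (by norm_num) h4
  have hq1 : 1 < Nat.card F := Finite.one_lt_card
  have hcard := hT.card
  have h6 : (Nat.card F : F) = 0 := by
    have := Fintype.ofFinite F
    rw [Nat.card_eq_fintype_card]
    exact FiniteField.cast_card_eq_zero F
  rcases (by omega : Nat.card F = 2 ∨ Nat.card F = 4) with h7 | h7
  · rw [h7] at h6
    exact h2 (by exact_mod_cast h6)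
  · rw [h7] at h6
    have h8 : (2 : F) * 2 = 0 := by
      have h9 : ((4 : ℕ) : F) = 2 * 2 := by norm_num
      rw [← h9, h6]
    exact h2 (mul_self_eq_zero.1 h8)

/-- the types `(2, 79)` and `(14, 49)`, `q ≠ 5, 7` -/
theorem no_inv3' (h2 : (2 : F) ≠ 0) (h3 : (3 : F) ≠ 0) (hq5 : Nat.card F ≠ 5) (hq7 : Nat.card F ≠ 7) (hn : 7 ≤ n)
    (hM : MaxAlt H n φ) {c : ↥(alternatingGroup (Fin n))} (hc : (c : Perm (Fin n)).IsThreeCycle) {x : Gh F}
    (hx : x ^ 3 = 1) (hxc : ad F x = φ c)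
    (h : (ev (V F x) 1 = 2 ∧ ev (L F x) 1 = 79) ∨ (ev (V F x) 1 = 14 ∧ ev (L F x) 1 = 49)) :
    Representation.invariants (MonoidHom.comp (LK F) φ) = ⊥ := by
  by_contra hW
  obtain ⟨y, m, hT, hL⟩ : ∃ (y : Gh F) (m : ℕ), IsTor x y m ∧ ev (L F x) 1 ≠ 133 := by
    rcases h with ⟨h4, h5⟩ | ⟨h4, h5⟩
    · obtain ⟨y, m, h6⟩ := tor79 h2 h3 hx h4 h5
      exact ⟨y, m, h6, by rw [h5]; norm_num⟩
    · obtain ⟨y, m, h6⟩ := tor14 h2 h3 hx h4 h5
      exact ⟨y, m, h6, by rw [h5]; norm_num⟩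
  have h4 := tor_inv h2 hn hM hc hx hxc hT hL hW
  have h5 : ad F (y ^ 3) = 1 := by
    rw [map_pow]
    exact orderOf_dvd_iff_pow_eq_one.1 h4
  have h6 : y ^ 6 = 1 := by
    have h7 := ker_sq h5
    rw [← pow_add] at h7
    exact h7
  have h7 : 3 * m ∣ 6 := by
    rw [← hT.order]
    exact orderOf_dvd_of_pow_eq_one h6
  have h8 := Nat.le_of_dvd (by norm_num) h7
  have hq1 : 1 < Nat.card F := Finite.one_lt_card
  have hcard := hT.card
  have h6 : (Nat.card F : F) = 0 := by
    have := Fintype.ofFinite F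
    rw [Nat.card_eq_fintype_card]
    exact FiniteField.cast_card_eq_zero F
  rcases (by omega : Nat.card F = 2 ∨ Nat.card F = 4) with h7 | h7
  · rw [h7] at h6
    exact h2 (by exact_mod_cast h6)
  · rw [h7] at h6
    have h8 : (2 : F) * 2 = 0 := by
      have h9 : ((4 : ℕ) : F) = 2 * 2 := by norm_num
      rw [← h9, h6]
    exact h2 (mul_self_eq_zero.1 h8)

end

end Cfsg.Agent.R2.T1
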