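import Mathlib
import Cfsg.Agent.R2.T1.Inf.Mat
import Cfsg.Agent.H129.StCover

/-!
# The action of the root elements on the 56-dimensional module (helper11)

* `xs r t` : the root element of `Gh F`; `nz r a b` : the matrix of `x_r(1) - 1`;
* `rho_xs`, `V_xs` : `x_r(t)` acts as `1 + t * nz r`;
* `irred` : the module is irreducible;
* `emb f : Gh F →* Gh K`, `rho_emb`.
-/

set_option autoImplicit false
set_option maxRecDepth 100000

namespace Cfsg.Agent.R2.T1

open Cfsg Cfsg.Lie Module
open Cfsg.Agent.ChevalleyStructure.StTheta Cfsg.Agent.ChevalleyStructure.StEmbed Cfsg.Agent.ChevalleyStructure.StBasic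
open Cfsg.Agent.ChevalleyStructure Cfsg.Agent.ChevalleyStructure.Elts Cfsg.Agent.ChevalleyStructure.RootVec
  Cfsg.Agent.ChevalleyStructure.RootVecTab Cfsg.Agent.ChevalleyStructure.CoxeterGeomTypes
open Cfsg.Agent.KFacts.En.Roots Cfsg.Agent.H120.StSeven
open Cfsg.Agent.H943.E7V.Block

universe u v

section
variable {F : Type u} [Field F]

/-- the index of the root -/
abbrev nn (a : D1) : ℕ := a.1.1

theorem nn_lt (a : D1) : nn a < 240 := a.1.2

theorem rt_nn (a : D1) : rt chevE8 (nn a) 7 = 1 := a.2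

theorem nn_inj {a b : D1} (h : nn a = nn b) : a = b := Subtype.ext (Fin.ext h)

/-- the entries of `x_r(1) - 1` -/
def nz (r : ℕ) (a b : D1) : ℤ :=
  match mv r (nn b) with
  | some (u, c) => if nn a = u then c else 0
  | none => 0

/-- the root element -/
def xs (F : Type u) [Field F] (r : ℕ) (t : F) : Gh F := chevE7.stGen F r t

theorem iota_lt {r : ℕ} (hr : r < 126) : ι78 r < chevE8.nroots := emb78.lt r hr

theorem col_ne {r : ℕ} (hr : r < 126) (b : D1) : nn b ≠ ι78 r ∧
    nn b ≠ chevE8.negIdx.getD (ι78 r) 0 := by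
  have h0 := grade_iota r hr
  refine ⟨fun h => ?_, fun h => ?_⟩
  · have h1 := rt_nn b
    rw [h, h0] at h1
    exact absurd h1 (by norm_num)
  · have h1 := rt_nn b
    have h3 := rt_neg checked_E8 (iota_lt hr) 7
    rw [h0] at h3
    change rt chevE8 (chevE8.negIdx.getD (ι78 r) 0) 7 = _ at h3
    rw [← h, h1] at h3
    exact absurd h3 (by norm_num)

theorem x_entry {D : ChevalleyDatum} {r : ℕ} (hr : r < D.nroots) {s u : Fin D.nroots}
    (h1 : (s : ℕ) ≠ r) (h2 : (s : ℕ) ≠ D.negIdx.getD r 0) (t : F) :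
    D.x F r t (Sum.inr u) (Sum.inr s) = (if u = s then 1 else 0) +
      ((D.chainCoeff r s u).map fun km => ((km.2 : ℤ) : F) * t ^ km.1).sum := by
  unfold ChevalleyDatum.x
  rw [dif_pos hr]
  unfold ChevalleyDatum.xMat
  rw [Matrix.of_apply]
  have h3 : s ≠ ⟨r, hr⟩ := fun h => h1 (congrArg Fin.val h)
  simp only [if_neg h3, if_neg h2]

theorem rho_xs {r : ℕ} (hr : r < 126) (t : F) (a b : D1) :
    rho F (xs F r t) a b = (if a = b then 1 else 0) + t * ((nz r a b : ℤ) : F) := by
  have h2 : ((Cfsg.Agent.H120.StSeven.alpha F (chevE7.stGen F r t) : ↥(chevE8.group F)) :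
      GL chevE8.Idx F) = xG ty_E8.ty.inList (ι78 r) t := by
    show ((theta ty_E8.ty.inList F (hom emb78 F (chevE7.stGen F r t)) :
      ↥(chevE8.group F)) : GL chevE8.Idx F) = _
    rw [hom_stGen emb78 hr, coe_theta, thetaGL_stGen]
  obtain ⟨n1, n2⟩ := col_ne hr b
  have h3 : rho F (xs F r t) a b = chevE8.x F (ι78 r) t (Sum.inr a.1) (Sum.inr b.1) := by
    unfold xs
    rw [rho_apply, h2]
    rfl
  rw [h3, x_entry (iota_lt hr) n1 n2, chainCoeff_eq hr b.2]
  congr 1
  · simp only [Subtype.ext_iff]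
  · unfold nz
    rcases F56_cases hr b.1.2 b.2 with ⟨h, h'⟩ | ⟨u, c, h, h', -⟩
    · rw [h, h']; simp
    · rw [h, h']
      by_cases hu : nn a = u
      · have e : Nat.beq u (nn a) = true := by simp [hu]
        rw [List.filter_cons_of_pos (by simpa using e)]
        simp [hu, mul_comm]
      · have e : ¬ Nat.beq u (nn a) = true := by
          simpa using fun h => hu h.symm
        rw [List.filter_cons_of_neg (by simpa using e)]
        simp [hu]

/-- the matrix of `x_r(1) - 1` -/
def NM (F : Type u) [Field F] (r : ℕ) : Matrix D1 D1 F := Matrix.of fun a b => ((nz r a b : ℤ) : F)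

theorem rho_xs' {r : ℕ} (hr : r < 126) (t : F) : rho F (xs F r t) = 1 + t • NM F r := by
  ext a b
  rw [rho_xs hr, Matrix.add_apply, Matrix.one_apply, Matrix.smul_apply, smul_eq_mul]
  rfl

theorem V_xs {r : ℕ} (hr : r < 126) (t : F) (w : D1 → F) : V F (xs F r t) w = w + t • (NM F r).mulVec w := by
  rw [V_apply, rho_xs' hr, Matrix.add_mulVec, Matrix.one_mulVec, Matrix.smul_mulVec]

/-- the target of the basis vector -/
theorem mv_spec {r : ℕ} (hr : r < 126) (b : D1) :
    mv r (nn b) = none ∨ ∃ (a : D1) (c : ℤ), mv r (nn b) = some (nn a, c) ∧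
      c * c = 1 ∧ mv r (nn a) = none ∧ mv (125 - r) (nn a) = some (nn b, c) := by
  rcases F56_cases hr b.1.2 b.2 with ⟨-, h'⟩ | ⟨u, c, -, h', h1, h2, h3, h4, h5⟩
  · exact Or.inl h'
  · refine Or.inr ⟨⟨⟨u, h2⟩, h3⟩, c, h', h1, ?_, ?_⟩
    · unfold mv; rw [h4]; rfl
    · unfold mv; rw [h5]; rfl

theorem nz_none {r : ℕ} {b : D1} (h : mv r (nn b) = none) (a : D1) : nz r a b = 0 := by
  unfold nz; rw [h]

theorem nz_some {r : ℕ} {b a' : D1} {c : ℤ} (h : mv r (nn b) = some (nn a', c)) (a : D1) :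
    nz r a b = if a = a' then c else 0 := by
  unfold nz; rw [h]
  simp only [Subtype.ext_iff, Fin.ext_iff]

theorem nz_ne {r : ℕ} {a b : D1} (h : nz r a b ≠ 0) : ∃ c, mv r (nn b) = some (nn a, c) ∧
    nz r a b = c := by
  unfold nz at h ⊢
  rcases hm : mv r (nn b) with _ | ⟨u, c⟩
  · rw [hm] at h; exact absurd rfl h
  · rw [hm] at h
    dsimp only at h ⊢
    by_cases hu : nn a = u
    · subst hu
      exact ⟨c, rfl, if_pos rfl⟩
    · rw [if_neg hu] at h; exact absurd rfl h

theorem sub_sub_r {r : ℕ} (hr : r < 126) : 125 - (125 - r) = r := by omega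

/-- the row of `a` has only one entry -/
theorem nz_row {r : ℕ} (hr : r < 126) {a b : D1} {c : ℤ} (h : mv r (nn b) = some (nn a, c))
    (b' : D1) : nz r a b' = if b' = b then c else 0 := by
  by_cases hb : b' = b
  · rw [if_pos hb, hb, nz_some h, if_pos rfl]
  · rw [if_neg hb]
    by_contra hne
    obtain ⟨c', h1, -⟩ := nz_ne hne
    rcases mv_spec hr b with h2 | ⟨a2, c2, h2, -, -, h3⟩
    · rw [h2] at h; exact absurd h (by simp)
    rw [h, Option.some.injEq, Prod.mk.injEq] at h2
    have e2 : a = a2 := Subtype.ext (Fin.ext h2.1)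
    rcases mv_spec hr b' with h4 | ⟨a4, c4, h4, -, -, h5⟩
    · rw [h4] at h1; exact absurd h1 (by simp)
    rw [h1, Option.some.injEq, Prod.mk.injEq] at h4
    have e4 : a = a4 := Subtype.ext (Fin.ext h4.1)
    rw [← e4] at h5
    rw [← e2, h5, Option.some.injEq, Prod.mk.injEq] at h3
    exact hb (Subtype.ext (Fin.ext h3.1))

theorem NM_mulVec {r : ℕ} (hr : r < 126) {a b : D1} {c : ℤ}
    (h : mv r (nn b) = some (nn a, c)) (w : D1 → F) :
    (NM F r).mulVec w a = (c : F) * w b := by
  rw [Matrix.mulVec, dotProduct, Finset.sum_eq_single b]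
  · show ((nz r a b : ℤ) : F) * _ = _
    rw [nz_row hr h, if_pos rfl]
  · intro b' _ hb
    show ((nz r a b' : ℤ) : F) * _ = _
    rw [nz_row hr h, if_neg hb, Int.cast_zero, zero_mul]
  · intro h; exact absurd (Finset.mem_univ _) h

theorem NM_mulVec_ne {r : ℕ} {a : D1} {w : D1 → F} (h : (NM F r).mulVec w a ≠ 0) :
    ∃ (b : D1) (c : ℤ), mv r (nn b) = some (nn a, c) ∧ w b ≠ 0 := by
  rw [Matrix.mulVec, dotProduct] at h
  obtain ⟨b, -, hb⟩ := Finset.exists_ne_zero_of_sum_ne_zero h
  have h1 : nz r a b ≠ 0 := by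
    intro h0
    apply hb
    show ((nz r a b : ℤ) : F) * _ = _
    rw [h0, Int.cast_zero, zero_mul]
  obtain ⟨c, h2, -⟩ := nz_ne h1
  exact ⟨b, c, h2, right_ne_zero_of_mul hb⟩

/-! ### irreducibility -/

/-- raising and lowering by simple roots -/
def chkUp : Bool := (List.range 240).all fun s => bif decide (rt chevE8 s 7 = 1) then
    (Nat.beq s 238 || (List.range 7).any fun i => !(F56 (chevE7.simple i) s == [])) &&
    (Nat.beq s 120 || (List.range 7).any fun i => !(F56 (125 - chevE7.simple i) s == [])) else true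

theorem chkUp_true : chkUp = true := by decide +kernel

/-- the simple roots raise the index -/
def chkMono : Bool := (List.range 7).all fun i => (T56.getD (chevE7.simple i) []).all fun x => Nat.blt x.1 x.2.1

theorem chkMono_true : chkMono = true := by decide +kernel

theorem simple_lt7 : ∀ i < 7, chevE7.simple i < 126 := by decide +kernel

theorem mono {i : ℕ} (hi : i < 7) {s u : ℕ} {c : ℤ} (h : mv (chevE7.simple i) s = some (u, c)) : s < u := by
  have h1 := List.all_eq_true.1 chkMono_true i (List.mem_range.2 hi)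
  rw [List.all_eq_true] at h1
  unfold mv at h
  have h2 := List.mem_of_mem_head? h
  unfold F56 at h2
  rw [List.mem_map] at h2
  obtain ⟨x, hx, hx'⟩ := h2
  rw [List.mem_filter] at hx
  have h3 := h1 x hx.1
  rw [Nat.blt_eq] at h3
  have h4 : x.1 = s := Nat.eq_of_beq_eq_true hx.2
  rw [← h4]
  have h5 : x.2.1 = u := by rw [hx']
  rwa [h5] at h3

theorem up {b : D1} (hb : nn b ≠ 238) : ∃ i < 7, ∃ (a : D1) (c : ℤ),
    mv (chevE7.simple i) (nn b) = some (nn a, c) ∧ c * c = 1 := by
  have h := List.all_eq_true.1 chkUp_true b.1 (List.mem_range.2 b.1.2)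
  have h6 : decide (rt chevE8 b.1 7 = 1) = true := decide_eq_true b.2
  rw [h6, cond_true, Bool.and_eq_true, Bool.or_eq_true] at h
  rcases h.1 with h1 | h1
  · exact absurd (Nat.eq_of_beq_eq_true h1) hb
  · rw [List.any_eq_true] at h1
    obtain ⟨i, hi, h2⟩ := h1
    have hi' := List.mem_range.1 hi
    refine ⟨i, hi', ?_⟩
    rcases F56_cases (simple_lt7 i hi') b.1.2 b.2 with ⟨h3, -⟩ | ⟨u, c, h3, h4, h5, h7, h8, -⟩
    · rw [h3] at h2; simp at h2
    · exact ⟨⟨⟨u, h7⟩, h8⟩, c, h4, h5⟩

theorem down {b : D1} (hb : nn b ≠ 120) : ∃ i < 7, ∃ (a : D1) (c : ℤ),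
    mv (chevE7.simple i) (nn a) = some (nn b, c) ∧ c * c = 1 := by
  have h := List.all_eq_true.1 chkUp_true b.1 (List.mem_range.2 b.1.2)
  have h6 : decide (rt chevE8 b.1 7 = 1) = true := decide_eq_true b.2
  rw [h6, cond_true, Bool.and_eq_true, Bool.or_eq_true, Bool.or_eq_true] at h
  rcases h.2 with h1 | h1
  · exact absurd (Nat.eq_of_beq_eq_true h1) hb
  · rw [List.any_eq_true] at h1
    obtain ⟨i, hi, h2⟩ := h1
    have hi' := List.mem_range.1 hi
    have h9 := simple_lt7 i hi'
    refine ⟨i, hi', ?_⟩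
    rcases mv_spec (r := 125 - chevE7.simple i) (by omega) b with h3 | ⟨a, c, h3, h4, h5, h7⟩
    · rcases F56_cases (r := 125 - chevE7.simple i) (by omega) b.1.2 b.2 with ⟨h8, -⟩ | ⟨u, c, -, h8, -⟩
      · rw [h8] at h2; simp at h2
      · rw [h3] at h8; exact absurd h8 (by simp)
    · rw [sub_sub_r h9] at h7
      exact ⟨a, c, h7, h4⟩

theorem cast_ne {c : ℤ} (h : c * c = 1) : ((c : ℤ) : F) ≠ 0 := by
  intro h0
  have h1 : ((c : ℤ) : F) * ((c : ℤ) : F) = 1 := by rw [← Int.cast_mul, h, Int.cast_one]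
  rw [h0, zero_mul] at h1
  exact zero_ne_one h1

/-- the basis vector -/
def bs (F : Type u) [Field F] (a : D1) : D1 → F := Pi.single a 1

section irr

variable {W : Submodule F (D1 → F)} (hW : ∀ g : Gh F, ∀ w ∈ W, V F g w ∈ W)

include hW

theorem NM_stable {r : ℕ} (hr : r < 126) {w : D1 → F} (hw : w ∈ W) : (NM F r).mulVec w ∈ W := by
  have h1 := hW (xs F r 1) w hw
  rw [V_xs hr, one_smul] at h1
  have h2 := sub_mem h1 hw
  rwa [add_sub_cancel_left] at h2

/-- the highest weight vector -/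
def topv : D1 := ⟨⟨238, by decide +kernel⟩, by decide +kernel⟩

theorem top_mem : ∀ (k : ℕ) (w : D1 → F), w ∈ W → w ≠ 0 →
    (∀ a : D1, w a ≠ 0 → 240 ≤ nn a + k) → bs F topv ∈ W := by
  intro k
  induction k with
  | zero =>
    intro w _ hw0 h
    exfalso
    apply hw0
    funext a
    by_contra hne
    have := h a hne
    have h2 := nn_lt a
    omega
  | succ k ih =>
    intro w hw hw0 h
    by_cases hall : ∀ a : D1, w a ≠ 0 → nn a = 238
    · obtain ⟨a, ha⟩ : ∃ a, w a ≠ 0 := by
        by_contra hcon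
        push Not at hcon
        exact hw0 (funext hcon)
      have h1 : w = w topv • bs F topv := by
        funext b
        by_cases hb : b = topv
        · rw [hb, Pi.smul_apply, bs, Pi.single_eq_same, smul_eq_mul, mul_one]
        · rw [Pi.smul_apply, bs, Pi.single_eq_of_ne hb, smul_zero]
          by_contra hne
          exact hb (Subtype.ext (Fin.ext (hall b hne)))
      have h2 : a = topv := Subtype.ext (Fin.ext (hall a ha))
      rw [h2] at ha
      have h3 := W.smul_mem (w topv)⁻¹ hw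
      rw [h1, smul_smul] at h3
      have h4 : (w topv)⁻¹ * w topv = 1 := inv_mul_cancel₀ ha
      rw [Pi.smul_apply, bs, Pi.single_eq_same, smul_eq_mul, mul_one] at h3
      rwa [h4, one_smul] at h3
    · push Not at hall
      obtain ⟨b, hb, hb'⟩ := hall
      obtain ⟨i, hi, a, c, hm, hc⟩ := up hb'
      have hlt := simple_lt7 i hi
      refine ih ((NM F (chevE7.simple i)).mulVec w) (NM_stable hW hlt hw) ?_ ?_
      · intro h0
        have h1 := congrFun h0 a
        rw [NM_mulVec hlt hm] at h1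
        exact (mul_ne_zero (cast_ne hc) hb) h1
      · intro a' ha'
        obtain ⟨b', c', h1, h2⟩ := NM_mulVec_ne ha'
        have h3 := h b' h2
        have h4 := mono hi h1
        omega

theorem all_mem (ht : bs F topv ∈ W) : ∀ (k : ℕ) (a : D1), 238 ≤ nn a + k → bs F a ∈ W := by
  intro k
  induction k with
  | zero =>
    intro a ha
    have h1 : nn a = 238 := by
      have h3 : nn a ≠ 239 := by
        intro h
        have h4 := rt_nn a
        rw [h] at h4
        exact absurd h4 (by decide +kernel)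
      have h2 := nn_lt a
      omega
    have h2 : a = topv := Subtype.ext (Fin.ext h1)
    rw [h2]; exact ht
  | succ k ih =>
    intro a ha
    by_cases h238 : nn a = 238
    · have h2 : a = topv := Subtype.ext (Fin.ext h238)
      rw [h2]; exact ht
    obtain ⟨i, hi, b, c, hm, hc⟩ := up h238
    have hlt := simple_lt7 i hi
    have h1 := mono hi hm
    have h2 := ih b (by omega)
    rcases mv_spec hlt a with h3 | ⟨b', c', h3, h4, h5, h6⟩
    · rw [h3] at hm; exact absurd hm (by simp)
    rw [hm, Option.some.injEq, Prod.mk.injEq] at h3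
    have e : b = b' := Subtype.ext (Fin.ext h3.1)
    rw [← e] at h6
    have h7 := NM_stable hW (r := 125 - chevE7.simple i) (by omega) h2
    have h8 : (NM F (125 - chevE7.simple i)).mulVec (bs F b) = ((c' : ℤ) : F) • bs F a := by
      funext x
      rw [bs, Matrix.mulVec_single_one, Matrix.col_apply]
      show ((nz (125 - chevE7.simple i) x b : ℤ) : F) = _
      rw [nz_some h6, Pi.smul_apply, bs]
      by_cases hx : x = a
      · rw [if_pos hx, hx, Pi.single_eq_same, smul_eq_mul, mul_one]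
      · rw [if_neg hx, Pi.single_eq_of_ne hx, smul_zero, Int.cast_zero]
    rw [h8] at h7
    have h9 := W.smul_mem (((c' : ℤ) : F)⁻¹) h7
    rwa [smul_smul, inv_mul_cancel₀ (cast_ne h4), one_smul] at h9

/-- **the module is irreducible** -/
theorem irred (h0 : W ≠ ⊥) : W = ⊤ := by
  obtain ⟨w, hw, hw0⟩ := Submodule.exists_mem_ne_zero_of_ne_bot h0
  have h1 := top_mem hW 240 w hw hw0 (fun a _ => by omega)
  have h2 : ∀ a : D1, bs F a ∈ W := fun a => all_mem hW h1 238 a (by omega)
  rw [eq_top_iff]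
  intro v _
  have h3 : v = ∑ a, v a • bs F a := by
    funext b
    rw [Finset.sum_apply, Finset.sum_eq_single b]
    · rw [Pi.smul_apply, bs, Pi.single_eq_same, smul_eq_mul, mul_one]
    · intro a _ ha
      rw [Pi.smul_apply, bs, Pi.single_eq_of_ne (Ne.symm ha), smul_zero]
    · intro h; exact absurd (Finset.mem_univ _) h
  rw [h3]
  exact Submodule.sum_mem _ fun a _ => W.smul_mem _ (h2 a)

end irr

end

end Cfsg.Agent.R2.T1
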