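import Mathlib
import Cfsg.Agent.R2.T1.Inf.Act
import Cfsg.Agent.H129.PhiE
import Cfsg.Agent.S1054

/-!
# Functoriality, the torus and the centre of the simply connected group of type `E₇` (helper11)

* `emb f : Gh F →* Gh K`, `rho_emb`, `V_emb`;
* `Phi K : (Fin 7 → Kˣ) →* Gh K`, `rho_Phi`;
* `faithful`, `mem_center_iff`, `ad_eq_one_iff`, `exists_neg`, `neg_unique`.
-/

set_option autoImplicit false
set_option maxRecDepth 100000

namespace Cfsg.Agent.R2.T1

open Cfsg Cfsg.Lie Module
open Cfsg.Agent.ChevalleyStructure.StTheta Cfsg.Agent.ChevalleyStructure.StEmbed Cfsg.Agent.ChevalleyStructure.StBasic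
open Cfsg.Agent.ChevalleyStructure Cfsg.Agent.ChevalleyStructure.Elts Cfsg.Agent.ChevalleyStructure.RootVec
  Cfsg.Agent.ChevalleyStructure.RootVecTab Cfsg.Agent.ChevalleyStructure.CoxeterGeomTypes
open Cfsg.Agent.KFacts.En.Roots Cfsg.Agent.H120.StSeven
open Cfsg.Agent.H943.E7V.Block Cfsg.Agent.H129.StCover
open Cfsg.Agent.GpExc.Field (glMap coe_glMap glMap_xG)

universe u v w

section
variable {F : Type u} {K : Type v} [Field F] [Field K] (f : F →+* K)

/-- the homomorphism given by a homomorphism of fields -/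
noncomputable def emb : Gh F →* Gh K := stMap chevE7 f

theorem emb_xs (r : ℕ) (t : F) : emb f (xs F r t) = xs K r (f t) := stMap_stGen _ _ _ _

theorem rho_emb (x : Gh F) : rho K (emb f x) = (rho F x).map f := by
  have h : (glMap chevE8 f).comp ((chevE8.group F).subtype.comp (Cfsg.Agent.H120.StSeven.alpha F)) =
      ((chevE8.group K).subtype.comp (Cfsg.Agent.H120.StSeven.alpha K)).comp (stMap chevE7 f) := by
    apply hom_ext
    intro r hr t
    show glMap chevE8 f ((theta ty_E8.ty.inList F (hom emb78 F (chevE7.stGen F r t)) : ↥(chevE8.group F)) :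
      GL chevE8.Idx F) = ((theta ty_E8.ty.inList K (hom emb78 K (stMap chevE7 f (chevE7.stGen F r t))) :
      ↥(chevE8.group K)) : GL chevE8.Idx K)
    rw [stMap_stGen, hom_stGen emb78 hr, hom_stGen emb78 hr, coe_theta, coe_theta, thetaGL_stGen, thetaGL_stGen, glMap_xG]
  have h1 := DFunLike.congr_fun h x
  have h2 : (((Cfsg.Agent.H120.StSeven.alpha K (stMap chevE7 f x) : ↥(chevE8.group K)) : GL chevE8.Idx K) : Matrix chevE8.Idx chevE8.Idx K) =
      (((Cfsg.Agent.H120.StSeven.alpha F x : ↥(chevE8.group F)) : GL chevE8.Idx F) : Matrix chevE8.Idx chevE8.Idx F).map f := by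
    rw [← coe_glMap]
    exact congrArg Units.val h1.symm
  unfold emb
  rw [rho_apply, h2, blk_map]
  rfl

theorem emb_comp {L : Type w} [Field L] (g : K →+* L) (x : Gh F) : emb g (emb f x) = emb (g.comp f) x :=
  stMap_comp f g x

theorem emb_id (x : Gh F) : emb (RingHom.id F) x = x := by
  have h : emb (RingHom.id F) = MonoidHom.id (Gh F) := by
    apply hom_ext
    intro r _ t
    show emb (RingHom.id F) (xs F r t) = _
    rw [emb_xs]
    rfl
  rw [h]
  rfl

theorem ad_emb (x : Gh F) : ad K (emb f x) =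
    Cfsg.Agent.GpExc.Field.emb Cfsg.Agent.H944.E7Two.e7T.inList f (ad F x) := theta_stMap f _ x

end

/-! ### generation -/

section
variable {F : Type u} [Field F]

theorem mem_of_gens {S : Subgroup (Gh F)} (h : ∀ r < 126, ∀ t : F, xs F r t ∈ S) (g : Gh F) : g ∈ S :=
  St.Rels.mem_of_gens S (fun r hr t => h r hr t) g

end

/-! ### the torus -/

section Torus

variable {K : Type u} [Field K]

theorem blk_diagonal (d : chevE8.Idx → K) : blk (Matrix.diagonal d) = Matrix.diagonal fun s : D1 => d (pt s) := by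
  ext a b
  show Matrix.diagonal d (pt a) (pt b) = Matrix.diagonal (fun s : D1 => d (pt s)) a b
  rw [Matrix.diagonal_apply, Matrix.diagonal_apply]
  simp only [pt_inj.eq_iff]

theorem rho_sth {i : ℕ} (hi : i < 7) (x : Kˣ) : rho K (sth chevE7 (chevE7.simple i) (x : K)) =
    Matrix.diagonal fun s : D1 => ((x ^ chevE8.cartan i (nn s) : Kˣ) : K) := by
  have h0 : chevE7.simple i < chevE7.nroots := Cfsg.Agent.ChevalleyStructure.RootVec.simple_lt checked_E7 hi
  have h1 : (((Cfsg.Agent.H120.StSeven.alpha K (sth chevE7 (chevE7.simple i) (x : K)) : ↥(chevE8.group K)) : GL chevE8.Idx K) :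
      Matrix chevE8.Idx chevE8.Idx K) = chevE8.hMat K (chevE8.simple i) (x : K) := by
    show (((theta ty_E8.ty.inList K (hom emb78 K (sth chevE7 (chevE7.simple i) (x : K))) : ↥(chevE8.group K)) :
      GL chevE8.Idx K) : Matrix chevE8.Idx chevE8.Idx K) = _
    rw [hom_sth emb78 h0, simple78 i hi,
      theta_sth (theta ty_E8.ty.inList K) (fun r t _ => StTheta.theta_stGen ty_E8.ty.inList r t)]
  rw [rho_apply, h1, Cfsg.Agent.S1033.result (F := K) chevE8 ty_E8.ty.inList i (show i < 8 by omega) (x : K) x.ne_zero,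
    blk_diagonal]
  congr 1
  funext s
  rw [Sum.elim_inr, Units.val_zpow_eq_zpow_val]

/-- the value of the weight `s` at an element of the torus -/
def wt (s : D1) (a : Fin chevE7.rank → Kˣ) : Kˣ := ∏ i : Fin chevE7.rank, a i ^ chevE8.cartan i (nn s)

/-- the diagonal matrices -/
def dgl (K : Type u) [Field K] : (Fin chevE7.rank → Kˣ) →* Matrix D1 D1 K where
  toFun a := Matrix.diagonal fun s : D1 => ((wt s a : Kˣ) : K)
  map_one' := by
    rw [← Matrix.diagonal_one]
    congr 1
    funext s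
    simp [wt]
  map_mul' a b := by
    rw [Matrix.diagonal_mul_diagonal]
    congr 1
    funext s
    unfold wt
    rw [← Units.val_mul, ← Finset.prod_mul_distrib]
    congr 1
    refine Finset.prod_congr rfl fun i _ => ?_
    rw [Pi.mul_apply, mul_zpow]

theorem dgl_single (j : Fin chevE7.rank) (x : Kˣ) :
    dgl K (Pi.mulSingle j x) = Matrix.diagonal fun s : D1 => ((x ^ chevE8.cartan j (nn s) : Kˣ) : K) := by
  show Matrix.diagonal _ = _
  congr 1
  funext s
  unfold wt
  rw [Finset.prod_eq_single j]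
  · rw [Pi.mulSingle_eq_same]
  · intro i _ hij
    rw [Pi.mulSingle_eq_of_ne hij, one_zpow]
  · intro h
    exact absurd (Finset.mem_univ j) h

variable (K) in
/-- the torus -/
noncomputable def Phi : (Fin chevE7.rank → Kˣ) →* Gh K := (Cfsg.Agent.H129.PhiE.isPhi_E7 K).choose

theorem isPhi : IsPhi (Phi K) := (Cfsg.Agent.H129.PhiE.isPhi_E7 K).choose_spec

theorem rho_Phi (a : Fin chevE7.rank → Kˣ) : rho K (Phi K a) = Matrix.diagonal fun s : D1 => ((wt s a : Kˣ) : K) := by
  have h : (rho K).comp (Phi K) = dgl K := by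
    apply MonoidHom.pi_ext
    intro j x
    rw [MonoidHom.comp_apply, isPhi.single, rho_sth j.2, dgl_single]
  exact DFunLike.congr_fun h a

/-- seven weights forming a basis of the weight lattice -/
def bw : List ℕ := [120, 122, 125, 129, 134, 151, 168]

/-- the inverse matrix -/
def bi : List (List ℤ) := [[0, 0, 0, 0, -1, -1, 0], [0, 0, 0, 0, -1, -1, -1], [-1, -1, -1, -1, 0, 1, 1], [-1, -1, -1, -1, 0, 0, 0],
  [-1, -1, -1, 0, 0, 0, 0], [-1, -1, 0, 0, 0, 0, 0], [-1, 0, 0, 0, 0, 0, 0]]

theorem bw_mem : ∀ k < 7, bw.getD k 0 < 240 ∧ rt chevE8 (bw.getD k 0) 7 = 1 := by decide +kernel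

/-- the basis weights -/
def bd (k : Fin 7) : D1 := ⟨⟨bw.getD k 0, (bw_mem k k.2).1⟩, (bw_mem k k.2).2⟩

theorem bi_bw : ∀ i < 7, ∀ j < 7, ((List.range 7).map fun k => (bi.getD i []).getD k 0 * chevE8.cartan j (bw.getD k 0)).sum =
    if i = j then 1 else 0 := by decide +kernel

/-- an element of the torus is determined by the values of the weights -/
theorem torus_eq (a : Fin chevE7.rank → Kˣ) (i : Fin 7) : a i = ∏ k : Fin 7, wt (bd k) a ^ (bi.getD i []).getD k 0 := by
  have h1 : ∀ k : Fin 7, wt (bd k) a ^ (bi.getD i []).getD k 0 =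
      ∏ j : Fin 7, a j ^ ((bi.getD i []).getD k 0 * chevE8.cartan j (bw.getD k 0)) := by
    intro k
    unfold wt
    show (∏ j : Fin 7, a j ^ chevE8.cartan j (nn (bd k))) ^ (bi.getD i []).getD k 0 = _
    rw [← Finset.prod_zpow]
    refine Finset.prod_congr rfl fun j _ => ?_
    rw [← zpow_mul, mul_comm]
    rfl
  rw [Finset.prod_congr rfl fun k _ => h1 k, Finset.prod_comm]
  have h2 : ∀ j : Fin 7, ∏ k : Fin 7, a j ^ ((bi.getD i []).getD k 0 * chevE8.cartan j (bw.getD k 0)) =
      a j ^ (if (i : ℕ) = j then (1 : ℤ) else 0) := by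
    intro j
    rw [← bi_bw i i.2 j j.2, Cfsg.Agent.H129.StCover.prod_zpow_sum]
    congr 1
  rw [Finset.prod_congr rfl fun j _ => h2 j, Finset.prod_eq_single (i : Fin 7)]
  · rw [if_pos rfl, zpow_one]
  · intro j _ hj
    rw [if_neg (fun h => hj (Fin.ext h.symm)), zpow_zero]
  · intro h; exact absurd (Finset.mem_univ _) h

end Torus

end Cfsg.Agent.R2.T1
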