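import Mathlib
import Cfsg.Agent.R2.T1.Inf.Emb
import Cfsg.Agent.S1064
import Cfsg.Agent.S1079

/-!
# The centre of the simply connected group of type `E₇` (helper11)

* `faithful : V F g = 1 → g = 1`;
* `mem_center_iff`, `ad_eq_one_iff : ad F z = 1 ↔ V F z = 1 ∨ V F z = -1`;
* `exists_neg : (2 : F) ≠ 0 → ∃ z, V F z = -1 ∧ ad F z = 1`, `ad_surjective`.
-/

set_option autoImplicit false
set_option maxRecDepth 100000

namespace Cfsg.Agent.R2.T1

open Cfsg Cfsg.Lie Module
open Cfsg.Agent.ChevalleyStructure.StTheta Cfsg.Agent.ChevalleyStructure.StEmbed Cfsg.Agent.ChevalleyStructure.StBasic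
open Cfsg.Agent.ChevalleyStructure Cfsg.Agent.ChevalleyStructure.Elts Cfsg.Agent.ChevalleyStructure.RootVec
  Cfsg.Agent.ChevalleyStructure.RootVecTab Cfsg.Agent.ChevalleyStructure.CoxeterGeomTypes
open Cfsg.Agent.KFacts.En.Roots Cfsg.Agent.H120.StSeven
open Cfsg.Agent.H943.E7V.Block Cfsg.Agent.H129.StCover

universe u

theorem mem_chainCoeff {D : ChevalleyDatum} (h : Checked D) {r s u : ℕ} {x : ℕ × ℤ} (hx : x ∈ D.chainCoeff r s u)
    (i : ℕ) : rt D u i = rt D s i + (x.1 : ℤ) * rt D r i := by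
  unfold ChevalleyDatum.chainCoeff at hx
  rw [List.mem_flatMap] at hx
  obtain ⟨e, he, hx⟩ := hx
  rw [List.mem_filter, decide_eq_true_iff] at he
  rw [List.mem_map] at hx
  obtain ⟨q, hq, hqx⟩ := hx
  rw [List.mem_filter, decide_eq_true_iff] at hq
  obtain ⟨hq1, hq2⟩ := hq
  have h1 : e.2.toList[q.2]? = some q.1 := List.mem_zipIdx_iff_getElem?.1 hq1
  obtain ⟨-, h2⟩ := row_entry h (e := e) he.1 h1
  rw [← hq2, ← he.2, ← hqx]
  exact h2 i

theorem mv_rt {r : ℕ} (hr : r < 126) {a b : D1} {c : ℤ} (h : mv r (nn b) = some (nn a, c)) (i : ℕ) :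
    rt chevE8 (nn a) i = rt chevE8 (nn b) i + rt chevE8 (ι78 r) i := by
  have h1 : (1, c) ∈ chevE8.chainCoeff (ι78 r) (nn b) (nn a) := by
    rw [chainCoeff_eq hr (rt_nn b)]
    rcases F56_cases hr b.1.2 b.2 with ⟨-, h2⟩ | ⟨u, c', h2, h3, -⟩
    · rw [h2] at h; exact absurd h (by simp)
    · rw [h3, Option.some.injEq, Prod.mk.injEq] at h
      rw [h2, h.1, h.2]
      simp
  have h2 := mem_chainCoeff checked_E8 h1 i
  rw [h2]; simp

theorem rt_iota : ∀ r < 126, ∀ j < 7, rt chevE8 (ι78 r) j = rt chevE7 r j := by decide +kernel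

theorem cart_simple : ∀ i < 7, ∀ j < 7, chevE8.cartan i (chevE8.simple j) = chevE7.cartan i (chevE7.simple j) := by
  decide +kernel

theorem cart_iota {r : ℕ} (hr : r < 126) {i : ℕ} (hi : i < 7) : chevE8.cartan i (ι78 r) = chevE7.cartan i r := by
  rw [cartan_eq_sum checked_E8 (show i < 8 by omega) (iota_lt hr), cartan_eq_sum checked_E7 (show i < 7 from hi) hr]
  show ∑ j ∈ Finset.range (7 + 1), _ = ∑ j ∈ Finset.range 7, _
  rw [Finset.sum_range_succ, grade_iota r hr, zero_mul, add_zero]
  refine Finset.sum_congr rfl fun j hj => ?_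
  have hj' := Finset.mem_range.1 hj
  rw [rt_iota r hr j hj', cart_simple i hi j hj']

theorem cart_add {r : ℕ} (hr : r < 126) {a b : D1} {c : ℤ} (h : mv r (nn b) = some (nn a, c)) {i : ℕ} (hi : i < 7) :
    chevE8.cartan i (nn a) = chevE8.cartan i (nn b) + chevE7.cartan i r := by
  rw [← cart_iota hr hi, cartan_eq_sum checked_E8 (show i < 8 by omega) (iota_lt hr),
    cartan_eq_sum checked_E8 (show i < 8 by omega) a.1.2, cartan_eq_sum checked_E8 (show i < 8 by omega) b.1.2,
    ← Finset.sum_add_distrib]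
  refine Finset.sum_congr rfl fun j _ => ?_
  have h1 := mv_rt hr h j
  change rt chevE8 (nn a) j * _ = rt chevE8 (nn b) j * _ + _
  rw [h1]
  ring

theorem cart_bot : ∀ i < 7, chevE8.cartan i 120 = - chevE8.cartan i 238 := by decide +kernel

section
variable {K : Type u} [Field K]

/-- the value of the root `r` at an element of the torus -/
def rtv (r : ℕ) (a : Fin chevE7.rank → Kˣ) : Kˣ := ∏ i : Fin chevE7.rank, a i ^ chevE7.cartan i r

theorem wt_add {r : ℕ} (hr : r < 126) {a b : D1} {c : ℤ} (h : mv r (nn b) = some (nn a, c)) (x : Fin chevE7.rank → Kˣ) :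
    wt a x = wt b x * rtv r x := by
  unfold wt rtv
  rw [← Finset.prod_mul_distrib]
  refine Finset.prod_congr rfl fun i _ => ?_
  rw [cart_add hr h i.2, zpow_add]

/-- all the weights are equal if the roots are trivial -/
theorem wt_eq {x : Fin chevE7.rank → Kˣ} (hx : ∀ i < 7, rtv (chevE7.simple i) x = 1) :
    ∀ (k : ℕ) (a : D1), 238 ≤ nn a + k → wt a x = wt topv x := by
  intro k
  induction k with
  | zero =>
    intro a ha
    have h1 : nn a = 238 := by
      have h3 : nn a ≠ 239 := by
        intro h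
        have h4 := rt_nn a
        rw [h] at h4
        exact absurd h4 (by decide +kernel)
      have h2 := nn_lt a
      omega
    have h2 : a = topv := nn_inj h1
    rw [h2]
  | succ k ih =>
    intro a ha
    by_cases h238 : nn a = 238
    · have h2 : a = topv := nn_inj h238
      rw [h2]
    obtain ⟨i, hi, b, c, hm, hc⟩ := up h238
    have hlt := simple_lt7 i hi
    have h1 := mono hi hm
    have h2 := ih b (by omega)
    rw [wt_add hlt hm, hx i hi, mul_one] at h2
    exact h2

/-- the lowest weight -/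
def botv : D1 := ⟨⟨120, by decide +kernel⟩, by decide +kernel⟩

theorem wt_bot (x : Fin chevE7.rank → Kˣ) : wt botv x = (wt topv x)⁻¹ := by
  unfold wt
  rw [← Finset.prod_inv_distrib]
  refine Finset.prod_congr rfl fun i _ => ?_
  rw [← zpow_neg]
  congr 1
  exact cart_bot i i.2

theorem rho_Phi_center' {x : Fin chevE7.rank → Kˣ} (hx : ∀ i < 7, rtv (chevE7.simple i) x = 1) :
    wt topv x * wt topv x = 1 ∧ rho K (Phi K x) = Matrix.diagonal fun _ => ((wt topv x : Kˣ) : K) := by
  refine ⟨?_, ?_⟩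
  · have h1 := wt_eq hx 238 botv (by omega)
    rw [wt_bot] at h1
    nth_rewrite 1 [← h1]
    rw [inv_mul_cancel]
  · rw [rho_Phi]
    congr 1
    funext s
    rw [wt_eq hx 238 s (by omega)]

theorem rho_Phi_center {x : Fin chevE7.rank → Kˣ} (hx : ∀ s < chevE7.nroots, rtv s x = 1) :
    ∃ c : Kˣ, c * c = 1 ∧ rho K (Phi K x) = Matrix.diagonal fun _ => (c : K) :=
  ⟨wt topv x, rho_Phi_center' fun i hi => hx _ (simple_lt7 i hi)⟩

theorem rho_center {z : Gh K} (hz : z ∈ Subgroup.center (Gh K)) :
    ∃ c : Kˣ, c * c = 1 ∧ rho K z = Matrix.diagonal fun _ => (c : K) := by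
  obtain ⟨x, rfl⟩ := isPhi.center_le hz
  exact rho_Phi_center (isPhi.mem_iff x |>.1 hz)

theorem ker_ad : (ad K).ker = Subgroup.center (Gh K) := ker_theta _

theorem ad_surjective : Function.Surjective (ad K) := theta_surjective _

theorem simpleE7 : IsSimpleGroup ↥(chevE7.group K) := (Cfsg.Agent.S1054.result chevE7 (by simp)).1

/-- root elements are not scalar -/
theorem rho_xs_ne {c : K} : rho K (xs K (chevE7.simple 0) 1) ≠ Matrix.diagonal fun _ => c := by
  intro h
  obtain ⟨b, hb⟩ : ∃ b : D1, mv (chevE7.simple 0) (nn b) ≠ none :=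
    ⟨⟨⟨140, by decide +kernel⟩, by decide +kernel⟩, by decide +kernel⟩
  have hlt := simple_lt7 0 (by omega)
  rcases mv_spec hlt b with h1 | ⟨a, c', h1, h2, h3, h4⟩
  · exact hb h1
  have h5 := rho_xs (F := K) hlt 1 a b
  rw [h, nz_some h1, if_pos rfl, one_mul] at h5
  have hab : a ≠ b := by
    rintro rfl
    rw [h3] at h1
    exact absurd h1 (by simp)
  rw [Matrix.diagonal_apply_ne _ hab, if_neg hab, zero_add] at h5
  exact cast_ne h2 h5.symm

/-- **the module is faithful** -/
theorem faithful' {g : Gh K} (hg : rho K g = 1) : g = 1 := by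
  -- the kernel is central
  have hcen : g ∈ Subgroup.center (Gh K) := by
    rw [← ker_ad]
    let R : Subgroup (Gh K) := (rho K).ker
    have hn : (R.map (ad K)).Normal := Subgroup.Normal.map inferInstance (ad K) ad_surjective
    have hs : IsSimpleGroup ↥(chevE7.group K) := simpleE7
    rcases hn.eq_bot_or_eq_top with h | h
    · have h1 : ad K g ∈ R.map (ad K) := ⟨g, hg, rfl⟩
      rw [h] at h1
      exact h1
    · exfalso
      have h1 : ad K (xs K (chevE7.simple 0) 1) ∈ R.map (ad K) := by rw [h]; exact Subgroup.mem_top _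
      obtain ⟨k, hk, hk'⟩ := h1
      have h2 : k⁻¹ * xs K (chevE7.simple 0) 1 ∈ Subgroup.center (Gh K) := by
        rw [← ker_ad, MonoidHom.mem_ker, map_mul, map_inv, hk', inv_mul_cancel]
      obtain ⟨c, -, hc⟩ := rho_center h2
      have h3 : rho K (xs K (chevE7.simple 0) 1) = rho K k * rho K (k⁻¹ * xs K (chevE7.simple 0) 1) := by
        rw [← map_mul, mul_inv_cancel_left]
      have h4 : rho K k = 1 := hk
      rw [h4, one_mul, hc] at h3
      exact rho_xs_ne h3
  obtain ⟨x, rfl⟩ := isPhi.center_le hcen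
  have h1 : x = 1 := by
    rw [rho_Phi] at hg
    have h2 : ∀ s : D1, wt s x = 1 := by
      intro s
      have h3 := congrFun (congrFun hg s) s
      rw [Matrix.diagonal_apply_eq, Matrix.one_apply_eq] at h3
      exact Units.ext h3
    funext i
    have h3 := torus_eq x i
    rw [h3]
    simp only [h2, one_zpow, Finset.prod_const_one]
    rfl
  rw [h1, map_one]

theorem rho_injective : Function.Injective (rho K) := by
  intro a b h
  have h1 : rho K (a * b⁻¹) = 1 := by
    rw [map_mul, h, ← map_mul, mul_inv_cancel, map_one]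
  exact mul_inv_eq_one.1 (faithful' h1)

theorem V_eq_one_iff {g : Gh K} : V K g = 1 ↔ g = 1 := by
  constructor
  · intro h
    apply faithful'
    have h1 : Matrix.toLin' (rho K g) = Matrix.toLin' 1 := by
      rw [← V_eq, h, Matrix.toLin'_one]; rfl
    exact Matrix.toLin'.injective h1
  · rintro rfl
    exact map_one _

theorem faithful {g : Gh K} (h : V K g = 1) : g = 1 := V_eq_one_iff.1 h

theorem V_injective : Function.Injective (V K) := by
  intro a b h
  have h1 : V K (a * b⁻¹) = 1 := by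
    rw [map_mul, h, ← map_mul, mul_inv_cancel, map_one]
  exact mul_inv_eq_one.1 (faithful h1)

theorem V_mul (g h : Gh K) (v : D1 → K) : V K (g * h) v = V K g (V K h v) := by
  rw [map_mul, Module.End.mul_apply]

theorem V_one (v : D1 → K) : V K 1 v = v := by
  rw [map_one, Module.End.one_apply]

theorem V_inv (g : Gh K) (v : D1 → K) : V K g⁻¹ (V K g v) = v := by
  rw [← V_mul, inv_mul_cancel, V_one]

theorem V_inv' (g : Gh K) (v : D1 → K) : V K g (V K g⁻¹ v) = v := by
  rw [← V_mul, mul_inv_cancel, V_one]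

theorem neg_apply {z : Gh K} (h : V K z = -1) (v : D1 → K) : V K z v = -v := by rw [h]; rfl

theorem neg_of {z : Gh K} (h : ∀ v : D1 → K, V K z v = -v) : V K z = -1 := LinearMap.ext h

theorem V_diag {g : Gh K} {c : K} (h : rho K g = Matrix.diagonal fun _ => c) (v : D1 → K) : V K g v = c • v := by
  funext a
  rw [V_apply, h, Matrix.mulVec_diagonal, Pi.smul_apply, smul_eq_mul]

theorem V_center {z : Gh K} (hz : z ∈ Subgroup.center (Gh K)) : V K z = 1 ∨ V K z = -1 := by
  obtain ⟨c, hc, h⟩ := rho_center hz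
  have h1 : (c : K) * c = 1 := by rw [← Units.val_mul, hc, Units.val_one]
  have h2 : ((c : K) - 1) * (c + 1) = 0 := by linear_combination h1
  rcases mul_eq_zero.1 h2 with h3 | h3
  · left
    refine LinearMap.ext fun v => ?_
    rw [V_diag h, sub_eq_zero.1 h3, one_smul]; rfl
  · right
    refine LinearMap.ext fun v => ?_
    rw [V_diag h, eq_neg_of_add_eq_zero_left h3, neg_smul, one_smul]; rfl

theorem mem_center_iff {z : Gh K} : z ∈ Subgroup.center (Gh K) ↔ V K z = 1 ∨ V K z = -1 := by
  refine ⟨V_center, ?_⟩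
  rintro (h | h)
  · rw [faithful h]; exact one_mem _
  · rw [Subgroup.mem_center_iff]
    intro g
    apply V_injective
    refine LinearMap.ext fun v => ?_
    rw [V_mul, V_mul, neg_apply h, neg_apply h, map_neg]

theorem ad_eq_one_iff {z : Gh K} : ad K z = 1 ↔ V K z = 1 ∨ V K z = -1 := by
  rw [← mem_center_iff, ← ker_ad, MonoidHom.mem_ker]

theorem ad_eq_iff {g h : Gh K} : ad K g = ad K h ↔ g = h ∨ V K g = - V K h := by
  rw [← mul_inv_eq_one, ← map_inv, ← map_mul, ad_eq_one_iff]
  constructor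
  · rintro (h1 | h1)
    · exact Or.inl (mul_inv_eq_one.1 (faithful h1))
    · right
      refine LinearMap.ext fun v => ?_
      have h2 : V K g v = V K (g * h⁻¹) (V K h v) := by rw [← V_mul, inv_mul_cancel_right]
      rw [h2, neg_apply h1]; rfl
  · rintro (rfl | h1)
    · left; rw [mul_inv_cancel, map_one]
    · right
      refine LinearMap.ext fun v => ?_
      rw [V_mul, h1, LinearMap.neg_apply, V_inv']; rfl

/-- the pattern of the centre -/
def zp : List ℤ := [0, 1, 0, 0, 1, 0, 1]

theorem zp_root : ∀ k < 7, 2 ∣ ((List.range 7).map fun i => zp.getD i 0 * chevE7.cartan i (chevE7.simple k)).sum := by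
  decide +kernel

theorem zp_top : ¬ 2 ∣ ((List.range 7).map fun i => zp.getD i 0 * chevE8.cartan i 238).sum := by decide +kernel

theorem neg_one_zpow_prod (e : ℕ → ℤ) : ∏ i : Fin 7, ((-1 : Kˣ) ^ zp.getD i 0) ^ e i =
    (-1) ^ ((List.range 7).map fun i => zp.getD i 0 * e i).sum := by
  simp only [← zpow_mul]
  rw [Cfsg.Agent.H129.StCover.prod_zpow_sum]
  congr 1

/-- the element acting as `-1` -/
theorem exists_neg : ∃ z : Gh K, V K z = -1 ∧ ad K z = 1 ∧ z * z = 1 := by
  let x : Fin chevE7.rank → Kˣ := fun i => (-1 : Kˣ) ^ zp.getD i 0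
  have hx : ∀ i < 7, rtv (chevE7.simple i) x = 1 := by
    intro k hk
    have h1 : rtv (chevE7.simple k) x = (-1) ^ ((List.range 7).map fun i => zp.getD i 0 *
        chevE7.cartan i (chevE7.simple k)).sum := neg_one_zpow_prod (K := K) fun i => chevE7.cartan i (chevE7.simple k)
    rw [h1]
    exact Even.neg_one_zpow (even_iff_two_dvd.2 (zp_root k hk))
  have ht : wt topv x = -1 := by
    have h1 : wt topv x = (-1) ^ ((List.range 7).map fun i => zp.getD i 0 * chevE8.cartan i 238).sum :=
      neg_one_zpow_prod (K := K) fun i => chevE8.cartan i 238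
    rw [h1]
    exact Odd.neg_one_zpow (by rw [← Int.not_even_iff_odd, even_iff_two_dvd]; exact zp_top)
  obtain ⟨-, h2⟩ := rho_Phi_center' hx
  rw [ht] at h2
  have h3 : V K (Phi K x) = -1 := by
    refine LinearMap.ext fun v => ?_
    rw [V_diag h2, Units.val_neg, Units.val_one, neg_smul, one_smul]; rfl
  refine ⟨Phi K x, h3, ad_eq_one_iff.2 (Or.inr h3), ?_⟩
  apply faithful
  refine LinearMap.ext fun v => ?_
  rw [V_mul, neg_apply h3, neg_apply h3, _root_.neg_neg]; rfl

theorem neg_ne_one (h2 : (2 : K) ≠ 0) {z : Gh K} (hz : V K z = -1) : z ≠ 1 := by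
  rintro rfl
  have h1 := congrArg (fun T => T (bs K topv) topv) hz
  rw [map_one] at h1
  change bs K topv topv = - bs K topv topv at h1
  rw [bs, Pi.single_eq_same] at h1
  apply h2
  linear_combination h1

instance [Finite K] : Finite (Gh K) := Finite.of_injective _ (rho_injective (K := K))

theorem card_Gh [Finite K] : Nat.card (Gh K) = Nat.card ↥(chevE7.group K) * Nat.gcd 2 (Nat.card K - 1) := by
  have := Fintype.ofFinite K
  have h1 := Cfsg.Agent.S1079.result (K := K) (q := Nat.card K) Nat.card_eq_fintype_card.symm (chevE7, 2) (by simp)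
  change Nat.card (Subgroup.center (Gh K)) = _ at h1
  rw [← h1, ← ker_ad, Subgroup.card_eq_card_quotient_mul_card_subgroup (ad K).ker,
    Nat.card_congr (QuotientGroup.quotientKerEquivOfSurjective (ad K) ad_surjective).toEquiv]

/-- the order of the simple group -/
theorem order [Finite K] : Nat.gcd 2 (Nat.card K - 1) * Nat.card ↥(chevE7.group K) =
    Nat.card K ^ 63 * (Nat.card K ^ 2 - 1) * (Nat.card K ^ 6 - 1) * (Nat.card K ^ 8 - 1) * (Nat.card K ^ 10 - 1) *
      (Nat.card K ^ 12 - 1) * (Nat.card K ^ 14 - 1) * (Nat.card K ^ 18 - 1) := by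
  have := Fintype.ofFinite K
  exact Cfsg.Agent.S1064.result (F := K) Nat.card_eq_fintype_card.symm

end

end Cfsg.Agent.R2.T1
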