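import Mathlib
import Cfsg.Agent.R2.T1.Inf.Cen

/-!
# The symplectic form on the 56-dimensional module of `E₇` (helper11)

* `sf F : (D1 → F) →ₗ[F] (D1 → F) →ₗ[F] F` : nondegenerate alternating form, `sf_V : sf F (V F g x) (V F g y) = sf F x y`.
-/

set_option autoImplicit false
set_option maxRecDepth 100000

namespace Cfsg.Agent.R2.T1

open Cfsg Cfsg.Lie Module
open Cfsg.Agent.ChevalleyStructure Cfsg.Agent.ChevalleyStructure.Elts Cfsg.Agent.ChevalleyStructure.RootVec
  Cfsg.Agent.ChevalleyStructure.RootVecTab Cfsg.Agent.ChevalleyStructure.CoxeterGeomTypes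
open Cfsg.Agent.H943.E7V.Block
open scoped Matrix

universe u

/-- the table `(s, highest root - s, sign)` -/
def TE : List (ℕ × ℕ × ℤ) :=
   [(120, 238, 1), (122, 237, 1), (125, 236, 1), (129, 235, 1), (134, 234, 1), (140, 233, 1), (146, 232, 1),
   (151, 231, -1), (155, 230, 1), (158, 229, -1), (160, 228, 1), (161, 227, -1), (168, 225, 1), (173, 224,
   -1), (177, 223, 1), (180, 222, -1), (182, 221, 1), (183, 220, -1), (187, 218, -1), (190, 217, 1), (192,
   216, -1), (193, 215, 1), (196, 213, -1), (198, 212, 1), (199, 211, -1), (201, 209, -1), (202, 208, 1),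
   (203, 206, -1), (206, 203, 1), (208, 202, -1), (209, 201, 1), (211, 199, 1), (212, 198, -1), (213, 196, 1),
   (215, 193, -1), (216, 192, 1), (217, 190, -1), (218, 187, 1), (220, 183, 1), (221, 182, -1), (222, 180, 1),
   (223, 177, -1), (224, 173, 1), (225, 168, -1), (227, 161, 1), (228, 160, -1), (229, 158, 1), (230, 155,
   -1), (231, 151, 1), (232, 146, -1), (233, 140, -1), (234, 134, -1), (235, 129, -1), (236, 125, -1), (237,
   122, -1), (238, 120, -1)]

/-- the opposite weight and the sign -/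
def st (s : ℕ) : ℕ × ℤ := ((TE.find? fun x => Nat.beq x.1 s).map fun x => x.2).getD (0, 0)

/-- the check of the table -/
def chkTE : Bool := TE.all fun x => decide (x.2.1 < 240) && decide (rt chevE8 x.2.1 7 = 1) && (st x.1 == x.2) &&
  (st x.2.1 == (x.1, -x.2.2)) && (x.2.2 * x.2.2 == 1) && !(Nat.beq x.1 x.2.1)

theorem chkTE_true : chkTE = true := by decide +kernel

theorem TE_all : ∀ s < 240, rt chevE8 s 7 = 1 → (s, st s) ∈ TE := by decide +kernel

/-- the check of the invariance -/
def chkInv (r : ℕ) : Bool := (T56.getD r []).all fun x =>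
  F56 r (st x.2.1).1 == [((st x.1).1, - (x.2.2 * (st x.2.1).2 * (st x.1).2))]

theorem chkInv_true : (List.range 126).all chkInv = true := by decide +kernel

theorem st_spec (a : D1) : ∃ (b : D1) (e : ℤ), st (nn a) = (nn b, e) ∧ st (nn b) = (nn a, -e) ∧ e * e = 1 ∧ a ≠ b := by
  have h := TE_all (nn a) (nn_lt a) (rt_nn a)
  have h1 := List.all_eq_true.1 chkTE_true _ h
  simp only [Bool.and_eq_true, decide_eq_true_eq, beq_iff_eq, Bool.not_eq_true'] at h1
  obtain ⟨⟨⟨⟨⟨h2, h3⟩, -⟩, h4⟩, h5⟩, h6⟩ := h1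
  refine ⟨⟨⟨(st (nn a)).1, h2⟩, h3⟩, (st (nn a)).2, rfl, h4, h5, ?_⟩
  intro h7
  have h8 : Nat.beq (nn a) (st (nn a)).1 = true := by
    have := congrArg nn h7
    rw [Nat.beq_eq]
    exact this
  rw [h6] at h8
  exact Bool.noConfusion h8

/-- the opposite weight -/
noncomputable def op (a : D1) : D1 := (st_spec a).choose

/-- the sign -/
noncomputable def ep (a : D1) : ℤ := (st_spec a).choose_spec.choose

theorem st_eq (a : D1) : st (nn a) = (nn (op a), ep a) := (st_spec a).choose_spec.choose_spec.1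

theorem st_op (a : D1) : st (nn (op a)) = (nn a, - ep a) := (st_spec a).choose_spec.choose_spec.2.1

theorem ep_sq (a : D1) : ep a * ep a = 1 := (st_spec a).choose_spec.choose_spec.2.2.1

theorem ne_op (a : D1) : a ≠ op a := (st_spec a).choose_spec.choose_spec.2.2.2

theorem op_op (a : D1) : op (op a) = a := by
  have h1 := st_op a
  rw [st_eq, Prod.mk.injEq] at h1
  exact nn_inj h1.1

theorem ep_op (a : D1) : ep (op a) = - ep a := by
  have h1 := st_op a
  rw [st_eq, Prod.mk.injEq] at h1
  exact h1.2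

theorem mv_op {r : ℕ} (hr : r < 126) {a b : D1} {c : ℤ} (h : mv r (nn b) = some (nn a, c)) :
    mv r (nn (op a)) = some (nn (op b), - (c * ep a * ep b)) := by
  have h1 := List.all_eq_true.1 chkInv_true r (List.mem_range.2 hr)
  unfold chkInv at h1
  rw [List.all_eq_true] at h1
  have h' := h
  unfold mv at h
  have h2 := List.mem_of_mem_head? h
  unfold F56 at h2
  rw [List.mem_map] at h2
  obtain ⟨x, hx, hx'⟩ := h2
  rw [List.mem_filter] at hx
  have h3 := h1 x hx.1
  rw [beq_iff_eq] at h3
  have h4 : x.1 = nn b := Nat.eq_of_beq_eq_true hx.2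
  have h5 : x.2.1 = nn a := by rw [hx']
  have h6 : x.2.2 = c := by rw [hx']
  rw [h4, h5, h6, st_eq, st_eq] at h3
  unfold mv
  rw [h3]
  rfl

section
variable (F : Type u) [Field F]

/-- the matrix of the form -/
noncomputable def JM : Matrix D1 D1 F := Matrix.of fun a b => if b = op a then ((ep a : ℤ) : F) else 0

variable {F}

theorem JM_mulVec (x : D1 → F) (a : D1) : (JM F *ᵥ x) a = ((ep a : ℤ) : F) * x (op a) := by
  rw [Matrix.mulVec, dotProduct, Finset.sum_eq_single (op a)]
  · show (if op a = op a then ((ep a : ℤ) : F) else 0) * _ = _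
    rw [if_pos rfl]
  · intro b _ hb
    show (if b = op a then ((ep a : ℤ) : F) else 0) * _ = _
    rw [if_neg hb, zero_mul]
  · intro h; exact absurd (Finset.mem_univ _) h

theorem nz_op {r : ℕ} (hr : r < 126) (a b : D1) : nz r (op b) a * ep (op b) + ep a * nz r (op a) b = 0 := by
  have key : ∀ a b : D1, nz r (op b) a ≠ 0 → nz r (op b) a * ep (op b) + ep a * nz r (op a) b = 0 := by
    intro a b h
    obtain ⟨c, h1, h2⟩ := nz_ne h
    have h3 := mv_op hr h1
    rw [op_op] at h3
    rw [h2, nz_some h3, if_pos rfl]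
    linear_combination (-(c * ep (op b))) * ep_sq a
  by_cases h : nz r (op b) a = 0
  · by_cases h' : nz r (op a) b = 0
    · rw [h, h']; ring
    · have h1 := key b a h'
      rw [h] at h1 ⊢
      rw [mul_zero, add_zero] at h1
      rw [zero_mul, zero_add]
      have h2 : nz r (op a) b * ep a = 0 := by
        rw [ep_op] at h1
        linear_combination -h1
      linear_combination h2
  · exact key a b h

/-- the skew-adjointness of the root vectors -/
theorem NM_JM {r : ℕ} (hr : r < 126) : (NM F r)ᵀ * JM F + JM F * NM F r = 0 := by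
  ext a b
  rw [Matrix.add_apply, Matrix.mul_apply, Matrix.mul_apply, Matrix.zero_apply,
    Finset.sum_eq_single (op b), Finset.sum_eq_single (op a)]
  · show ((nz r (op b) a : ℤ) : F) * (if b = op (op b) then ((ep (op b) : ℤ) : F) else 0) +
      (if op a = op a then ((ep a : ℤ) : F) else 0) * ((nz r (op a) b : ℤ) : F) = 0
    rw [if_pos rfl, if_pos (op_op b).symm]
    exact_mod_cast congrArg (Int.cast (R := F)) (nz_op hr a b)
  · intro c _ hc
    show (if c = op a then ((ep a : ℤ) : F) else 0) * _ = 0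
    rw [if_neg hc, zero_mul]
  · intro h; exact absurd (Finset.mem_univ _) h
  · intro c _ hc
    show _ * (if b = op c then ((ep c : ℤ) : F) else 0) = 0
    rw [if_neg, mul_zero]
    rintro rfl
    exact hc (op_op c).symm
  · intro h; exact absurd (Finset.mem_univ _) h

theorem NM_sq {r : ℕ} (hr : r < 126) : NM F r * NM F r = 0 := by
  ext a b
  rw [Matrix.mul_apply, Matrix.zero_apply]
  refine Finset.sum_eq_zero fun c _ => ?_
  show ((nz r a c : ℤ) : F) * ((nz r c b : ℤ) : F) = 0
  by_cases h : nz r c b = 0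
  · rw [h, Int.cast_zero, mul_zero]
  · obtain ⟨d, h1, -⟩ := nz_ne h
    rcases mv_spec hr b with h2 | ⟨a', d', h2, -, h3, -⟩
    · rw [h2] at h1; exact absurd h1 (by simp)
    rw [h1, Option.some.injEq, Prod.mk.injEq] at h2
    have e : c = a' := nn_inj h2.1
    rw [← e] at h3
    rw [nz_none h3, Int.cast_zero, zero_mul]

theorem rho_JM (g : Gh F) : (rho F g)ᵀ * JM F * rho F g = JM F := by
  let S : Subgroup (Gh F) :=
    { carrier := {g | (rho F g)ᵀ * JM F * rho F g = JM F}
      one_mem' := by
        show (rho F 1)ᵀ * JM F * rho F 1 = JM F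
        rw [map_one, Matrix.transpose_one, one_mul, mul_one]
      mul_mem' := by
        intro a b ha hb
        change (rho F a)ᵀ * JM F * rho F a = JM F at ha
        change (rho F b)ᵀ * JM F * rho F b = JM F at hb
        show (rho F (a * b))ᵀ * JM F * rho F (a * b) = JM F
        rw [map_mul, Matrix.transpose_mul]
        calc (rho F b)ᵀ * (rho F a)ᵀ * JM F * (rho F a * rho F b) =
            (rho F b)ᵀ * ((rho F a)ᵀ * JM F * rho F a) * rho F b := by simp only [mul_assoc]
          _ = _ := by rw [ha, hb]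
      inv_mem' := by
        intro a ha
        change (rho F a)ᵀ * JM F * rho F a = JM F at ha
        show (rho F a⁻¹)ᵀ * JM F * rho F a⁻¹ = JM F
        have h1 : rho F a * rho F a⁻¹ = 1 := by rw [← map_mul, mul_inv_cancel, map_one]
        have h2 : (rho F a⁻¹)ᵀ * (rho F a)ᵀ = 1 := by rw [← Matrix.transpose_mul, h1, Matrix.transpose_one]
        calc (rho F a⁻¹)ᵀ * JM F * rho F a⁻¹ = (rho F a⁻¹)ᵀ * ((rho F a)ᵀ * JM F * rho F a) * rho F a⁻¹ := by rw [ha]
          _ = ((rho F a⁻¹)ᵀ * (rho F a)ᵀ) * JM F * (rho F a * rho F a⁻¹) := by simp only [mul_assoc]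
          _ = _ := by rw [h1, h2, one_mul, mul_one] }
  refine mem_of_gens (S := S) (fun r hr t => ?_) g
  show (rho F (xs F r t))ᵀ * JM F * rho F (xs F r t) = JM F
  rw [rho_xs' hr, Matrix.transpose_add, Matrix.transpose_one, Matrix.transpose_smul]
  have h1 := NM_JM (F := F) hr
  have h2 : (NM F r)ᵀ * JM F * NM F r = 0 := by
    have h3 : (NM F r)ᵀ * JM F = - (JM F * NM F r) := eq_neg_of_add_eq_zero_left h1
    rw [h3, Matrix.neg_mul, mul_assoc, NM_sq hr, mul_zero, _root_.neg_zero]
  calc (1 + t • (NM F r)ᵀ) * JM F * (1 + t • NM F r) = JM F + t • ((NM F r)ᵀ * JM F + JM F * NM F r) +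
      (t * t) • ((NM F r)ᵀ * JM F * NM F r) := by
        rw [add_mul, one_mul, mul_add, mul_one, add_mul, Matrix.mul_smul, Matrix.smul_mul, Matrix.smul_mul, Matrix.mul_smul,
          smul_smul, smul_add]
        abel
    _ = JM F := by rw [h1, h2, smul_zero, smul_zero, add_zero, add_zero]

variable (F)

/-- **the symplectic form** -/
noncomputable def sf : (D1 → F) →ₗ[F] (D1 → F) →ₗ[F] F :=
  LinearMap.mk₂ F (fun x y => x ⬝ᵥ JM F *ᵥ y) (fun x x' y => add_dotProduct _ _ _) (fun c x y => smul_dotProduct _ _ _)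
    (fun x y y' => by rw [Matrix.mulVec_add, dotProduct_add]) (fun c x y => by rw [Matrix.mulVec_smul, dotProduct_smul])

variable {F}

theorem sf_apply (x y : D1 → F) : sf F x y = x ⬝ᵥ JM F *ᵥ y := rfl

theorem sf_sum (x y : D1 → F) : sf F x y = ∑ a, x a * (((ep a : ℤ) : F) * y (op a)) := by
  rw [sf_apply, dotProduct]
  exact Finset.sum_congr rfl fun a _ => by rw [JM_mulVec]

/-- the form is invariant -/
theorem sf_V (g : Gh F) (x y : D1 → F) : sf F (V F g x) (V F g y) = sf F x y := by
  rw [sf_apply, sf_apply, V_apply, V_apply]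
  have h := rho_JM g
  conv_rhs => rw [← h]
  rw [← Matrix.mulVec_mulVec, ← Matrix.mulVec_mulVec, Matrix.dotProduct_mulVec x (rho F g)ᵀ, Matrix.vecMul_transpose]

/-- the opposite weight as a permutation -/
noncomputable def opE : D1 ≃ D1 := ⟨op, op, op_op, op_op⟩

theorem sf_swap (x y : D1 → F) : sf F x y = - sf F y x := by
  rw [sf_sum, sf_sum, ← Finset.sum_neg_distrib, ← Equiv.sum_comp opE]
  refine Finset.sum_congr rfl fun a _ => ?_
  show x (op a) * (((ep (op a) : ℤ) : F) * y (op (op a))) = _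
  rw [op_op, ep_op]
  push_cast
  ring

/-- the form is alternating -/
theorem sf_self (x : D1 → F) : sf F x x = 0 := by
  classical
  -- the terms at `a` and `op a` cancel
  rw [sf_sum]
  refine Finset.sum_involution (fun a _ => op a) (fun a _ => ?_) (fun a _ _ h => ne_op a h.symm) (fun a _ => Finset.mem_univ _)
    (fun a _ => op_op a)
  rw [op_op, ep_op]
  push_cast
  ring

theorem sf_single (a : D1) (y : D1 → F) : sf F (bs F a) y = ((ep a : ℤ) : F) * y (op a) := by
  rw [sf_apply, bs, single_one_dotProduct, JM_mulVec]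

/-- the form is nondegenerate -/
theorem sf_nondeg {y : D1 → F} (h : ∀ x, sf F x y = 0) : y = 0 := by
  funext a
  have h1 := h (bs F (op a))
  rw [sf_single, op_op] at h1
  exact (mul_eq_zero.1 h1).resolve_left (cast_ne (ep_sq _))

theorem sf_nondeg' {x : D1 → F} (h : ∀ y, sf F x y = 0) : x = 0 :=
  sf_nondeg fun y => by rw [sf_swap, h, _root_.neg_zero]

end

end Cfsg.Agent.R2.T1
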