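import Cfsg.Agent.R2.T1.Inf.Ext
import Cfsg.Agent.H944.E6Tab
import Cfsg.Agent.R2.T1.Inf.Frame

/-!
# S5771, S5929: diagonal elements (helper11)

* `ad_Phi` : the matrix of `ad K (Phi K a)`;
* `ev_V_Phi`, `ev_L_Phi`, `trace_V_Phi`, `trace_L_Phi`;
* `ev_V_of_conj`, ...
-/

set_option autoImplicit false
set_option maxRecDepth 100000

namespace Cfsg.Agent.R2.T1

open Cfsg Cfsg.Lie Module
open Cfsg.Agent.ChevalleyStructure Cfsg.Agent.ChevalleyStructure.Elts
open Cfsg.Agent.ChevalleyStructure.StTheta Cfsg.Agent.ChevalleyStructure.StEmbed Cfsg.Agent.ChevalleyStructure.StBasic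
open Cfsg.Agent.H943.E7V.Block (D1 rho)
open Cfsg.Agent.H944.E7Two (e7T)
open Cfsg.Agent.H952.F4 (ev es)
open Cfsg.Agent.H944.E6T (ev_diag trace_diag ev_conj trace_conj)

universe u

variable {K : Type u} [Field K]

/-- the diagonal of the adjoint module -/
def dL (a : Fin chevE7.rank → Kˣ) : chevE7.Idx → K :=
  Sum.elim (fun _ => (1 : K)) (fun s : Fin chevE7.nroots => ((rtv s a : Kˣ) : K))

/-- the diagonal of the 56-dimensional module -/
def dV (a : Fin chevE7.rank → Kˣ) : D1 → K := fun s => ((wt s a : Kˣ) : K)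

/-- the diagonal matrices -/
def dgL (K : Type u) [Field K] : (Fin chevE7.rank → Kˣ) →* Matrix chevE7.Idx chevE7.Idx K where
  toFun a := Matrix.diagonal (dL a)
  map_one' := by
    rw [← Matrix.diagonal_one]
    congr 1
    funext s
    rcases s with s | s
    · rfl
    · simp [dL, rtv]
  map_mul' a b := by
    rw [Matrix.diagonal_mul_diagonal]
    congr 1
    funext s
    rcases s with s | s
    · simp [dL]
    · simp only [dL, Sum.elim_inr]
      unfold rtv
      rw [← Units.val_mul, ← Finset.prod_mul_distrib]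
      congr 1
      refine Finset.prod_congr rfl fun i _ => ?_
      rw [Pi.mul_apply, mul_zpow]

theorem rtv_single (r : ℕ) (j : Fin chevE7.rank) (x : Kˣ) : rtv r (Pi.mulSingle j x) = x ^ chevE7.cartan j r := by
  unfold rtv
  rw [Finset.prod_eq_single j]
  · rw [Pi.mulSingle_eq_same]
  · intro i _ hij
    rw [Pi.mulSingle_eq_of_ne hij, one_zpow]
  · intro h
    exact absurd (Finset.mem_univ j) h

/-- the matrices of the adjoint group, as a homomorphism -/
noncomputable def adM (K : Type u) [Field K] : Gh K →* Matrix chevE7.Idx chevE7.Idx K :=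
  (Units.coeHom _).comp ((chevE7.group K).subtype.comp (ad K))

theorem adM_apply (g : Gh K) : adM K g = (((ad K g : ↥(chevE7.group K)) : GL chevE7.Idx K) :
    Matrix chevE7.Idx chevE7.Idx K) := rfl

theorem L_adM (g : Gh K) : L K g = Matrix.toLin' (adM K g) := L_eq' g

/-- **the torus acts diagonally on the adjoint module** -/
theorem ad_Phi (a : Fin chevE7.rank → Kˣ) : adM K (Phi K a) = Matrix.diagonal (dL a) := by
  have h : (adM K).comp (Phi K) = dgL K := by
    apply MonoidHom.pi_ext
    intro j x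
    rw [MonoidHom.comp_apply, isPhi.single, adM_apply]
    have h1 : (((ad K (sth chevE7 (chevE7.simple j) (x : K)) : ↥(chevE7.group K)) : GL chevE7.Idx K) :
        Matrix chevE7.Idx chevE7.Idx K) = chevE7.hMat K (chevE7.simple j) x :=
      theta_sth (theta e7T.inList K) (fun r t _ => StTheta.theta_stGen e7T.inList r t) _ _
    rw [h1, Cfsg.Agent.S1033.result (F := K) chevE7 e7T.inList j j.2 (x : K) x.ne_zero]
    show _ = Matrix.diagonal (dL (Pi.mulSingle j x))
    congr 1
    funext s
    rcases s with s | s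
    · rfl
    · simp only [dL, Sum.elim_inr]
      rw [rtv_single, Units.val_zpow_eq_zpow_val]
  exact DFunLike.congr_fun h a

theorem V_Phi (a : Fin chevE7.rank → Kˣ) : V K (Phi K a) = Matrix.toLin' (Matrix.diagonal (dV a)) := by
  rw [V_eq, rho_Phi]
  rfl

theorem L_Phi (a : Fin chevE7.rank → Kˣ) : L K (Phi K a) = Matrix.toLin' (Matrix.diagonal (dL a)) := by
  rw [L_adM, ad_Phi]

open Classical in
theorem ev_V_Phi (a : Fin chevE7.rank → Kˣ) (μ : K) :
    ev (V K (Phi K a)) μ = (Finset.univ.filter fun s : D1 => ((wt s a : Kˣ) : K) = μ).card :=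
  ev_diag (dV a) μ (V_Phi a)

open Classical in
theorem ev_L_Phi (a : Fin chevE7.rank → Kˣ) (μ : K) :
    ev (L K (Phi K a)) μ = (if μ = 1 then 7 else 0) +
      (Finset.univ.filter fun s : Fin chevE7.nroots => ((rtv s a : Kˣ) : K) = μ).card := by
  rw [ev_diag (dL a) μ (L_Phi a), Finset.card_filter, Fintype.sum_sum_type, Finset.card_filter]
  congr 1
  have h7 : Fintype.card (Fin chevE7.rank) = 7 := by rw [Fintype.card_fin]; rfl
  have h1 : ∀ i : Fin chevE7.rank, dL a (Sum.inl i) = 1 := fun _ => rfl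
  simp only [h1]
  by_cases h : μ = 1
  · subst h
    rw [if_pos rfl, if_pos rfl, Finset.sum_const, Finset.card_univ, h7, smul_eq_mul, mul_one]
  · rw [if_neg h, if_neg (Ne.symm h), Finset.sum_const_zero]

theorem trace_V_Phi (a : Fin chevE7.rank → Kˣ) : LinearMap.trace K _ (V K (Phi K a)) =
    ∑ s : D1, ((wt s a : Kˣ) : K) := trace_diag (dV a) (V_Phi a)

theorem trace_L_Phi (a : Fin chevE7.rank → Kˣ) : LinearMap.trace K _ (L K (Phi K a)) =
    7 + ∑ s : Fin chevE7.nroots, ((rtv s a : Kˣ) : K) := by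
  rw [trace_diag (dL a) (L_Phi a), Fintype.sum_sum_type]
  congr 1
  simp only [dL, Sum.elim_inl, Finset.sum_const, Finset.card_univ, nsmul_eq_mul, mul_one]
  norm_num
  rfl

section conj
variable {g x : Gh K} {c : Fin chevE7.rank → Kˣ} (h : Phi K c = g * x * g⁻¹)

include h

theorem ev_V_of_conj (μ : K) : ev (V K x) μ = ev (V K (Phi K c)) μ := by
  rw [h, ev_conj]

theorem ev_L_of_conj (μ : K) : ev (L K x) μ = ev (L K (Phi K c)) μ := by
  rw [h, ev_conj]

theorem trace_V_of_conj : LinearMap.trace K _ (V K x) = LinearMap.trace K _ (V K (Phi K c)) := by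
  rw [h, trace_conj]

theorem trace_L_of_conj : LinearMap.trace K _ (L K x) = LinearMap.trace K _ (L K (Phi K c)) := by
  rw [h, trace_conj]

end conj

end Cfsg.Agent.R2.T1
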