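import Cfsg.Agent.R2.T1.Inf.Desc
import Cfsg.Agent.H65.E6Emb

/-!
# S5771, S5929: change of fields for `V`, `L` (helper11)

`ev_V`, `ev_L`, `trace_V`, `trace_L`, `ext_es_V`, `ext_es_L`, `ext_inv_V`, `ext_inv_L`, `ext_stable_V`; `ext` is
`Cfsg.Agent.H65.E6Emb.ext`.
-/

set_option autoImplicit false

namespace Cfsg.Agent.R2.T1

open Cfsg Cfsg.Lie Module
open Cfsg.Agent.H943.E7V.Block (D1 rho)
open Cfsg.Agent.H952.F4 (ev es)
open Cfsg.Agent.H65.E6Emb (ext map_mulVec mem_ext_of_mem ext_le ext_es mem_ext_fixed)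

universe u v w

section
variable {F : Type u} {K : Type v} [Field F] [Field K] (f : F →+* K)

theorem V_emb (g : Gh F) (x : D1 → F) : V K (emb f g) (fun i => f (x i)) = fun i => f (V F g x i) := by
  rw [V_apply, V_apply, rho_emb, map_mulVec]

/-- the matrix of the adjoint module -/
theorem ad_emb_mat (g : Gh F) : (((ad K (emb f g) : ↥(chevE7.group K)) : GL chevE7.Idx K) :
    Matrix chevE7.Idx chevE7.Idx K) =
      (((ad F g : ↥(chevE7.group F)) : GL chevE7.Idx F) : Matrix chevE7.Idx chevE7.Idx F).map f := by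
  rw [ad_emb]
  rfl

theorem L_apply (g : Gh F) (v : chevE7.Idx → F) : L F g v =
    (((ad F g : ↥(chevE7.group F)) : GL chevE7.Idx F) : Matrix chevE7.Idx chevE7.Idx F).mulVec v :=
  LK_apply (ad F g) v

theorem L_emb (g : Gh F) (x : chevE7.Idx → F) : L K (emb f g) (fun i => f (x i)) = fun i => f (L F g x i) := by
  rw [L_apply, L_apply, ad_emb_mat, map_mulVec]

theorem L_eq' (g : Gh F) : L F g = Matrix.toLin' (((ad F g : ↥(chevE7.group F)) : GL chevE7.Idx F) :
    Matrix chevE7.Idx chevE7.Idx F) := by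
  refine LinearMap.ext fun v => ?_
  rw [L_apply, Matrix.toLin'_apply]

theorem ev_V (g : Gh F) (μ : F) : ev (V K (emb f g)) (f μ) = ev (V F g) μ := by
  rw [V_eq, V_eq, rho_emb]
  exact Cfsg.Agent.H815.F4Chg.ev_map f _ μ

theorem ev_L (g : Gh F) (μ : F) : ev (L K (emb f g)) (f μ) = ev (L F g) μ := by
  rw [L_eq', L_eq', ad_emb_mat]
  exact Cfsg.Agent.H815.F4Chg.ev_map f _ μ

theorem ev_V_one (g : Gh F) : ev (V K (emb f g)) 1 = ev (V F g) 1 := by
  rw [← ev_V f g 1, map_one]

theorem ev_L_one (g : Gh F) : ev (L K (emb f g)) 1 = ev (L F g) 1 := by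
  rw [← ev_L f g 1, map_one]

theorem ev_V_neg_one (g : Gh F) : ev (V K (emb f g)) (-1) = ev (V F g) (-1) := by
  rw [← ev_V f g (-1), map_neg, map_one]

theorem ev_L_neg_one (g : Gh F) : ev (L K (emb f g)) (-1) = ev (L F g) (-1) := by
  rw [← ev_L f g (-1), map_neg, map_one]

theorem trace_V (g : Gh F) : LinearMap.trace K _ (V K (emb f g)) = f (LinearMap.trace F _ (V F g)) := by
  rw [V_eq, V_eq, rho_emb]
  exact Cfsg.Agent.H815.F4Chg.trace_map f _

theorem trace_L (g : Gh F) : LinearMap.trace K _ (L K (emb f g)) = f (LinearMap.trace F _ (L F g)) := by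
  rw [L_eq', L_eq', ad_emb_mat]
  exact Cfsg.Agent.H815.F4Chg.trace_map f _

theorem ad_emb_eq_one_iff (g : Gh F) : ad K (emb f g) = 1 ↔ ad F g = 1 := by
  rw [ad_emb]
  constructor
  · intro h
    exact Cfsg.Agent.GpExc.Field.emb_injective _ f (by rw [h, map_one])
  · intro h
    rw [h, map_one]

variable {f}

theorem ext_es_V (g : Gh F) (μ : F) : ext f (es (V F g) μ) = es (V K (emb f g)) (f μ) := by
  rw [V_eq, V_eq, rho_emb]
  exact ext_es _ μ

theorem ext_es_L (g : Gh F) (μ : F) : ext f (es (L F g) μ) = es (L K (emb f g)) (f μ) := by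
  rw [L_eq', L_eq', ad_emb_mat]
  exact ext_es _ μ

variable {A : Type*} [Group A] (ψ : A →* Gh F)

theorem ext_inv_V : ext f (Representation.invariants (MonoidHom.comp (V F) ψ)) =
    Representation.invariants (MonoidHom.comp (V K) ((emb f).comp ψ)) := by
  apply le_antisymm
  · refine ext_le fun x hx => ?_
    rw [Representation.mem_invariants] at hx ⊢
    intro a
    show V K (emb f (ψ a)) (fun i => f (x i)) = _
    rw [V_emb, show V F (ψ a) x = x from hx a]
  · intro y hy
    rw [Representation.mem_invariants] at hy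
    refine mem_ext_fixed (fun a : A => rho F (ψ a)) _ (fun x hx => ?_) (y := y) fun a => ?_
    · rw [Representation.mem_invariants]
      exact fun a => hx a
    · have h1 : V K (emb f (ψ a)) y = y := hy a
      rw [V_apply, rho_emb] at h1
      exact h1

theorem ext_inv_L : ext f (Representation.invariants (MonoidHom.comp (L F) ψ)) =
    Representation.invariants (MonoidHom.comp (L K) ((emb f).comp ψ)) := by
  apply le_antisymm
  · refine ext_le fun x hx => ?_
    rw [Representation.mem_invariants] at hx ⊢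
    intro a
    show L K (emb f (ψ a)) (fun i => f (x i)) = _
    rw [L_emb, show L F (ψ a) x = x from hx a]
  · intro y hy
    rw [Representation.mem_invariants] at hy
    refine mem_ext_fixed (fun a : A => (((ad F (ψ a) : ↥(chevE7.group F)) : GL chevE7.Idx F) :
      Matrix chevE7.Idx chevE7.Idx F)) _ (fun x hx => ?_) (y := y) fun a => ?_
    · rw [Representation.mem_invariants]
      intro a
      show L F (ψ a) x = x
      rw [L_apply]
      exact hx a
    · have h1 : L K (emb f (ψ a)) y = y := hy a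
      rw [L_apply, ad_emb_mat] at h1
      exact h1

/-- stable subspaces -/
theorem ext_stable_V {g : Gh F} {W : Submodule F (D1 → F)} (h : ∀ w ∈ W, V F g w ∈ W) :
    ∀ w ∈ ext f W, V K (emb f g) w ∈ ext f W := by
  intro w hw
  have h1 : ext f W ≤ (ext f W).comap (V K (emb f g)) := ext_le fun x hx => by
    rw [Submodule.mem_comap, V_emb]
    exact mem_ext_of_mem (h x hx)
  exact h1 hw

theorem ext_stable_L {g : Gh F} {W : Submodule F (chevE7.Idx → F)} (h : ∀ w ∈ W, L F g w ∈ W) :
    ∀ w ∈ ext f W, L K (emb f g) w ∈ ext f W := by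
  intro w hw
  have h1 : ext f W ≤ (ext f W).comap (L K (emb f g)) := ext_le fun x hx => by
    rw [Submodule.mem_comap, L_emb]
    exact mem_ext_of_mem (h x hx)
  exact h1 hw

end

end Cfsg.Agent.R2.T1
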