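import Cfsg.Agent.R2.T1.Inf.Cen
import Cfsg.Agent.H129.TorusUntw
import Cfsg.Agent.H943.E7V.TorMain

/-!
# S5771, S5929: descent (helper11)

* `emb_injective`, `emb_Phi`, `wt_map`;
* `exists_of_emb_eq` : the fixed points of the Frobenius automorphism of `Gh K`.
-/

set_option autoImplicit false

namespace Cfsg.Agent.R2.T1

open Cfsg Cfsg.Lie Module
open Cfsg.Agent.ChevalleyStructure.StTheta Cfsg.Agent.ChevalleyStructure.StEmbed
open Cfsg.Agent.H943.E7V.Block (D1 rho)
open Cfsg.Agent.H944.E7Two (e7T)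
open Cfsg.Agent.KFacts.RgdChevCoord (TT)

universe u v w

section
variable {F : Type u} {K : Type v} [Field F] [Field K] (f : F →+* K)

theorem emb_injective : Function.Injective (emb f) := by
  intro x y h
  apply rho_injective
  have h1 : (rho F x).map f = (rho F y).map f := by rw [← rho_emb, ← rho_emb, h]
  ext i j
  have h2 := congrFun (congrFun h1 i) j
  exact f.injective h2

theorem wt_map (s : D1) (a : Fin chevE7.rank → Fˣ) : wt s (fun i => Units.map (f : F →* K) (a i)) =
    Units.map (f : F →* K) (wt s a) := by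
  unfold wt
  rw [map_prod]
  exact Finset.prod_congr rfl fun i _ => (map_zpow _ _ _).symm

theorem rtv_map (r : ℕ) (a : Fin chevE7.rank → Fˣ) : rtv r (fun i => Units.map (f : F →* K) (a i)) =
    Units.map (f : F →* K) (rtv r a) := by
  unfold rtv
  rw [map_prod]
  exact Finset.prod_congr rfl fun i _ => (map_zpow _ _ _).symm

theorem emb_Phi (a : Fin chevE7.rank → Fˣ) : emb f (Phi F a) = Phi K fun i => Units.map (f : F →* K) (a i) := by
  apply rho_injective
  rw [rho_emb, rho_Phi, rho_Phi]
  simp only [wt_map]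
  ext i j
  rw [Matrix.map_apply]
  by_cases h : i = j
  · subst h
    rw [Matrix.diagonal_apply_eq, Matrix.diagonal_apply_eq]; rfl
  · rw [Matrix.diagonal_apply_ne _ h, Matrix.diagonal_apply_ne _ h, map_zero]

end

section
variable {F : Type u} {K : Type v} [Field F] [Field K] (f : F →+* K)

theorem emb_frob [Finite F] (s : K →+* K) (hs : ∀ t, s t = t ^ Nat.card F) (x : Gh F) :
    emb s (emb f x) = emb f x := by
  have := Fintype.ofFinite F
  rw [emb_comp]
  congr 1
  have h1 : s.comp f = f := by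
    ext t
    rw [RingHom.comp_apply, hs, ← map_pow, Nat.card_eq_fintype_card, FiniteField.pow_card]
  rw [h1]

end

section
variable {F : Type u} {K : Type u} [Field F] [Field K] (f : F →+* K)

/-- **descent**: elements fixed by the Frobenius automorphism -/
theorem exists_of_emb_eq [IsAlgClosed K] [Finite F] (s : K →+* K) (hs : ∀ t, s t = t ^ Nat.card F) {z : Gh K}
    (hz : emb s z = z) : ∃ z0 : Gh F, emb f z0 = z := by
  have := Fintype.ofFinite F
  have hs' : ∀ t, s t = t ^ Fintype.card F := fun t => by rw [hs, Nat.card_eq_fintype_card]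
  have hfix : ∀ t, s t = t ↔ t ∈ Set.range f := Cfsg.Agent.BpExc.Emb.fix_iff_range hs'
  -- the adjoint group
  have h1 : Cfsg.Agent.GpExc.Field.glMap chevE7 s ((ad K z : ↥(chevE7.group K)) : GL chevE7.Idx K) =
      ((ad K z : ↥(chevE7.group K)) : GL chevE7.Idx K) := by
    have h2 := ad_emb s z
    rw [hz] at h2
    nth_rewrite 2 [h2]
    exact (Cfsg.Agent.GpExc.Field.coe_emb e7T.inList s (ad K z)).symm
  obtain ⟨x, hx, t, ht, e1⟩ := Cfsg.Agent.BpExc.EmbSplit.untw_split e7T.inList hfix (ad K z).2 h1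
  obtain ⟨x0, hx0⟩ := ad_surjective (K := F) ⟨x, hx⟩
  set w := (emb f x0)⁻¹ * z with hw
  have hwt : ((ad K w : ↥(chevE7.group K)) : GL chevE7.Idx K) = t := by
    rw [hw, map_mul, map_inv, ad_emb, hx0, Subgroup.coe_mul, Subgroup.coe_inv, e1]
    exact inv_mul_cancel_left (Cfsg.Agent.GpExc.Field.glMap chevE7 f x) t
  have hwT : ad K w ∈ TT chevE7 K := by
    change ((ad K w : ↥(chevE7.group K)) : GL chevE7.Idx K) ∈ chevE7.diagonalSubgroup K
    rw [hwt]
    exact ht
  obtain ⟨a, ha⟩ := Cfsg.Agent.H129.StCover.exists_theta_phi isPhi e7T hwT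
  obtain ⟨b, hb⟩ : ∃ b, Phi K b = w := by
    have h2 : (Phi K a)⁻¹ * w ∈ (ad K).ker := by
      have ha' : ad K (Phi K a) = ad K w := ha
      rw [MonoidHom.mem_ker, map_mul, map_inv, ha', inv_mul_cancel]
    rw [ker_ad] at h2
    obtain ⟨b, hb⟩ := isPhi.center_le h2
    exact ⟨a * b, by rw [map_mul, hb, mul_inv_cancel_left]⟩
  have hws : emb s w = w := by
    rw [hw, map_mul, map_inv, hz, emb_frob f s hs]
  rw [← hb, emb_Phi] at hws
  have hbs := isPhi.inj hws
  have hex : ∀ i, ∃ c : Fˣ, Units.map (f : F →* K) c = b i := by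
    intro i
    have h3 : s (b i : K) = b i := congrArg Units.val (congrFun hbs i)
    obtain ⟨c, hc⟩ := (hfix _).1 h3
    have hc0 : c ≠ 0 := by
      rintro rfl
      rw [map_zero] at hc
      exact (b i).ne_zero hc.symm
    exact ⟨Units.mk0 c hc0, Units.ext hc⟩
  choose c hc using hex
  refine ⟨x0 * Phi F c, ?_⟩
  rw [map_mul, emb_Phi]
  have h4 : (fun i => Units.map (f : F →* K) (c i)) = b := funext hc
  rw [h4, hb, hw, mul_inv_cancel_left]

/-- descent from the algebraic closure: matrices with coefficients in the small field -/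
theorem exists_of_rho [IsAlgClosed K] [Finite F] {z : Gh K} {A : Matrix D1 D1 F} (hz : rho K z = A.map f) :
    ∃ z0 : Gh F, emb f z0 = z ∧ rho F z0 = A := by
  have := Fintype.ofFinite F
  obtain ⟨p, hp⟩ := CharP.exists F
  have hpp : Fact p.Prime := ⟨CharP.char_is_prime F p⟩
  have hcp : CharP K p := charP_of_injective_ringHom f.injective p
  obtain ⟨n, -, hn⟩ := FiniteField.card F p
  let s : K →+* K := iterateFrobenius K p n
  have hs : ∀ t, s t = t ^ Nat.card F := by
    intro t
    rw [Nat.card_eq_fintype_card, hn]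
    rfl
  have hz' : emb s z = z := by
    apply rho_injective
    rw [rho_emb, hz]
    ext i j
    rw [Matrix.map_apply, Matrix.map_apply, hs, ← map_pow, Nat.card_eq_fintype_card, FiniteField.pow_card]
  obtain ⟨z0, h0⟩ := exists_of_emb_eq f s hs hz'
  refine ⟨z0, h0, ?_⟩
  have h1 : (rho F z0).map f = A.map f := by rw [← rho_emb, h0, hz]
  ext i j
  exact f.injective (congrFun (congrFun h1 i) j)

end

end Cfsg.Agent.R2.T1
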