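import Cfsg.Agent.R2.T1.Inf.Cen
import Cfsg.Agent.H16.E6.Cov
import Cfsg.Agent.Lib.AltCarmichael

/-!
# S5771, S5929: the preimage of an alternating group in the simply connected group (helper11)

* `exists_lift` : lift or cover;
* `Cover.ker_cases`, `perfect` : the structure of the preimage in the cover case;
* `Cover.sq` : in the cover case the lifts of double transpositions square to `-1`;
* `odd_lift` : unique lifts of odd order.
-/

set_option autoImplicit false

namespace Cfsg.Agent.R2.T1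

open Cfsg Cfsg.Lie Module Subgroup Equiv
open Cfsg.Agent.H943.E7V.Block (D1 rho)
open Cfsg.Agent.H952.F4 (ev es matRep MaxAlt)

variable {F : Type*} [Field F]

theorem ker_comm {z : Gh F} (hz : ad F z = 1) (g : Gh F) : g * z = z * g := by
  have h : z ∈ Subgroup.center (Gh F) := by rw [← ker_ad, MonoidHom.mem_ker]; exact hz
  exact Subgroup.mem_center_iff.mp h g

theorem ker_sq {z : Gh F} (hz : ad F z = 1) : z * z = 1 := by
  apply faithful
  refine LinearMap.ext fun v => ?_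
  rw [V_mul]
  rcases ad_eq_one_iff.1 hz with h | h
  · rw [h]; rfl
  · rw [neg_apply h, neg_apply h, _root_.neg_neg]; rfl

/-- the kernel of `ad` has at most two elements -/
theorem ker_cases {z w : Gh F} (hz : V F z = -1) (hw : ad F w = 1) : w = 1 ∨ w = z := by
  rcases ad_eq_one_iff.1 hw with h | h
  · exact Or.inl (faithful h)
  · exact Or.inr (V_injective (h.trans hz.symm))

section cov
variable {A : Type*} [Group A] {φ : A →* ↥(chevE7.group F)}

theorem Cover.ker_le (hc : Cover φ) {w : Gh F} (hw : ad F w = 1) :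
    w ∈ (⁅(φ.range.comap (ad F)), (φ.range.comap (ad F))⁆ : Subgroup (Gh F)) := by
  obtain ⟨z, -, hz, -, hzm⟩ := hc
  rcases ker_cases (neg_of hz) hw with rfl | rfl
  · exact one_mem _
  · exact hzm

theorem Cover.perfect_aux (hA : commutator A = ⊤) (hc : Cover φ) :
    ⁅(φ.range.comap (ad F)), (φ.range.comap (ad F))⁆ = φ.range.comap (ad F) := by
  apply le_antisymm
  · refine Subgroup.commutator_le.mpr fun a ha b hb => ?_
    rw [commutatorElement_def]
    exact mul_mem (mul_mem (mul_mem ha hb) (inv_mem ha)) (inv_mem hb)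
  · intro g hg
    have h1 : (⁅φ.range.comap (ad F), φ.range.comap (ad F)⁆).map (ad F) = φ.range := by
      rw [Subgroup.map_commutator, Subgroup.map_comap_eq_self_of_surjective ad_surjective, MonoidHom.range_eq_map,
        ← Subgroup.map_commutator]
      exact congrArg (Subgroup.map φ) hA
    have h2 : ad F g ∈ (⁅φ.range.comap (ad F), φ.range.comap (ad F)⁆).map (ad F) := by
      rw [h1]; exact hg
    obtain ⟨k, hk, hkg⟩ := h2
    have h3 := hc.ker_le (w := k⁻¹ * g) (by rw [map_mul, map_inv, hkg, inv_mul_cancel])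
    have h4 := mul_mem hk h3
    rwa [mul_inv_cancel_left] at h4

/-- lifts of odd order -/
theorem odd_lift {g : ↥(chevE7.group F)} {k : ℕ} (hk : Odd k) (hg : g ^ k = 1) :
    ∃ x : Gh F, ad F x = g ∧ x ^ k = 1 := by
  obtain ⟨y, hy⟩ := ad_surjective g
  have h1 : ad F (y ^ k) = 1 := by rw [map_pow, hy, hg]
  have h2 : (y ^ k) * (y ^ k) = 1 := ker_sq h1
  have h3 : Commute y (y ^ k) := (Commute.refl y).pow_right k
  obtain ⟨m, hm⟩ := hk
  refine ⟨y * y ^ k, by rw [map_mul, hy, h1, mul_one], ?_⟩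
  rw [h3.mul_pow, hm]
  rw [hm] at h2
  rw [pow_succ (y ^ (2 * m + 1)), pow_mul (y ^ (2 * m + 1)) 2 m, pow_two, h2, one_pow, one_mul, h2]

/-- lifts of odd order are unique -/
theorem odd_unique {x y : Gh F} {k : ℕ} (hk : Odd k) (h : ad F x = ad F y) (hx : x ^ k = 1) (hy : y ^ k = 1) :
    x = y := by
  have h1 : ad F (x⁻¹ * y) = 1 := by rw [map_mul, map_inv, h, inv_mul_cancel]
  have h2 := ker_sq h1
  set z := x⁻¹ * y with hz
  have h3 : y = x * z := by rw [hz, mul_inv_cancel_left]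
  have h4 : Commute x z := ker_comm h1 x
  obtain ⟨m, hm⟩ := hk
  have h5 : z ^ k = 1 := by
    have h6 : (x * z) ^ k = 1 := by rw [← h3]; exact hy
    rwa [h4.mul_pow, hx, one_mul] at h6
  rw [hm, pow_succ, pow_mul, pow_two, h2, one_pow, one_mul] at h5
  rw [h3, h5, mul_one]

end cov

theorem alt_perfect {n : ℕ} (hn : 5 ≤ n) : commutator ↥(alternatingGroup (Fin n)) = ⊤ :=
  commutator_alternatingGroup_eq_top (by rw [Nat.card_eq_fintype_card, Fintype.card_fin]; exact hn)

variable {n : ℕ} {φ : ↥(alternatingGroup (Fin n)) →* ↥(chevE7.group F)}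

/-- **lift or cover** -/
theorem exists_lift (hn : 5 ≤ n) (_hφ : Function.Injective φ) :
    (∃ ψ : ↥(alternatingGroup (Fin n)) →* Gh F, Lift φ ψ) ∨ ((2 : F) ≠ 0 ∧ Cover φ) := by
  by_cases hD : ∀ g ∈ ⁅φ.range.comap (ad F), φ.range.comap (ad F)⁆, ad F g = 1 → g = 1
  · exact Or.inl (Cfsg.Agent.H163.E6.Cov.lift_of (ad F) φ ad_surjective (alt_perfect hn) hD)
  right
  push Not at hD
  obtain ⟨z, hzD, hz1, hz⟩ := hD
  rcases ad_eq_one_iff.1 hz1 with h | h
  · exact absurd (faithful h) hz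
  refine ⟨?_, z, hz, neg_apply h, hz1, hzD⟩
  intro h2
  apply hz
  apply faithful
  refine LinearMap.ext fun v => ?_
  rw [neg_apply h]
  funext a
  change - v a = v a
  linear_combination (-v a) * h2

theorem Cover.perfect (hn : 5 ≤ n) (hc : Cover φ) :
    ⁅(φ.range.comap (ad F)), (φ.range.comap (ad F))⁆ = φ.range.comap (ad F) :=
  hc.perfect_aux (alt_perfect hn)

section sq
open Cfsg.Agent.Lib.AltCarmichael
open scoped commutatorElement

theorem ct_swaps {α : Type*} [Fintype α] [DecidableEq α] {i j a b : α} (hij : i ≠ j) (hib : i ≠ b)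
    (hia : i ≠ a) (hja : j ≠ a) (hjb : j ≠ b) (hab : a ≠ b) : (swap i a * swap j b).cycleType = {2, 2} := by
  have h1 : Perm.Disjoint (swap i a) (swap j b) := by
    intro x
    by_cases hx : x = i ∨ x = a
    · right
      rcases hx with rfl | rfl
      · exact swap_apply_of_ne_of_ne hij hib
      · exact swap_apply_of_ne_of_ne hja.symm hab
    · left
      push Not at hx
      exact swap_apply_of_ne_of_ne hx.1 hx.2
  have h2 : ∀ {x y : α}, x ≠ y → (swap x y).cycleType = {2} := by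
    intro x y hxy
    rw [(Perm.isCycle_swap hxy).cycleType, Perm.card_support_swap hxy]
  rw [h1.cycleType_mul, h2 hia, h2 hjb]
  rfl

theorem cyc_mul {m i j : ℕ} (hi : i < m) (hj : j < m) (hij : i ≠ j) : (cyc m i * cyc m j).cycleType = {2, 2} := by
  have e1 := ofNat_ne (m := m) (i := i) (j := j) (by omega) (by omega) hij
  have e2 := ofNat_ne (m := m) (i := i) (j := m) (by omega) (by omega) (by omega)
  have e3 := ofNat_ne (m := m) (i := i) (j := m + 1) (by omega) (by omega) (by omega)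
  have e4 := ofNat_ne (m := m) (i := j) (j := m) (by omega) (by omega) (by omega)
  have e5 := ofNat_ne (m := m) (i := j) (j := m + 1) (by omega) (by omega) (by omega)
  have e6 := ofNat_ne (m := m) (i := m) (j := m + 1) (by omega) (by omega) (by omega)
  rw [cyc_def, cyc_def]
  set I := Fin.ofNat (m + 2) i
  set J := Fin.ofNat (m + 2) j
  set A := Fin.ofNat (m + 2) m
  set B := Fin.ofNat (m + 2) (m + 1)
  have h2 : swap A B * swap J A * swap A B = swap J B := by
    have := swap_conj (a := B) (b := A) (c := J) e5.symm e4.symm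
    rw [swap_comm B A, swap_comm A J, swap_comm B J] at this
    exact this
  have h3 : swap I A * swap A B * (swap J A * swap A B) = swap I A * swap J B := by
    rw [← h2]; simp only [mul_assoc]
  rw [h3]
  exact ct_swaps e1 e3 e2 e4 e5 e6

/-- the double transpositions form one class -/
theorem conj_dt (hn : 5 ≤ n) {a b : ↥(alternatingGroup (Fin n))} (ha : (a : Perm (Fin n)).cycleType = {2, 2})
    (hb : (b : Perm (Fin n)).cycleType = {2, 2}) : ∃ c : ↥(alternatingGroup (Fin n)), c * a * c⁻¹ = b := by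
  obtain ⟨m, rfl⟩ : ∃ m, n = m + 5 := ⟨n - 5, by omega⟩
  obtain ⟨p0, hp0⟩ : ∃ p : Fin (m + 5), p.val = 0 := ⟨⟨0, by omega⟩, rfl⟩
  obtain ⟨p1, hp1⟩ : ∃ p : Fin (m + 5), p.val = 1 := ⟨⟨1, by omega⟩, rfl⟩
  obtain ⟨p2, hp2⟩ : ∃ p : Fin (m + 5), p.val = 2 := ⟨⟨2, by omega⟩, rfl⟩
  obtain ⟨p3, hp3⟩ : ∃ p : Fin (m + 5), p.val = 3 := ⟨⟨3, by omega⟩, rfl⟩
  let e : Perm (Fin (m + 5)) := swap p0 p1 * swap p2 p3
  have h01 : p0 ≠ p1 := fun h => by rw [h] at hp0; omega
  have h02 : p0 ≠ p2 := fun h => by rw [h] at hp0; omega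
  have h03 : p0 ≠ p3 := fun h => by rw [h] at hp0; omega
  have h12 : p1 ≠ p2 := fun h => by rw [h] at hp1; omega
  have h13 : p1 ≠ p3 := fun h => by rw [h] at hp1; omega
  have h23 : p2 ≠ p3 := fun h => by rw [h] at hp2; omega
  have he : e.cycleType = {2, 2} := ct_swaps h02 h03 h01 h12.symm h23 h13
  have key : ∀ x : Perm (Fin (m + 5)), x.cycleType = {2, 2} →
      ∃ c : ↥(alternatingGroup (Fin (m + 5))), (c : Perm (Fin (m + 5))) * x * (c : Perm (Fin (m + 5)))⁻¹ = e := by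
    intro x hx
    obtain ⟨c, hc⟩ := isConj_iff.mp (Perm.isConj_iff_cycleType_eq.mpr (hx.trans he.symm))
    rcases Int.units_eq_one_or (Perm.sign c) with hs | hs
    · exact ⟨⟨c, Perm.mem_alternatingGroup.mpr hs⟩, hc⟩
    · refine ⟨⟨swap p0 p1 * c, Perm.mem_alternatingGroup.mpr (by rw [map_mul, hs, Perm.sign_swap h01]; rfl)⟩, ?_⟩
      change swap p0 p1 * c * x * (swap p0 p1 * c)⁻¹ = e
      have h1 : swap p0 p1 * c * x * (swap p0 p1 * c)⁻¹ = swap p0 p1 * (c * x * c⁻¹) * (swap p0 p1)⁻¹ := by group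
      rw [h1, hc]
      change swap p0 p1 * (swap p0 p1 * swap p2 p3) * (swap p0 p1)⁻¹ = swap p0 p1 * swap p2 p3
      rw [swap_inv, ← mul_assoc, swap_mul_self, one_mul]
      have h2 := swap_apply_apply (swap p0 p1) p2 p3
      rw [swap_apply_of_ne_of_ne h02.symm h12.symm, swap_apply_of_ne_of_ne h03.symm h13.symm, swap_inv] at h2
      nth_rewrite 2 [h2]
      rw [← mul_assoc, ← mul_assoc, swap_mul_self, one_mul]
  obtain ⟨c, hc⟩ := key _ ha
  obtain ⟨d, hd⟩ := key _ hb
  refine ⟨d⁻¹ * c, Subtype.ext ?_⟩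
  change (d : Perm (Fin (m + 5)))⁻¹ * c * a * ((d : Perm (Fin (m + 5)))⁻¹ * c)⁻¹ = b
  have h1 : (b : Perm (Fin (m + 5))) = (d : Perm (Fin (m + 5)))⁻¹ * (d * b * (d : Perm (Fin (m + 5)))⁻¹) * d := by group
  rw [h1, hd, ← hc]
  group

/-- **in the cover case double transpositions lift to square roots of `-1`** -/
theorem Cover.sq (hn : 5 ≤ n) (hφ : Function.Injective φ) (hc : Cover φ) {a : ↥(alternatingGroup (Fin n))}
    (ha : (a : Perm (Fin n)).cycleType = {2, 2}) {x : Gh F} (hx : ad F x = φ a) : V F (x * x) = -1 := by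
  have ha2 : a * a = 1 := by
    apply Subtype.ext
    have h1 : orderOf (a : Perm (Fin n)) = 2 := by
      rw [← Perm.lcm_cycleType, ha]; rfl
    have h2 := pow_orderOf_eq_one (a : Perm (Fin n))
    rw [h1, pow_two] at h2
    exact h2
  have h1 : ad F (x * x) = 1 := by rw [map_mul, hx, ← map_mul, ha2, map_one]
  rcases ad_eq_one_iff.1 h1 with h | h
  swap
  · exact h
  exfalso
  have hxx : x * x = 1 := faithful h
  -- all lifts of double transpositions are involutions
  have hall : ∀ b : ↥(alternatingGroup (Fin n)), (b : Perm (Fin n)).cycleType = {2, 2} → ∀ y : Gh F, ad F y = φ b →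
      y * y = 1 := by
    intro b hb y hy
    obtain ⟨c, hcc⟩ := conj_dt hn ha hb
    obtain ⟨g, hg⟩ := ad_surjective (φ c)
    have h2 : ad F ((g * x * g⁻¹)⁻¹ * y) = 1 := by
      rw [map_mul, map_inv, map_mul, map_mul, map_inv, hg, hx, hy, ← hcc, map_mul, map_mul, map_inv, inv_mul_cancel]
    have h3 := ker_sq h2
    have h4 := ker_comm h2
    set z := (g * x * g⁻¹)⁻¹ * y with hz
    have h5 : y = g * x * g⁻¹ * z := by rw [hz, mul_inv_cancel_left]
    rw [h5]
    calc g * x * g⁻¹ * z * (g * x * g⁻¹ * z) = (g * x * g⁻¹) * ((z * (g * x * g⁻¹)) * z) := by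
          simp only [mul_assoc]
      _ = (g * x * g⁻¹) * (((g * x * g⁻¹) * z) * z) := by rw [← h4 (g * x * g⁻¹)]
      _ = g * (x * x) * g⁻¹ * (z * z) := by group
      _ = 1 := by rw [hxx, h3, mul_one, mul_one, mul_inv_cancel]
  obtain ⟨m, rfl⟩ : ∃ m, n = m + 2 := ⟨n - 2, by omega⟩
  have hrel := rel_cyc m
  -- the lifts of order 3
  have hex : ∀ i : ℕ, ∃ y : Gh F, y ^ 3 = 1 ∧ ∀ hi : i < m, ad F y = φ ⟨cyc m i, cyc_mem m i hi⟩ := by
    intro i
    by_cases hi : i < m
    · obtain ⟨y, hy, hy3⟩ := odd_lift (g := φ ⟨cyc m i, cyc_mem m i hi⟩) (k := 3) (by decide) (by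
        rw [← map_pow]
        have : (⟨cyc m i, cyc_mem m i hi⟩ : ↥(alternatingGroup (Fin (m + 2)))) ^ 3 = 1 :=
          Subtype.ext (hrel.cube i hi)
        rw [this, map_one])
      exact ⟨y, hy3, fun _ => hy⟩
    · exact ⟨1, one_pow 3, fun h => absurd h hi⟩
  choose y hy3 hy using hex
  have hR : Rel m y := by
    refine ⟨fun i _ => hy3 i, fun i hi j hj hij => ?_⟩
    rw [pow_two]
    refine hall (⟨cyc m i, cyc_mem m i hi⟩ * ⟨cyc m j, cyc_mem m j hj⟩) (cyc_mul hi hj hij) _ ?_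
    rw [map_mul, hy i hi, hy j hj, map_mul]
  obtain ⟨f, hf⟩ := exists_hom (by omega) hR
  have hfφ : (ad F).comp f = φ := by
    have h2 := gen_cyc m (by omega)
    ext1 t
    obtain ⟨t, ht⟩ := t
    have ht' := ht
    rw [← h2, gen_def] at ht'
    have hle : Subgroup.closure {g | ∃ i < m, g = cyc m i} ≤ alternatingGroup (Fin (m + 2)) := by
      rw [← gen_def, h2]
    suffices h3 : ∀ t (ht : t ∈ Subgroup.closure {g | ∃ i < m, g = cyc m i}), (ad F).comp f ⟨t, hle ht⟩ = φ ⟨t, hle ht⟩ from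
      h3 t ht'
    intro t ht
    induction ht using Subgroup.closure_induction with
    | mem u hu =>
      obtain ⟨i, hi, rfl⟩ := hu
      rw [MonoidHom.comp_apply, hf i hi, hy i hi]
    | one =>
      have : (⟨1, hle (one_mem _)⟩ : ↥(alternatingGroup (Fin (m + 2)))) = 1 := rfl
      rw [this, map_one, map_one]
    | mul u v hu hv ihu ihv =>
      have : (⟨u * v, hle (mul_mem hu hv)⟩ : ↥(alternatingGroup (Fin (m + 2)))) = ⟨u, hle hu⟩ * ⟨v, hle hv⟩ := rfl
      rw [this, map_mul, map_mul, ihu, ihv]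
    | inv u hu ihu =>
      have : (⟨u⁻¹, hle (inv_mem hu)⟩ : ↥(alternatingGroup (Fin (m + 2)))) = (⟨u, hle hu⟩)⁻¹ := rfl
      rw [this, map_inv, map_inv, ihu]
  -- the preimage is the direct product of the image of `f` and the centre
  have hP : ∀ g ∈ φ.range.comap (ad F), ∃ a w, ad F w = 1 ∧ g = f a * w := by
    rintro g ⟨a, ha⟩
    refine ⟨a, (f a)⁻¹ * g, ?_, (mul_inv_cancel_left _ _).symm⟩
    rw [map_mul, map_inv, ← ha, ← hfφ, MonoidHom.comp_apply, inv_mul_cancel]
  have hD : ⁅φ.range.comap (ad F), φ.range.comap (ad F)⁆ ≤ f.range := by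
    refine Subgroup.commutator_le.mpr fun g hg h hh => ?_
    obtain ⟨a, w, hw, rfl⟩ := hP g hg
    obtain ⟨b, u, hu, rfl⟩ := hP h hh
    refine ⟨⁅a, b⁆, ?_⟩
    have c1 := ker_comm hw
    have c2 := ker_comm hu
    rw [map_commutatorElement, commutatorElement_def, commutatorElement_def]
    calc f a * f b * (f a)⁻¹ * (f b)⁻¹ = f a * f b * (f a)⁻¹ * (w * w⁻¹) * (f b)⁻¹ * (u * u⁻¹) := by
          rw [mul_inv_cancel, mul_inv_cancel, mul_one, mul_one]
      _ = (f a * f b * (f a)⁻¹ * w) * (w⁻¹ * (f b)⁻¹ * u) * u⁻¹ := by simp only [mul_assoc]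
      _ = (w * (f a * f b * (f a)⁻¹)) * (u * (w⁻¹ * (f b)⁻¹)) * u⁻¹ := by rw [c1, c2]
      _ = (w * f a) * f b * (f a)⁻¹ * u * w⁻¹ * (f b)⁻¹ * u⁻¹ := by simp only [mul_assoc]
      _ = (f a * w) * f b * ((f a)⁻¹ * u) * w⁻¹ * (f b)⁻¹ * u⁻¹ := by rw [← c1 (f a)]; simp only [mul_assoc]
      _ = (f a * w) * f b * (u * (f a)⁻¹) * w⁻¹ * (f b)⁻¹ * u⁻¹ := by rw [c2 (f a)⁻¹]
      _ = (f a * w) * (f b * u) * ((f a)⁻¹ * w⁻¹) * ((f b)⁻¹ * u⁻¹) := by simp only [mul_assoc]
      _ = (f a * w) * (f b * u) * (f a * w)⁻¹ * (f b * u)⁻¹ := by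
          have e1 : (f a)⁻¹ * w⁻¹ = (f a * w)⁻¹ := by rw [mul_inv_rev, ← mul_inv_rev, ← mul_inv_rev, c1]
          have e2 : (f b)⁻¹ * u⁻¹ = (f b * u)⁻¹ := by rw [← mul_inv_rev, c2]
          rw [e1, e2]
  obtain ⟨z, hz1, -, hz, hzm⟩ := hc
  obtain ⟨b, hb⟩ := hD hzm
  have h2 : φ b = 1 := by rw [← hfφ, MonoidHom.comp_apply, hb, hz]
  have h3 : b = 1 := hφ (by rw [h2, map_one])
  exact hz1 (by rw [← hb, h3, map_one])

end sq

end Cfsg.Agent.R2.T1
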