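import Cfsg.Agent.R2.T1.Inf.LForm
import Cfsg.Agent.R2.T1.Inf.Cnt

/-!
# S5771, S5929: counting on the adjoint module (helper11)

* `irrL`, `blueL`, `finrank_L`, `LK_inv` : no invariants for `2 ≠ 0`;
* `few` : the fixed vectors of the alternating group on the adjoint module for `n = 5`;
* `order_ge3`, `order_ge5` : lower bounds for the order.
-/

set_option autoImplicit false
set_option maxRecDepth 100000

namespace Cfsg.Agent.R2.T1

open Cfsg Cfsg.Lie Module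
open Cfsg.Agent.H952.F4 (ev es matRep MaxAlt)

universe u

variable {F : Type u} [Field F]

theorem irrL (h2 : (2 : F) ≠ 0) : Irr (L F) := fun _ hU h0 => irrL_aux h2 hU h0

theorem finrank_L : finrank F (chevE7.Idx → F) = 133 := by
  rw [finrank_fintype_fun_eq_card, Fintype.card_sum, Fintype.card_fin, Fintype.card_fin]
  rfl

/-- **blueprint lemma** for the adjoint module -/
theorem blueL (h2 : (2 : F) ≠ 0) {H : Subgroup ↥(chevE7.group F)} (hM : IsCoatom H)
    {W : Submodule F (chevE7.Idx → F)} (hW : Stab (L F) H W) (h0 : W ≠ ⊥) (h1 : W ≠ ⊤)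
    {g : Gh F} (hg : ∀ w ∈ W, L F g w ∈ W) : ad F g ∈ H :=
  blue_of hM (irrL h2) hW h0 h1 hg

/-- no invariants on the adjoint module -/
theorem LK_inv (h2 : (2 : F) ≠ 0) : (LK F).invariants = ⊥ := by
  by_contra hne
  have h1 := irrL h2 (LK F).invariants (fun g w hw => by
    have h3 : LK F (ad F g) w = w := (Representation.mem_invariants _ _).1 hw (ad F g)
    have h4 : L F g w = w := h3
    rw [h4]; exact hw) hne
  have hs : IsSimpleGroup ↥(chevE7.group F) := simpleE7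
  obtain ⟨g, hg⟩ := exists_ne (1 : ↥(chevE7.group F))
  apply hg
  have h3 : ((g : GL chevE7.Idx F) : Matrix chevE7.Idx chevE7.Idx F) = 1 := by
    apply Matrix.toLin'.injective
    refine LinearMap.ext fun v => ?_
    rw [Matrix.toLin'_one, LinearMap.id_apply, Matrix.toLin'_apply, ← LK_apply]
    have h4 : v ∈ (LK F).invariants := by rw [h1]; trivial
    exact (Representation.mem_invariants _ _).1 h4 g
  exact Subtype.ext (Units.ext h3)

/-- the invariants of the preimage -/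
theorem L_inv (h2 : (2 : F) ≠ 0) : (L F).invariants = ⊥ := by
  rw [eq_bot_iff, ← LK_inv h2]
  intro v hv
  rw [Representation.mem_invariants] at hv ⊢
  intro g
  obtain ⟨x, rfl⟩ := ad_surjective g
  exact hv x

section card
variable [Finite F] {H : Subgroup ↥(chevE7.group F)} {n : ℕ} {φ : ↥(alternatingGroup (Fin n)) →* ↥(chevE7.group F)}

/-- **the fixed vectors of `A₅` on the adjoint module** -/
theorem few (h2 : (2 : F) ≠ 0) (hM : MaxAlt H n φ) (hn : n = 5) :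
    ∃ k l : ℕ, k + l = finrank F (Representation.invariants (MonoidHom.comp (LK F) φ)) ∧
      (H = φ.range → l = 0) ∧
      ((Nat.card F ^ k - 1) + (Nat.card F ^ l - 1)) * Nat.card ↥(chevE7.group F) ≤
        Nat.card ↥H * (Nat.card F ^ 133 - 1) := by
  have hs : IsSimpleGroup ↥(chevE7.group F) := simpleE7
  have h3 := Cfsg.Agent.H952.F4.MaxA.few_fixed (LK F) (LK_inv h2) hM hn h2
  rwa [finrank_L] at h3

/-- lower bound for the order -/
theorem order_gen {m : ℕ} (hm : 2 ≤ m) (hq : m ≤ Nat.card F) :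
    (m ^ 2 - 1) * (m ^ 6 - 1) * (m ^ 8 - 1) * (m ^ 10 - 1) * (m ^ 12 - 1) * (m ^ 14 - 1) * (m ^ 18 - 1) *
      Nat.card F ^ 133 ≤ (m ^ 70 * 2) * Nat.card ↥(chevE7.group F) := by
  have ho := order (K := F)
  set q := Nat.card F with hqdef
  have hg : Nat.gcd 2 (q - 1) ≤ 2 := Nat.gcd_le_left _ (by norm_num)
  have key : ∀ a, m ^ a * (q ^ a - 1) ≥ (m ^ a - 1) * q ^ a := by
    intro a
    have h4 : m ^ a ≤ q ^ a := Nat.pow_le_pow_left hq a
    have h5 : 1 ≤ m ^ a := Nat.one_le_pow _ _ (by omega)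
    rw [Nat.mul_sub, Nat.sub_mul, mul_one, one_mul]
    omega
  have k2 := key 2
  have k6 := key 6
  have k8 := key 8
  have k10 := key 10
  have k12 := key 12
  have k14 := key 14
  have k18 := key 18
  set N := Nat.card ↥(chevE7.group F) with hN
  have h1 : q ^ 63 * (q ^ 2 - 1) * (q ^ 6 - 1) * (q ^ 8 - 1) * (q ^ 10 - 1) * (q ^ 12 - 1) * (q ^ 14 - 1) *
      (q ^ 18 - 1) ≤ 2 * N := by
    rw [← ho]; exact Nat.mul_le_mul_right _ hg
  calc (m ^ 2 - 1) * (m ^ 6 - 1) * (m ^ 8 - 1) * (m ^ 10 - 1) * (m ^ 12 - 1) * (m ^ 14 - 1) * (m ^ 18 - 1) * q ^ 133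
      = q ^ 63 * ((m ^ 2 - 1) * q ^ 2) * ((m ^ 6 - 1) * q ^ 6) * ((m ^ 8 - 1) * q ^ 8) *
          ((m ^ 10 - 1) * q ^ 10) * ((m ^ 12 - 1) * q ^ 12) * ((m ^ 14 - 1) * q ^ 14) * ((m ^ 18 - 1) * q ^ 18) := by ring
    _ ≤ q ^ 63 * (m ^ 2 * (q ^ 2 - 1)) * (m ^ 6 * (q ^ 6 - 1)) * (m ^ 8 * (q ^ 8 - 1)) * (m ^ 10 * (q ^ 10 - 1)) *
          (m ^ 12 * (q ^ 12 - 1)) * (m ^ 14 * (q ^ 14 - 1)) * (m ^ 18 * (q ^ 18 - 1)) := by gcongr
    _ = m ^ 70 * (q ^ 63 * (q ^ 2 - 1) * (q ^ 6 - 1) * (q ^ 8 - 1) * (q ^ 10 - 1) * (q ^ 12 - 1) * (q ^ 14 - 1) *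
          (q ^ 18 - 1)) := by ring
    _ ≤ m ^ 70 * (2 * N) := Nat.mul_le_mul_left _ h1
    _ = _ := by ring

/-- `0.44 q^133 ≤ |G|` for `q ≥ 3` -/
theorem order_ge3 (hq : 3 ≤ Nat.card F) : 11 * Nat.card F ^ 133 ≤ 25 * Nat.card ↥(chevE7.group F) := by
  have h := order_gen (m := 3) (by norm_num) hq
  norm_num at h
  omega

/-- `0.479 q^133 ≤ |G|` for `q ≥ 5` -/
theorem order_ge5 (hq : 5 ≤ Nat.card F) : 479 * Nat.card F ^ 133 ≤ 1000 * Nat.card ↥(chevE7.group F) := by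
  have h := order_gen (m := 5) (by norm_num) hq
  norm_num at h
  omega

end card

end Cfsg.Agent.R2.T1
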