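import Cfsg.Agent.R2.T1.Inf.Pat
import Cfsg.Agent.R2.T1.Five.Twist
import Cfsg.Agent.R2.T1.Inf.LCnt

/-!
# S5771, S5929: the patterns over the finite field (helper11)

* `ev_V_frob`, `ev_L_frob` : the multiplicities of `μ` and `μ ^ q` are equal;
* `ker_qd_V`, `ker_qd_L` : `dim ker (T² - (ζ + ζ⁻¹) T + 1)` over `F`;
* `patF` : `(ev (V F x) 1, ev (L F x) 1)`;
* `two`, `three`, `four`, `five` : elements of order 2, 3, 4 (square `-1`), 5.
-/

set_option autoImplicit false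
set_option maxRecDepth 100000

namespace Cfsg.Agent.R2.T1

open Cfsg Cfsg.Lie Module
open Cfsg.Agent.H943.E7V.Block (D1 rho)
open Cfsg.Agent.H952.F4 (ev es)

universe u v

section gen

variable {K : Type u} [Field K] {M : Type v} [AddCommGroup M] [Module K M]

theorem ev_zero (T : Module.End K M) : ev T 0 = finrank K ↥(LinearMap.ker T) := by
  rw [ev, Module.End.eigenspace_def, zero_smul, sub_zero]

open Polynomial in
theorem ker_qd_split [FiniteDimensional K M] (T : Module.End K M) {ζ : K} (h0 : ζ ≠ 0) (h1 : ζ ≠ ζ⁻¹) :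
    finrank K ↥(LinearMap.ker (Five.qd (ζ + ζ⁻¹) T)) = ev T ζ + ev T ζ⁻¹ := by
  have hco : IsCoprime (X - C ζ : K[X]) (X - C ζ⁻¹) := isCoprime_X_sub_C_of_isUnit_sub (by
    rw [isUnit_iff_ne_zero]
    exact sub_ne_zero.2 h1)
  have ha : ∀ a : K, aeval T (X - C a : K[X]) = T - a • 1 := by
    intro a
    rw [map_sub, aeval_X, aeval_C, Algebra.algebraMap_eq_smul_one]
  have e1 := sup_ker_aeval_eq_ker_aeval_mul_of_coprime T hco
  have e2 := disjoint_ker_aeval_of_isCoprime T hco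
  have e3 : aeval T ((X - C ζ) * (X - C ζ⁻¹) : K[X]) = Five.qd (ζ + ζ⁻¹) T := by
    rw [map_mul, ha, ha, Five.qd]
    have h2 : ζ * ζ⁻¹ = 1 := mul_inv_cancel₀ h0
    rw [sub_mul, mul_sub, mul_sub, mul_smul_comm, smul_mul_assoc, mul_one, one_mul, smul_mul_smul_comm, h2,
      mul_one, one_smul, add_smul]
    abel
  rw [e3, ha, ha] at e1
  rw [ha, ha] at e2
  have h3 := Submodule.finrank_sup_add_finrank_inf_eq (LinearMap.ker (T - ζ • (1 : Module.End K M)))
    (LinearMap.ker (T - ζ⁻¹ • (1 : Module.End K M)))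
  rw [e1, disjoint_iff.1 e2, finrank_bot, add_zero] at h3
  rw [h3, ev, ev, Module.End.eigenspace_def, Module.End.eigenspace_def]

open Polynomial in
theorem ker_qd_cube [FiniteDimensional K M] (h3 : (3 : K) ≠ 0) {T : Module.End K M} (hT : T ^ 3 = 1) :
    finrank K ↥(LinearMap.ker (Five.qd (-1) T)) + ev T 1 = finrank K M := by
  have hco : IsCoprime (X ^ 2 + X + 1 : K[X]) (X - 1) := by
    refine ⟨C (3 : K)⁻¹, -(C (3 : K)⁻¹) * (X + 2), ?_⟩
    have h4 : C (3 : K)⁻¹ * 3 = 1 := by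
      rw [← C_ofNat, ← C_mul, inv_mul_cancel₀ h3, C_1]
    linear_combination h4
  have e1 := sup_ker_aeval_eq_ker_aeval_mul_of_coprime T hco
  have e2 := disjoint_ker_aeval_of_isCoprime T hco
  have e3 : aeval T ((X ^ 2 + X + 1) * (X - 1) : K[X]) = 0 := by
    have h5 : ((X ^ 2 + X + 1) * (X - 1) : K[X]) = X ^ 3 - 1 := by ring
    rw [h5, map_sub, map_pow, aeval_X, map_one, hT, sub_self]
  have e4 : aeval T (X ^ 2 + X + 1 : K[X]) = Five.qd (-1) T := by
    rw [map_add, map_add, map_pow, aeval_X, map_one, Five.qd, neg_one_smul, sub_neg_eq_add, pow_two]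
  have e5 : aeval T (X - 1 : K[X]) = T - 1 := by
    rw [map_sub, aeval_X, map_one]
  rw [e3, e4, e5, LinearMap.ker_zero] at e1
  rw [e4, e5] at e2
  have h6 := Submodule.finrank_sup_add_finrank_inf_eq (LinearMap.ker (Five.qd (-1) T))
    (LinearMap.ker (T - (1 : Module.End K M)))
  rw [e1, disjoint_iff.1 e2, finrank_bot, add_zero, finrank_top] at h6
  rw [h6, ev, Module.End.eigenspace_def, one_smul]

/-- a square root of `-1` -/
theorem ker_qd_sq [FiniteDimensional K M] {T : Module.End K M} (hT : T * T = -1) :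
    finrank K ↥(LinearMap.ker (Five.qd 0 T)) = finrank K M := by
  have h : Five.qd 0 T = 0 := by
    rw [Five.qd, hT, zero_smul, sub_zero, neg_add_cancel]
  rw [h, LinearMap.ker_zero, finrank_top]

end gen

section mats

variable {F : Type u} {K : Type v} [Field F] [Field K] {n : Type*} [Fintype n] [DecidableEq n]

theorem qd_toLin' (A : Matrix n n F) (t : F) : Five.qd t (Matrix.toLin' A) = Matrix.toLin' (A * A - t • A + 1) := by
  rw [Five.qd, map_add, map_sub, map_smul, Matrix.toLin'_mul, Matrix.toLin'_one]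
  rfl

theorem ker_qd_map (f : F →+* K) (A : Matrix n n F) (t : F) :
    finrank K ↥(LinearMap.ker (Five.qd (f t) (Matrix.toLin' (A.map f)))) =
      finrank F ↥(LinearMap.ker (Five.qd t (Matrix.toLin' A))) := by
  rw [← ev_zero, ← ev_zero, qd_toLin', qd_toLin', ← Cfsg.Agent.H815.F4Chg.ev_map f _ 0, map_zero]
  congr 2
  ext i j
  simp [Matrix.mul_apply, Matrix.one_apply, apply_ite f]

end mats

section
variable {F : Type u} {K : Type v} [Field F] [Field K] (f : F →+* K)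

theorem ker_qd_V (x : Gh F) (t : F) : finrank K ↥(LinearMap.ker (Five.qd (f t) (V K (emb f x)))) =
    finrank F ↥(LinearMap.ker (Five.qd t (V F x))) := by
  rw [V_eq, V_eq, rho_emb]
  exact ker_qd_map f _ t

theorem ker_qd_L (x : Gh F) (t : F) : finrank K ↥(LinearMap.ker (Five.qd (f t) (L K (emb f x)))) =
    finrank F ↥(LinearMap.ker (Five.qd t (L F x))) := by
  rw [L_eq', L_eq', ad_emb_mat]
  exact ker_qd_map f _ t

include f in
/-- the Frobenius endomorphism of an extension of a finite field -/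
theorem exists_frob [Finite F] : ∃ s : K →+* K, ∀ t, s t = t ^ Nat.card F := by
  have := Fintype.ofFinite F
  obtain ⟨p, hp⟩ := CharP.exists F
  have hpp : Fact p.Prime := ⟨CharP.char_is_prime F p⟩
  have hcp : CharP K p := charP_of_injective_ringHom f.injective p
  obtain ⟨n, -, hn⟩ := FiniteField.card F p
  exact ⟨iterateFrobenius K p n, fun t => by rw [Nat.card_eq_fintype_card, hn]; rfl⟩

theorem ev_V_frob [Finite F] (x : Gh F) (μ : K) : ev (V K (emb f x)) (μ ^ Nat.card F) = ev (V K (emb f x)) μ := by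
  obtain ⟨s, hs⟩ := exists_frob f
  have h := ev_V s (emb f x) μ
  rw [emb_frob f s hs, hs] at h
  exact h

theorem ev_L_frob [Finite F] (x : Gh F) (μ : K) : ev (L K (emb f x)) (μ ^ Nat.card F) = ev (L K (emb f x)) μ := by
  obtain ⟨s, hs⟩ := exists_frob f
  have h := ev_L s (emb f x) μ
  rw [emb_frob f s hs, hs] at h
  exact h

/-- elements fixed by the Frobenius endomorphism -/
theorem exists_of_pow_eq [Finite F] {t : K} (h : t ^ Nat.card F = t) : ∃ a : F, f a = t := by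
  have := Fintype.ofFinite F
  obtain ⟨s, hs⟩ := exists_frob f
  have hs' : ∀ t, s t = t ^ Fintype.card F := fun t => by rw [hs, Nat.card_eq_fintype_card]
  exact (Cfsg.Agent.BpExc.Emb.fix_iff_range (f := f) hs' t).1 (by rw [hs, h])

end

section
variable {F : Type u} [Field F] [Finite F]

/-- the characteristic does not divide `N` -/
theorem exists_char {N : ℕ} (hN : (N : F) ≠ 0) : ∃ p : ℕ, ∃ _ : Fact p.Prime, ∃ _ : CharP F p, N.Coprime p := by
  obtain ⟨p, hp⟩ := CharP.exists F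
  have hpp : Fact p.Prime := ⟨CharP.char_is_prime F p⟩
  refine ⟨p, hpp, hp, ?_⟩
  rw [Nat.coprime_comm, hpp.out.coprime_iff_not_dvd]
  intro h
  exact hN ((CharP.cast_eq_zero_iff F p N).2 h)

/-- **the dimensions of the fixed spaces** -/
theorem patF {N : ℕ} {T : List (List ℕ × List ℕ)} (hchk : chk N T = true) (hN : (N : F) ≠ 0) {x : Gh F}
    (hx : x ^ N = 1) : ∃ P ∈ T, ev (V F x) 1 = P.1.getD 0 0 ∧ ev (L F x) 1 = P.2.getD 0 0 := by
  obtain ⟨p, hpp, hp, hcop⟩ := exists_char hN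
  have hN0 : N ≠ 0 := by
    rintro rfl
    exact hN Nat.cast_zero
  obtain ⟨ζ, hζ, P, hP, h1⟩ := pat hchk hN0 p hcop hx
  obtain ⟨h2, h3⟩ := h1 0 (Nat.pos_of_ne_zero hN0)
  rw [pow_zero] at h2 h3
  exact ⟨P, hP, by rw [← h2, ev_V_one], by rw [← h3, ev_L_one]⟩

omit [Finite F] in
theorem eq_one_of_ev {x : Gh F} (h : ev (V F x) 1 = 56) : x = 1 := by
  apply rho_injective
  rw [map_one]
  have h1 : Module.End.eigenspace (V F x) 1 = ⊤ := by
    apply Submodule.eq_top_of_finrank_eq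
    rw [finrank_V]
    exact h
  have h2 : Matrix.toLin' (rho F x) = Matrix.toLin' 1 := by
    rw [Matrix.toLin'_one, ← V_eq]
    refine LinearMap.ext fun v => ?_
    have h3 : v ∈ Module.End.eigenspace (V F x) 1 := by rw [h1]; trivial
    rw [Module.End.mem_eigenspace_iff, one_smul] at h3
    exact h3
  exact Matrix.toLin'.injective h2

/-- **elements of order 3** -/
theorem three (h3 : (3 : F) ≠ 0) {x : Gh F} (hx : x ^ 3 = 1) (hx1 : x ≠ 1) :
    (ev (V F x) 1 = 2 ∧ ev (L F x) 1 = 79) ∨ (ev (V F x) 1 = 32 ∧ ev (L F x) 1 = 67) ∨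
    (ev (V F x) 1 = 20 ∧ ev (L F x) 1 = 49) ∨ (ev (V F x) 1 = 14 ∧ ev (L F x) 1 = 49) ∨
    (ev (V F x) 1 = 20 ∧ ev (L F x) 1 = 43) := by
  obtain ⟨P, hP, h1, h2⟩ := patF chk3 (by exact_mod_cast h3) hx
  simp only [T3, List.mem_cons, List.not_mem_nil, or_false] at hP
  rcases hP with rfl | rfl | rfl | rfl | rfl | rfl
  · exact absurd (eq_one_of_ev h1) hx1
  all_goals simp only [List.getD_cons_zero] at h1 h2
  all_goals tauto

/-- **involutions** -/
theorem two (h2 : (2 : F) ≠ 0) {x : Gh F} (hx : x * x = 1) (hx1 : ad F x ≠ 1) :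
    (ev (V F x) 1 = 32 ∨ ev (V F x) 1 = 24) ∧ ev (L F x) 1 = 69 := by
  obtain ⟨P, hP, h1, h3⟩ := patF chk2 (by exact_mod_cast h2) (by rw [pow_two]; exact hx)
  simp only [T2, List.mem_cons, List.not_mem_nil, or_false] at hP
  have key : ev (L F x) 1 = 133 → False := by
    intro h
    apply hx1
    have h4 : Module.End.eigenspace (L F x) 1 = ⊤ := by
      apply Submodule.eq_top_of_finrank_eq
      rw [finrank_L]
      exact h
    have h5 : Matrix.toLin' (adM F x) = Matrix.toLin' 1 := by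
      rw [Matrix.toLin'_one, ← L_adM]
      refine LinearMap.ext fun v => ?_
      have h6 : v ∈ Module.End.eigenspace (L F x) 1 := by rw [h4]; trivial
      rw [Module.End.mem_eigenspace_iff, one_smul] at h6
      exact h6
    have h7 : adM F x = 1 := Matrix.toLin'.injective h5
    apply Subtype.ext
    apply Units.ext
    exact h7
  rcases hP with rfl | rfl | rfl | rfl
  all_goals simp only [List.getD_cons_zero] at h1 h3
  · exact absurd h3 key
  · exact absurd h3 key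
  all_goals tauto

omit [Finite F] in
theorem ev_neg_one_eq_zero (h2 : (2 : F) ≠ 0) {x : Gh F} (hx : V F (x * x) = -1) {μ : F} (hμ : μ * μ = 1) :
    ev (V F x) μ = 0 := by
  rw [ev, Submodule.finrank_eq_zero, eq_bot_iff]
  intro v hv
  rw [Module.End.mem_eigenspace_iff] at hv
  have h5 : V F (x * x) v = v := by rw [map_mul, Module.End.mul_apply, hv, map_smul, hv, smul_smul, hμ, one_smul]
  rw [hx] at h5
  have h6 : (2 : F) • v = 0 := by
    have h7 : -v = v := h5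
    rw [two_smul]
    nth_rewrite 1 [← h7]
    exact neg_add_cancel v
  exact (Submodule.mem_bot F).2 ((smul_eq_zero.1 h6).resolve_left h2)

omit [Finite F] in
theorem pow_four_eq_one {x : Gh F} (hx : V F (x * x) = -1) : x ^ 4 = 1 := by
  apply V_injective
  have h1 : x ^ 4 = (x * x) * (x * x) := by rw [← pow_two, ← pow_two, ← pow_mul]
  rw [h1, map_mul, hx, map_one]
  refine LinearMap.ext fun v => ?_
  show - - v = v
  exact _root_.neg_neg v

/-- **square roots of `-1`** -/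
theorem four (h2 : (2 : F) ≠ 0) {x : Gh F} (hx : V F (x * x) = -1) :
    ev (L F x) 1 = 63 ∨ ev (L F x) 1 = 79 := by
  have h4 : ((4 : ℕ) : F) ≠ 0 := by
    have : ((4 : ℕ) : F) = 2 * 2 := by norm_num
    rw [this]
    exact mul_ne_zero h2 h2
  obtain ⟨p, hpp, hp, hcop⟩ := exists_char h4
  obtain ⟨ζ, hζ, P, hP, h5⟩ := pat chk4 (by norm_num) p hcop (pow_four_eq_one hx)
  have hζ2 : ζ ^ 2 = -1 := by
    have h6 : ζ ^ 2 * ζ ^ 2 = 1 := by rw [← pow_add]; exact hζ.pow_eq_one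
    rcases mul_self_eq_one_iff.1 h6 with h7 | h7
    · exact absurd h7 (hζ.pow_ne_one_of_pos_of_lt (by norm_num) (by norm_num))
    · exact h7
  obtain ⟨h6, h7⟩ := h5 0 (by norm_num)
  have h8 := (h5 2 (by norm_num)).1
  rw [pow_zero] at h6 h7
  rw [ev_V_one, ev_neg_one_eq_zero h2 hx (one_mul 1)] at h6
  rw [ev_L_one] at h7
  rw [hζ2, ev_V_neg_one, ev_neg_one_eq_zero h2 hx (by rw [neg_mul_neg, one_mul])] at h8
  simp only [T4, List.mem_cons, List.not_mem_nil, or_false] at hP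
  rw [h7]
  rcases hP with rfl | rfl | rfl | rfl | rfl | rfl | rfl | rfl | rfl | rfl | rfl | rfl | rfl | rfl | rfl
  all_goals simp only [List.getD_cons_zero, List.getD_cons_succ] at h6 h7 h8
  all_goals first | (exfalso; omega) | simp

/-- the sum of a root of unity of order 5 and its inverse -/
theorem golden {K : Type v} [Field K] {ζ : K} (hζ : IsPrimitiveRoot ζ 5) :
    (ζ + ζ⁻¹) * (ζ + ζ⁻¹) + (ζ + ζ⁻¹) - 1 = 0 := by
  have h0 : ζ ≠ 0 := hζ.ne_zero (by norm_num)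
  have h1 : ζ ^ 4 + ζ ^ 3 + ζ ^ 2 + ζ + 1 = 0 := by
    have h2 := hζ.geom_sum_eq_zero (by norm_num)
    simp only [Finset.sum_range_succ, Finset.sum_range_zero, pow_zero, pow_one] at h2
    linear_combination h2
  field_simp
  linear_combination h1

/-- `5` does not divide the cardinality -/
theorem card_mod {N : ℕ} (hN : N.Prime) (h5 : (N : F) ≠ 0) : Nat.card F % N ≠ 0 := by
  have := Fintype.ofFinite F
  intro h
  apply h5
  obtain ⟨p', hp'⟩ := CharP.exists F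
  have hpp' : Fact p'.Prime := ⟨CharP.char_is_prime F p'⟩
  obtain ⟨n, -, hn⟩ := FiniteField.card F p'
  have h8 : N ∣ p' ^ (n : ℕ) := by
    rw [← hn, ← Nat.card_eq_fintype_card]
    exact Nat.dvd_of_mod_eq_zero h
  have h9 : N = p' := (Nat.prime_dvd_prime_iff_eq hN hpp'.out).1 (Nat.Prime.dvd_of_dvd_pow hN h8)
  rw [h9]
  exact CharP.cast_eq_zero F p'

theorem pow_mod_eq {K : Type v} [Field K] {ζ : K} {N : ℕ} (hζ : IsPrimitiveRoot ζ N) (m : ℕ) : ζ ^ m = ζ ^ (m % N) := by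
  nth_rewrite 1 [← Nat.div_add_mod m N]
  rw [pow_add, pow_mul, hζ.pow_eq_one, one_pow, one_mul]

theorem patF5_aux (h5 : (5 : F) ≠ 0) {K : Type v} [Field K] (f : F →+* K) {ζ : K} (hζ : IsPrimitiveRoot ζ 5) {x : Gh F}
    {a1 a2 a3 a4 b1 b2 b3 b4 : ℕ} (s1 : a4 = a1) (s2 : a3 = a2) (s3 : b4 = b1) (s4 : b3 = b2)
    (e1 : ev (V K (emb f x)) ζ = a1 ∧ ev (L K (emb f x)) ζ = b1)
    (e2 : ev (V K (emb f x)) (ζ ^ 2) = a2 ∧ ev (L K (emb f x)) (ζ ^ 2) = b2)
    (e3 : ev (V K (emb f x)) (ζ ^ 3) = a3 ∧ ev (L K (emb f x)) (ζ ^ 3) = b3)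
    (e4 : ev (V K (emb f x)) (ζ ^ 4) = a4 ∧ ev (L K (emb f x)) (ζ ^ 4) = b4) :
    (a1 = a2 ∧ b1 = b2) ∨ ∃ τ : F, τ * τ + τ - 1 = 0 ∧
      finrank F ↥(LinearMap.ker (Five.qd τ (V F x))) = 2 * a1 ∧
      finrank F ↥(LinearMap.ker (Five.qd τ (L F x))) = 2 * b1 ∧
      finrank F ↥(LinearMap.ker (Five.qd (-1 - τ) (V F x))) = 2 * a2 ∧
      finrank F ↥(LinearMap.ker (Five.qd (-1 - τ) (L F x))) = 2 * b2 := by
  have h5' : ((5 : ℕ) : F) ≠ 0 := by exact_mod_cast h5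
  have hq := card_mod (by norm_num) h5'
  have hfr := ev_V_frob f x ζ
  have hfr' := ev_L_frob f x ζ
  have hcases : Nat.card F % 5 = 1 ∨ Nat.card F % 5 = 2 ∨ Nat.card F % 5 = 3 ∨ Nat.card F % 5 = 4 := by omega
  have h0 : ζ ≠ 0 := hζ.ne_zero (by norm_num)
  have hi : ζ⁻¹ = ζ ^ 4 := by
    rw [inv_eq_iff_eq_inv]
    apply eq_inv_of_mul_eq_one_left
    rw [← pow_succ']
    exact hζ.pow_eq_one
  have hi2 : (ζ ^ 2)⁻¹ = ζ ^ 3 := by
    rw [inv_eq_iff_eq_inv]
    apply eq_inv_of_mul_eq_one_left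
    rw [← pow_add]
    exact hζ.pow_eq_one
  have hpm : (ζ + ζ⁻¹) ^ Nat.card F = ζ + ζ⁻¹ → ∃ τ : F, τ * τ + τ - 1 = 0 ∧
      finrank F ↥(LinearMap.ker (Five.qd τ (V F x))) = 2 * a1 ∧
      finrank F ↥(LinearMap.ker (Five.qd τ (L F x))) = 2 * b1 ∧
      finrank F ↥(LinearMap.ker (Five.qd (-1 - τ) (V F x))) = 2 * a2 ∧
      finrank F ↥(LinearMap.ker (Five.qd (-1 - τ) (L F x))) = 2 * b2 := by
    intro h
    obtain ⟨τ, hτ⟩ := exists_of_pow_eq f h
    have hne : ζ ≠ ζ⁻¹ := by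
      rw [hi]
      intro h7
      have := hζ.pow_inj (i := 1) (j := 4) (by norm_num) (by norm_num) (by rw [pow_one]; exact h7)
      omega
    have hne2 : ζ ^ 2 ≠ (ζ ^ 2)⁻¹ := by
      rw [hi2]
      intro h7
      have := hζ.pow_inj (i := 2) (j := 3) (by norm_num) (by norm_num) h7
      omega
    have hτ2 : f (-1 - τ) = ζ ^ 2 + (ζ ^ 2)⁻¹ := by
      have h7 := golden hζ
      have h8 : ζ ^ 2 + (ζ ^ 2)⁻¹ = (ζ + ζ⁻¹) * (ζ + ζ⁻¹) - 2 := by field_simp; ring
      rw [map_sub, map_neg, map_one, hτ, h8]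
      linear_combination (-1 : K) * h7
    refine ⟨τ, ?_, ?_, ?_, ?_, ?_⟩
    · apply f.injective
      rw [map_sub, map_add, map_mul, hτ, map_one, map_zero]
      exact golden hζ
    · rw [← ker_qd_V f, hτ, ker_qd_split _ h0 hne, hi, e1.1, e4.1, s1, two_mul]
    · rw [← ker_qd_L f, hτ, ker_qd_split _ h0 hne, hi, e1.2, e4.2, s3, two_mul]
    · rw [← ker_qd_V f, hτ2, ker_qd_split _ (pow_ne_zero 2 h0) hne2, hi2, e2.1, e3.1, s2, two_mul]
    · rw [← ker_qd_L f, hτ2, ker_qd_split _ (pow_ne_zero 2 h0) hne2, hi2, e2.2, e3.2, s4, two_mul]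
  obtain ⟨s, hs⟩ := exists_frob f
  rcases hcases with h | h | h | h
  · right
    apply hpm
    rw [← hs, map_add, hs, hs, inv_pow, pow_mod_eq hζ, h, pow_one]
  · left
    rw [pow_mod_eq hζ, h] at hfr hfr'
    exact ⟨by rw [← e1.1, ← e2.1, hfr], by rw [← e1.2, ← e2.2, hfr']⟩
  · left
    rw [pow_mod_eq hζ, h] at hfr hfr'
    exact ⟨by rw [← s2, ← e1.1, ← e3.1, hfr], by rw [← s4, ← e1.2, ← e3.2, hfr']⟩
  · right
    apply hpm
    rw [← hs, map_add, hs, hs, inv_pow, pow_mod_eq hζ, h, ← hi, inv_inv, add_comm]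

/-- **elements of order 5** -/
theorem patF5 (h5 : (5 : F) ≠ 0) {x : Gh F} (hx : x ^ 5 = 1) :
    ∃ P ∈ T5, ev (V F x) 1 = P.1.getD 0 0 ∧ ev (L F x) 1 = P.2.getD 0 0 ∧
    ((P.1.getD 1 0 = P.1.getD 2 0 ∧ P.2.getD 1 0 = P.2.getD 2 0) ∨ ∃ τ : F, τ * τ + τ - 1 = 0 ∧
      finrank F ↥(LinearMap.ker (Five.qd τ (V F x))) = 2 * P.1.getD 1 0 ∧
      finrank F ↥(LinearMap.ker (Five.qd τ (L F x))) = 2 * P.2.getD 1 0 ∧
      finrank F ↥(LinearMap.ker (Five.qd (-1 - τ) (V F x))) = 2 * P.1.getD 2 0 ∧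
      finrank F ↥(LinearMap.ker (Five.qd (-1 - τ) (L F x))) = 2 * P.2.getD 2 0) := by
  have h5' : ((5 : ℕ) : F) ≠ 0 := by exact_mod_cast h5
  obtain ⟨p, hpp, hp, hcop⟩ := exists_char h5'
  obtain ⟨ζ, hζ, P, hP, h6⟩ := pat chk5 (by norm_num) p hcop hx
  have e0 := h6 0 (by norm_num)
  have e1 := h6 1 (by norm_num)
  have e2 := h6 2 (by norm_num)
  have e3 := h6 3 (by norm_num)
  have e4 := h6 4 (by norm_num)
  rw [pow_zero, ev_V_one, ev_L_one] at e0
  rw [pow_one] at e1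
  refine ⟨P, hP, e0.1, e0.2, ?_⟩
  have sym : ∀ P ∈ T5, P.1.getD 4 0 = P.1.getD 1 0 ∧ P.1.getD 3 0 = P.1.getD 2 0 ∧
      P.2.getD 4 0 = P.2.getD 1 0 ∧ P.2.getD 3 0 = P.2.getD 2 0 := by decide
  obtain ⟨s1, s2, s3, s4⟩ := sym P hP
  exact patF5_aux h5 _ hζ s1 s2 s3 s4 e1 e2 e3 e4

/-- **elements of order 5**: the rational class, or a large eigenspace with `τ = ζ + ζ⁻¹` in `F` -/
theorem five (h5 : (5 : F) ≠ 0) {x : Gh F} (hx : x ^ 5 = 1) (hx1 : x ≠ 1) :
    (ev (V F x) 1 = 16 ∧ ev (L F x) 1 = 33) ∨ ∃ τ : F, τ * τ + τ - 1 = 0 ∧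
      24 ≤ finrank F ↥(LinearMap.ker (Five.qd τ (V F x))) ∧ 27 ≤ ev (L F x) 1 := by
  obtain ⟨P, hP, h1, h2, h3⟩ := patF5 h5 hx
  have key : ∀ P ∈ T5, P.1.getD 0 0 = 56 ∨ (P.1.getD 0 0 = 16 ∧ P.2.getD 0 0 = 33) ∨
      (P.1.getD 1 0 ≠ P.1.getD 2 0 ∧ (12 ≤ P.1.getD 1 0 ∨ 12 ≤ P.1.getD 2 0) ∧ 27 ≤ P.2.getD 0 0) := by decide
  rcases key P hP with h | ⟨h, h'⟩ | ⟨h, h', h''⟩
  · rw [h] at h1
    exact absurd (eq_one_of_ev h1) hx1
  · left
    exact ⟨h1.trans h, h2.trans h'⟩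
  · right
    rcases h3 with ⟨h4, -⟩ | ⟨τ, h4, h6, -, h7, -⟩
    · exact absurd h4 h
    · rcases h' with h8 | h8
      · exact ⟨τ, h4, by omega, by omega⟩
      · refine ⟨-1 - τ, ?_, by omega, by omega⟩
        linear_combination h4

end

end Cfsg.Agent.R2.T1
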