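import Mathlib
import Cfsg.Agent.H943.E7V.Block
import Cfsg.Agent.H944.E7Two
import Cfsg.Agent.H952.F4.Defs2

/-!
# S5771, S5929: common definitions (helper11)

* `Gh F` : the simply connected group of type `E₇` over `F` (the presented group);
* `V F` : its 56-dimensional module `D1 → F`; `LK F`, `L F` : the adjoint module `chevE7.Idx → F` of `chevE7.group F`,
  of `Gh F`; `ad F : Gh F →* chevE7.group F` the surjection (kernel = centre, acting as `±1` on `V F`);
* `emb f : Gh F →* Gh K` for `f : F →+* K`;
* `Lift`, `Cover` : the two possibilities for the preimage of an alternating group;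
* `Stab ρ H W` : `W` is stable under the preimage of `H`.
-/

set_option autoImplicit false

namespace Cfsg.Agent.R2.T1

open Cfsg Cfsg.Lie Module
open Cfsg.Agent.ChevalleyStructure.StTheta Cfsg.Agent.ChevalleyStructure.StEmbed
open Cfsg.Agent.H943.E7V.Block (D1 rho)
open Cfsg.Agent.H952.F4 (ev es matRep MaxAlt)

section
variable (F : Type*) [Field F]

/-- the simply connected group of type `E₇` -/
abbrev Gh : Type _ := chevE7.SteinbergGroup F

/-- the 56-dimensional module -/
noncomputable def V : Representation F (Gh F) (D1 → F) :=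
  ((Matrix.toLinAlgEquiv' : Matrix D1 D1 F ≃ₐ[F] ((D1 → F) →ₗ[F] (D1 → F))) : Matrix D1 D1 F →* _).comp (rho F)

/-- the adjoint module of the Chevalley group -/
noncomputable def LK : Representation F ↥(chevE7.group F) (chevE7.Idx → F) := matRep (chevE7.group F)

/-- the surjection onto the Chevalley group -/
noncomputable def ad : Gh F →* ↥(chevE7.group F) := theta Cfsg.Agent.H944.E7Two.e7T.inList F

/-- the adjoint module -/
noncomputable def L : Representation F (Gh F) (chevE7.Idx → F) := MonoidHom.comp (LK F) (ad F)

end

variable {F : Type*} [Field F]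

theorem V_apply (g : Gh F) (x : D1 → F) : V F g x = (rho F g).mulVec x := rfl

theorem V_eq (g : Gh F) : V F g = Matrix.toLin' (rho F g) := rfl

theorem L_eq (g : Gh F) : L F g = LK F (ad F g) := rfl

set_option maxRecDepth 20000 in
theorem LK_apply (g : ↥(chevE7.group F)) (x : chevE7.Idx → F) :
    LK F g x = ((g : GL chevE7.Idx F) : Matrix chevE7.Idx chevE7.Idx F).mulVec x := rfl

/-- `ψ` is a lift of `φ` to the simply connected group -/
def Lift {A : Type*} [Group A] (φ : A →* ↥(chevE7.group F)) (ψ : A →* Gh F) : Prop := ∀ a, ad F (ψ a) = φ a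

/-- the preimage of the image of `φ` is a non-split central extension with centre of order 2: the element acting as
`-1` belongs to its commutator subgroup -/
def Cover {A : Type*} [Group A] (φ : A →* ↥(chevE7.group F)) : Prop :=
  ∃ z : Gh F, z ≠ 1 ∧ (∀ v, V F z v = -v) ∧ ad F z = 1 ∧
    z ∈ (⁅(φ.range.comap (ad F)), (φ.range.comap (ad F))⁆ : Subgroup (Gh F))

/-- `W` is stable under the preimage of `H` -/
def Stab {M : Type*} [AddCommGroup M] [Module F M] (ρ : Representation F (Gh F) M)
    (H : Subgroup ↥(chevE7.group F)) (W : Submodule F M) : Prop :=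
  ∀ g : Gh F, ad F g ∈ H → ∀ w ∈ W, ρ g w ∈ W

end Cfsg.Agent.R2.T1
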