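import Cfsg.Agent.R2.T1.Inf.Dia

/-!
# S5771, S5929: eigenvalue multiplicities of diagonal elements (helper11)

* `WL`, `RL` : coordinates of the 56 weights (relative to the lowest weight) and of the 63 positive roots;
* `cV N y t k`, `cL N y k` : the multiplicities of `ζ ^ k` for the element with `α_j = ζ ^ y_j`, lowest weight `ζ ^ t`;
* `ev_core` : they are the multiplicities;
* `pats N` : the list of the patterns of the alcove, `exists_pat`.
-/

set_option autoImplicit false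
set_option maxRecDepth 100000

namespace Cfsg.Agent.R2.T1

open Cfsg Cfsg.Lie Module
open Cfsg.Agent.ChevalleyStructure Cfsg.Agent.ChevalleyStructure.Elts Cfsg.Agent.ChevalleyStructure.RootVec
  Cfsg.Agent.ChevalleyStructure.RootVecTab Cfsg.Agent.ChevalleyStructure.CoxeterGeomTypes
open Cfsg.Agent.H943.E7V.Block (D1 rho)
open Cfsg.Agent.H952.F4 (ev es)

universe u

/-- the weights: index in the root system of type `E₈`, coordinates relative to the lowest weight 120 -/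
def WL : List (ℕ × List ℕ) :=
  [(120, [0, 0, 0, 0, 0, 0, 0]), (122, [0, 0, 0, 0, 0, 0, 1]), (125, [0, 0, 0, 0, 0, 1, 1]), (129, [0, 0, 0,
  0, 1, 1, 1]), (134, [0, 0, 0, 1, 1, 1, 1]), (140, [0, 0, 1, 1, 1, 1, 1]), (146, [0, 1, 0, 1, 1, 1, 1]),
  (151, [0, 1, 1, 1, 1, 1, 1]), (155, [0, 1, 1, 2, 1, 1, 1]), (158, [0, 1, 1, 2, 2, 1, 1]), (160, [0, 1, 1,
  2, 2, 2, 1]), (161, [0, 1, 1, 2, 2, 2, 2]), (168, [1, 0, 1, 1, 1, 1, 1]), (173, [1, 1, 1, 1, 1, 1, 1]),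
  (177, [1, 1, 1, 2, 1, 1, 1]), (180, [1, 1, 1, 2, 2, 1, 1]), (182, [1, 1, 1, 2, 2, 2, 1]), (183, [1, 1, 1,
  2, 2, 2, 2]), (187, [1, 1, 2, 2, 1, 1, 1]), (190, [1, 1, 2, 2, 2, 1, 1]), (192, [1, 1, 2, 2, 2, 2, 1]),
  (193, [1, 1, 2, 2, 2, 2, 2]), (196, [1, 1, 2, 3, 2, 1, 1]), (198, [1, 1, 2, 3, 2, 2, 1]), (199, [1, 1, 2,
  3, 2, 2, 2]), (201, [1, 1, 2, 3, 3, 2, 1]), (202, [1, 1, 2, 3, 3, 2, 2]), (203, [1, 1, 2, 3, 3, 3, 2]),
  (206, [1, 2, 2, 3, 2, 1, 1]), (208, [1, 2, 2, 3, 2, 2, 1]), (209, [1, 2, 2, 3, 2, 2, 2]), (211, [1, 2, 2,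
  3, 3, 2, 1]), (212, [1, 2, 2, 3, 3, 2, 2]), (213, [1, 2, 2, 3, 3, 3, 2]), (215, [1, 2, 2, 4, 3, 2, 1]),
  (216, [1, 2, 2, 4, 3, 2, 2]), (217, [1, 2, 2, 4, 3, 3, 2]), (218, [1, 2, 2, 4, 4, 3, 2]), (220, [1, 2, 3,
  4, 3, 2, 1]), (221, [1, 2, 3, 4, 3, 2, 2]), (222, [1, 2, 3, 4, 3, 3, 2]), (223, [1, 2, 3, 4, 4, 3, 2]),
  (224, [1, 2, 3, 5, 4, 3, 2]), (225, [1, 3, 3, 5, 4, 3, 2]), (227, [2, 2, 3, 4, 3, 2, 1]), (228, [2, 2, 3,
  4, 3, 2, 2]), (229, [2, 2, 3, 4, 3, 3, 2]), (230, [2, 2, 3, 4, 4, 3, 2]), (231, [2, 2, 3, 5, 4, 3, 2]),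
  (232, [2, 2, 4, 5, 4, 3, 2]), (233, [2, 3, 3, 5, 4, 3, 2]), (234, [2, 3, 4, 5, 4, 3, 2]), (235, [2, 3, 4,
  6, 4, 3, 2]), (236, [2, 3, 4, 6, 5, 3, 2]), (237, [2, 3, 4, 6, 5, 4, 2]), (238, [2, 3, 4, 6, 5, 4, 3])]

/-- the positive roots: index and coordinates -/
def RL : List (ℕ × List ℕ) :=
  [(63, [0, 0, 0, 0, 0, 0, 1]), (64, [0, 0, 0, 0, 0, 1, 0]), (65, [0, 0, 0, 0, 0, 1, 1]), (66, [0, 0, 0, 0,
  1, 0, 0]), (67, [0, 0, 0, 0, 1, 1, 0]), (68, [0, 0, 0, 0, 1, 1, 1]), (69, [0, 0, 0, 1, 0, 0, 0]), (70, [0,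
  0, 0, 1, 1, 0, 0]), (71, [0, 0, 0, 1, 1, 1, 0]), (72, [0, 0, 0, 1, 1, 1, 1]), (73, [0, 0, 1, 0, 0, 0, 0]),
  (74, [0, 0, 1, 1, 0, 0, 0]), (75, [0, 0, 1, 1, 1, 0, 0]), (76, [0, 0, 1, 1, 1, 1, 0]), (77, [0, 0, 1, 1, 1,
  1, 1]), (78, [0, 1, 0, 0, 0, 0, 0]), (79, [0, 1, 0, 1, 0, 0, 0]), (80, [0, 1, 0, 1, 1, 0, 0]), (81, [0, 1,
  0, 1, 1, 1, 0]), (82, [0, 1, 0, 1, 1, 1, 1]), (83, [0, 1, 1, 1, 0, 0, 0]), (84, [0, 1, 1, 1, 1, 0, 0]),
  (85, [0, 1, 1, 1, 1, 1, 0]), (86, [0, 1, 1, 1, 1, 1, 1]), (87, [0, 1, 1, 2, 1, 0, 0]), (88, [0, 1, 1, 2, 1,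
  1, 0]), (89, [0, 1, 1, 2, 1, 1, 1]), (90, [0, 1, 1, 2, 2, 1, 0]), (91, [0, 1, 1, 2, 2, 1, 1]), (92, [0, 1,
  1, 2, 2, 2, 1]), (93, [1, 0, 0, 0, 0, 0, 0]), (94, [1, 0, 1, 0, 0, 0, 0]), (95, [1, 0, 1, 1, 0, 0, 0]),
  (96, [1, 0, 1, 1, 1, 0, 0]), (97, [1, 0, 1, 1, 1, 1, 0]), (98, [1, 0, 1, 1, 1, 1, 1]), (99, [1, 1, 1, 1, 0,
  0, 0]), (100, [1, 1, 1, 1, 1, 0, 0]), (101, [1, 1, 1, 1, 1, 1, 0]), (102, [1, 1, 1, 1, 1, 1, 1]), (103, [1,
  1, 1, 2, 1, 0, 0]), (104, [1, 1, 1, 2, 1, 1, 0]), (105, [1, 1, 1, 2, 1, 1, 1]), (106, [1, 1, 1, 2, 2, 1,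
  0]), (107, [1, 1, 1, 2, 2, 1, 1]), (108, [1, 1, 1, 2, 2, 2, 1]), (109, [1, 1, 2, 2, 1, 0, 0]), (110, [1, 1,
  2, 2, 1, 1, 0]), (111, [1, 1, 2, 2, 1, 1, 1]), (112, [1, 1, 2, 2, 2, 1, 0]), (113, [1, 1, 2, 2, 2, 1, 1]),
  (114, [1, 1, 2, 2, 2, 2, 1]), (115, [1, 1, 2, 3, 2, 1, 0]), (116, [1, 1, 2, 3, 2, 1, 1]), (117, [1, 1, 2,
  3, 2, 2, 1]), (118, [1, 1, 2, 3, 3, 2, 1]), (119, [1, 2, 2, 3, 2, 1, 0]), (120, [1, 2, 2, 3, 2, 1, 1]),
  (121, [1, 2, 2, 3, 2, 2, 1]), (122, [1, 2, 2, 3, 3, 2, 1]), (123, [1, 2, 2, 4, 3, 2, 1]), (124, [1, 2, 3,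
  4, 3, 2, 1]), (125, [2, 2, 3, 4, 3, 2, 1])]

/-- the scalar product -/
def dt : List ℕ → List ℕ → ℕ
  | a :: as, b :: bs => a * b + dt as bs
  | _, _ => 0

/-- the sum of `f` over a list -/
def cnt {α : Type} (p : α → Bool) : List α → ℕ
  | [] => 0
  | a :: as => (if p a then 1 else 0) + cnt p as

theorem cnt_eq {α : Type} (p : α → Bool) (l : List α) : cnt p l = (l.map fun a => if p a then 1 else 0).sum := by
  induction l with
  | nil => rfl
  | cons a as ih => rw [cnt, ih, List.map_cons, List.sum_cons]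

/-- the multiplicity of `ζ ^ k` on the 56-dimensional module -/
def cV (N : ℕ) (y : List ℕ) (t k : ℕ) : ℕ := cnt (fun w => (t + dt w.2 y) % N == k) WL

/-- the multiplicity of `ζ ^ k` on the adjoint module -/
def cL (N : ℕ) (y : List ℕ) (k : ℕ) : ℕ :=
  (if k = 0 then 7 else 0) + (cnt (fun w => dt w.2 y % N == k) RL + cnt (fun w => (dt w.2 y + k) % N == 0) RL)

theorem WL_rt : ∀ w ∈ WL, ∀ j < 7, rt chevE8 w.1 j = (w.2.getD j 0 : ℤ) := by decide +kernel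
theorem RL_rt : ∀ w ∈ RL, ∀ j < 7, rt chevE7 w.1 j = (w.2.getD j 0 : ℤ) := by decide +kernel
theorem RL_rt' : ∀ w ∈ RL, ∀ j < 7, rt chevE7 (125 - w.1) j = -(w.2.getD j 0 : ℤ) := by decide +kernel
theorem WL_len : ∀ w ∈ WL, w.2.length = 7 := by decide +kernel
theorem RL_len : ∀ w ∈ RL, w.2.length = 7 := by decide +kernel
theorem WL_mem : ∀ k < 240, rt chevE8 k 7 = 1 ↔ k ∈ WL.map Prod.fst := by decide +kernel
theorem WL_lt : ∀ w ∈ WL, w.1 < 240 := by decide +kernel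
theorem RL_lt : ∀ w ∈ RL, w.1 < 126 := by decide +kernel
theorem WL_nodup : (WL.map Prod.fst).Nodup := by decide +kernel
theorem RL_fst : RL.map Prod.fst = List.range' 63 63 := by decide +kernel

theorem dt_eq : ∀ (w y : List ℕ), w.length = y.length → dt w y = ∑ j ∈ Finset.range y.length, w.getD j 0 * y.getD j 0 := by
  intro w
  induction w with
  | nil =>
    intro y hy
    rw [List.length_nil] at hy
    rw [← hy, Finset.sum_range_zero]
    rfl
  | cons a as ih =>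
    intro y hy
    cases y with
    | nil => simp at hy
    | cons b bs =>
      rw [List.length_cons, List.length_cons] at hy
      rw [List.length_cons, Finset.sum_range_succ', dt, ih bs (by omega), add_comm]
      rfl

/-- sums over the weights -/
theorem sum_D1 {M : Type*} [AddCommMonoid M] (f : ℕ → M) : ∑ s : D1, f (nn s) = (WL.map fun w => f w.1).sum := by
  classical
  have h1 : (Finset.univ.image fun s : D1 => nn s) = (WL.map Prod.fst).toFinset := by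
    ext k
    rw [Finset.mem_image, List.mem_toFinset]
    constructor
    · rintro ⟨s, -, rfl⟩
      exact (WL_mem _ (nn_lt s)).1 (rt_nn s)
    · intro hk
      have hlt : k < 240 := by
        obtain ⟨w, hw, rfl⟩ := List.mem_map.1 hk
        exact WL_lt w hw
      exact ⟨⟨⟨k, hlt⟩, (WL_mem k hlt).2 hk⟩, Finset.mem_univ _, rfl⟩
  rw [← Finset.sum_image (f := f) (g := fun s : D1 => nn s) (fun a _ b _ h => nn_inj h), h1,
    List.sum_toFinset _ WL_nodup, List.map_map]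
  rfl

theorem list_sum_range {M : Type*} [AddCommMonoid M] (h : ℕ → M) (n : ℕ) :
    ((List.range n).map h).sum = ∑ k ∈ Finset.range n, h k := by
  induction n with
  | zero => rfl
  | succ n ih => rw [List.range_succ, List.map_append, List.sum_append, ih, Finset.sum_range_succ, List.map_singleton,
      List.sum_singleton]

/-- sums over the roots -/
theorem sum_roots {M : Type*} [AddCommMonoid M] (f : ℕ → M) : ∑ s : Fin chevE7.nroots, f s =
    (RL.map fun w => f w.1).sum + (RL.map fun w => f (125 - w.1)).sum := by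
  have h0 : ∑ s : Fin chevE7.nroots, f s = ∑ k ∈ Finset.range 126, f k := (Finset.sum_range f).symm
  have h1 : ∀ g : ℕ → M, (RL.map fun w => g w.1).sum = ∑ k ∈ Finset.range 63, g (63 + k) := by
    intro g
    have h2 : (RL.map fun w => g w.1) = (RL.map Prod.fst).map g := by rw [List.map_map]; rfl
    rw [h2, RL_fst, List.range'_eq_map_range, List.map_map, list_sum_range]
    rfl
  have h3 : ∑ k ∈ Finset.range 63, f (125 - (63 + k)) = ∑ k ∈ Finset.range 63, f k := by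
    rw [← Finset.sum_range_reflect (fun k => f k) 63]
    exact Finset.sum_congr rfl fun k hk => by
      have := Finset.mem_range.1 hk
      congr 1
      omega
  rw [h0, h1 f, h1 fun k => f (125 - k), h3, show 126 = 63 + 63 from rfl, Finset.sum_range_add, add_comm]

section
variable {K : Type u} [Field K]

/-- the values of the roots in terms of the values of the simple roots -/
theorem rtv_eq {r : ℕ} (hr : r < 126) (c : Fin chevE7.rank → Kˣ) :
    rtv r c = ∏ j ∈ Finset.range 7, rtv (chevE7.simple j) c ^ rt chevE7 r j := by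
  have h1 : ∀ i : Fin chevE7.rank, c i ^ chevE7.cartan i r =
      ∏ j ∈ Finset.range 7, (c i ^ chevE7.cartan i (chevE7.simple j)) ^ rt chevE7 r j := by
    intro i
    rw [cartan_eq_sum checked_E7 (show (i : ℕ) < 7 from i.2) hr]
    show c i ^ ∑ j ∈ Finset.range 7, _ = _
    rw [← Cfsg.Agent.H129.StCover.prod_zpow_sum]
    exact Finset.prod_congr rfl fun j _ => by rw [← zpow_mul, mul_comm]
  unfold rtv
  rw [Finset.prod_congr rfl fun i _ => h1 i, Finset.prod_comm]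
  refine Finset.prod_congr rfl fun j _ => ?_
  rw [Finset.prod_zpow]

theorem simple_bot : chevE8.simple 7 = 120 := by decide +kernel

theorem wt_eq' (s : D1) (c : Fin chevE7.rank → Kˣ) :
    wt s c = wt botv c * ∏ j ∈ Finset.range 7, rtv (chevE7.simple j) c ^ rt chevE8 (nn s) j := by
  have h1 : ∀ i : Fin chevE7.rank, c i ^ chevE8.cartan i (nn s) =
      c i ^ chevE8.cartan i (nn botv) *
        ∏ j ∈ Finset.range 7, (c i ^ chevE7.cartan i (chevE7.simple j)) ^ rt chevE8 (nn s) j := by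
    intro i
    have hi : (i : ℕ) < 7 := i.2
    rw [cartan_eq_sum checked_E8 (show (i : ℕ) < 8 by omega) (nn_lt s)]
    show c i ^ ∑ j ∈ Finset.range (7 + 1), _ = _
    rw [Finset.sum_range_succ, rt_nn, one_mul, simple_bot, zpow_add, mul_comm,
      ← Cfsg.Agent.H129.StCover.prod_zpow_sum]
    congr 1
    refine Finset.prod_congr rfl fun j hj => ?_
    rw [← zpow_mul, cart_simple i hi j (Finset.mem_range.1 hj), mul_comm]
  unfold wt rtv
  rw [Finset.prod_congr rfl fun i _ => h1 i, Finset.prod_mul_distrib, Finset.prod_comm]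
  congr 1
  refine Finset.prod_congr rfl fun j _ => ?_
  rw [Finset.prod_zpow]

section pow
variable {N : ℕ} {ζ : Kˣ} {c : Fin chevE7.rank → Kˣ} {y : List ℕ} (hy : y.length = 7)
  (h : ∀ j < 7, rtv (chevE7.simple j) c = ζ ^ y.getD j 0)

include hy h

theorem rtv_pow {w : ℕ × List ℕ} (hw : w ∈ RL) (hlt : w.1 < 126) : rtv w.1 c = ζ ^ dt w.2 y := by
  rw [rtv_eq hlt, dt_eq w.2 y ((RL_len w hw).trans hy.symm), hy, ← Finset.prod_pow_eq_pow_sum]
  refine Finset.prod_congr rfl fun j hj => ?_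
  rw [RL_rt w hw j (Finset.mem_range.1 hj), h j (Finset.mem_range.1 hj), zpow_natCast, ← pow_mul, mul_comm]

theorem rtv_pow' {w : ℕ × List ℕ} (hw : w ∈ RL) (hlt : 125 - w.1 < 126) : rtv (125 - w.1) c = (ζ ^ dt w.2 y)⁻¹ := by
  rw [rtv_eq hlt, dt_eq w.2 y ((RL_len w hw).trans hy.symm), hy, ← Finset.prod_pow_eq_pow_sum, ← Finset.prod_inv_distrib]
  refine Finset.prod_congr rfl fun j hj => ?_
  rw [RL_rt' w hw j (Finset.mem_range.1 hj), h j (Finset.mem_range.1 hj), zpow_neg, zpow_natCast, ← pow_mul, mul_comm]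

theorem wt_pow {t : ℕ} (ht : wt botv c = ζ ^ t) {w : ℕ × List ℕ} (hw : w ∈ WL) (s : D1) (hs : nn s = w.1) :
    wt s c = ζ ^ (t + dt w.2 y) := by
  rw [wt_eq', ht, pow_add, dt_eq w.2 y ((WL_len w hw).trans hy.symm), hy, ← Finset.prod_pow_eq_pow_sum, hs]
  congr 1
  refine Finset.prod_congr rfl fun j hj => ?_
  rw [WL_rt w hw j (Finset.mem_range.1 hj), h j (Finset.mem_range.1 hj), zpow_natCast, ← pow_mul, mul_comm]

variable (hζ : IsPrimitiveRoot ζ N)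

include hζ

open Classical in
/-- **the multiplicities on the 56-dimensional module** -/
theorem ev_V_core {t : ℕ} (ht : wt botv c = ζ ^ t) {k : ℕ} (hk : k < N) :
    ev (V K (Phi K c)) ((ζ : K) ^ k) = cV N y t k := by
  rw [ev_V_Phi, Finset.card_filter]
  let f : ℕ → ℕ := fun n => if h : ∃ s : D1, nn s = n then (if wt h.choose c = ζ ^ k then 1 else 0) else 0
  have h1 : ∀ s : D1, (if ((wt s c : Kˣ) : K) = (ζ : K) ^ k then 1 else 0) = f (nn s) := by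
    intro s
    have hex : ∃ s' : D1, nn s' = nn s := ⟨s, rfl⟩
    have h2 : hex.choose = s := nn_inj hex.choose_spec
    simp only [f, dif_pos hex, h2]
    have h3 : ((wt s c : Kˣ) : K) = (ζ : K) ^ k ↔ wt s c = ζ ^ k := by
      rw [← Units.val_pow_eq_pow_val, Units.val_inj]
    simp only [h3]
  rw [Finset.sum_congr rfl fun s _ => h1 s, sum_D1, cV, cnt_eq]
  congr 1
  refine List.map_congr_left fun w hw => ?_
  obtain ⟨s, hs⟩ : ∃ s : D1, nn s = w.1 := by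
    have h2 : w.1 ∈ WL.map Prod.fst := List.mem_map.2 ⟨w, hw, rfl⟩
    exact ⟨⟨⟨w.1, WL_lt w hw⟩, (WL_mem w.1 (WL_lt w hw)).2 h2⟩, rfl⟩
  have hex : ∃ s' : D1, nn s' = w.1 := ⟨s, hs⟩
  simp only [f, dif_pos hex]
  rw [wt_pow hy h ht hw _ hex.choose_spec]
  have h3 : ζ ^ (t + dt w.2 y) = ζ ^ k ↔ ((t + dt w.2 y) % N == k) = true := by
    rw [beq_iff_eq, pow_eq_pow_iff_modEq, ← hζ.eq_orderOf, Nat.ModEq, Nat.mod_eq_of_lt hk]
  simp only [h3]

open Classical in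
/-- **the multiplicities on the adjoint module** -/
theorem ev_L_core {k : ℕ} (hk : k < N) : ev (L K (Phi K c)) ((ζ : K) ^ k) = cL N y k := by
  rw [ev_L_Phi, Finset.card_filter, cL]
  have h0 : (ζ : K) ^ k = 1 ↔ k = 0 := by
    rw [← Units.val_pow_eq_pow_val, Units.val_eq_one]
    constructor
    · intro h0
      by_contra hne
      exact hζ.pow_ne_one_of_pos_of_lt hne hk h0
    · rintro rfl
      exact pow_zero _
  simp only [h0]
  refine congrArg₂ (· + ·) (by by_cases hk0 : k = 0 <;> simp only [hk0, if_true, if_false]) ?_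
  let f : ℕ → ℕ := fun n => if rtv n c = ζ ^ k then 1 else 0
  have h1 : ∀ s : Fin chevE7.nroots, (if ((rtv s c : Kˣ) : K) = (ζ : K) ^ k then 1 else 0) = f s := by
    intro s
    have h3 : ((rtv s c : Kˣ) : K) = (ζ : K) ^ k ↔ rtv s c = ζ ^ k := by
      rw [← Units.val_pow_eq_pow_val, Units.val_inj]
    simp only [h3, f]
  have e1 : (RL.map fun w => f w.1) = RL.map fun w => if (dt w.2 y % N == k) = true then 1 else 0 := by
    refine List.map_congr_left fun w hw => ?_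
    have h3 : rtv w.1 c = ζ ^ k ↔ (dt w.2 y % N == k) = true := by
      rw [rtv_pow hy h hw (RL_lt w hw), beq_iff_eq, pow_eq_pow_iff_modEq, ← hζ.eq_orderOf, Nat.ModEq, Nat.mod_eq_of_lt hk]
    simp only [f, h3]
  have e2 : (RL.map fun w => f (125 - w.1)) = RL.map fun w => if ((dt w.2 y + k) % N == 0) = true then 1 else 0 := by
    refine List.map_congr_left fun w hw => ?_
    have h3 : rtv (125 - w.1) c = ζ ^ k ↔ ((dt w.2 y + k) % N == 0) = true := by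
      rw [rtv_pow' hy h hw (by have := RL_lt w hw; omega), beq_iff_eq, inv_eq_iff_mul_eq_one, ← pow_add,
        ← orderOf_dvd_iff_pow_eq_one, ← hζ.eq_orderOf, Nat.dvd_iff_mod_eq_zero]
    simp only [f, h3]
  rw [Finset.sum_congr rfl fun s _ => h1 s, sum_roots, cnt_eq, cnt_eq, e1, e2]

/-- the relation between the two -/
theorem core_rel {t : ℕ} (ht : wt botv c = ζ ^ t) : (2 * t + dt [2, 3, 4, 6, 5, 4, 3] y) % N = 0 := by
  have hw : ((238, [2, 3, 4, 6, 5, 4, 3]) : ℕ × List ℕ) ∈ WL := by decide +kernel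
  have h1 := wt_pow hy h ht hw topv (by decide +kernel)
  have h2 := wt_bot c
  rw [ht, h1, ← mul_eq_one_iff_eq_inv, ← pow_add, ← orderOf_dvd_iff_pow_eq_one, ← hζ.eq_orderOf] at h2
  rw [← Nat.dvd_iff_mod_eq_zero]
  convert h2 using 1
  ring

end pow

end

end Cfsg.Agent.R2.T1
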